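/- Coprime actions all of whose orbits have 2-power length: the simple sections. -/
import Cfsg.Agent.H52.R1
import Cfsg.Agent.H87.Simple
import Cfsg.Agent.H4.Product
import Cfsg.Agent.H4.HallBasic

set_option autoImplicit false

namespace H25.Baer
open Subgroup MulAction Matrix
open scoped MatrixGroups

theorem no_fifteen (σ : Equiv.Perm (Fin 7)) : orderOf σ ≠ 15 := by
  intro h
  have key : ∀ r s : ℕ, r * s = 15 → r.Prime → s.Prime → ∃ a ∈ σ.cycleType, r ∣ a := by
    intro r s hrs hr hs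
    by_contra hc
    push Not at hc
    have h1 : σ.cycleType.lcm ∣ s := by
      refine Multiset.lcm_dvd.2 fun a ha => ?_
      have h2 := Equiv.Perm.dvd_of_mem_cycleType ha
      rw [h, ← hrs] at h2
      exact (Nat.Coprime.dvd_mul_left ((Nat.Prime.coprime_iff_not_dvd hr).2 (hc a ha)).symm).1 h2
    rw [Equiv.Perm.lcm_cycleType, h, ← hrs] at h1
    have h3 := Nat.le_of_dvd hs.pos h1
    have := hr.two_le
    have := hs.two_le
    nlinarith
  obtain ⟨a, ha, h5⟩ := key 5 3 rfl Nat.prime_five Nat.prime_three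
  obtain ⟨b, hb, h3⟩ := key 3 5 rfl Nat.prime_three Nat.prime_five
  have hs := σ.sum_cycleType_le
  rw [Fintype.card_fin] at hs
  have ha2 := Equiv.Perm.two_le_of_mem_cycleType ha
  have hb2 := Equiv.Perm.two_le_of_mem_cycleType hb
  obtain ⟨t, ht⟩ := Multiset.exists_cons_of_mem ha
  rw [ht, Multiset.sum_cons] at hs
  rw [ht, Multiset.mem_cons] at hb
  rcases hb with rfl | hb
  · omega
  · have := Multiset.single_le_sum (fun x _ => Nat.zero_le x) b hb
    omega

theorem card_a7 : Nat.card (alternatingGroup (Fin 7)) = 2520 := by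
  have := two_mul_nat_card_alternatingGroup (α := Fin 7)
  rw [Nat.card_perm, Nat.card_eq_fintype_card (α := Fin 7), Fintype.card_fin] at this
  have h : Nat.factorial 7 = 5040 := by decide
  omega

theorem a7_index (M : Subgroup (alternatingGroup (Fin 7))) {k : ℕ} (hk : M.index = 2 ^ k) :
    M = ⊤ := by
  by_contra hM
  have : IsSimpleGroup (alternatingGroup (Fin 7)) := alternatingGroup.isSimpleGroup (by simp)
  have hnc : ¬ IsMulCommutative (alternatingGroup (Fin 7)) := fun h => by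
    letI : CommGroup (alternatingGroup (Fin 7)) :=
      { (inferInstance : Group _) with mul_comm := h.is_comm.comm }
    have := IsSimpleGroup.prime_card (α := alternatingGroup (Fin 7))
    rw [card_a7] at this
    norm_num at this
  have h1 := H87.two_mul_card_dvd_factorial hnc M hM
  have h2 := M.index_mul_card
  rw [card_a7, hk] at h1 h2
  have hk3 : k ≤ 3 := by
    by_contra hc
    have : 2 ^ 4 ∣ 2520 := (pow_dvd_pow 2 (by omega)).trans (Dvd.intro _ h2)
    omega
  have hM315 : Nat.card M = 315 := by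
    interval_cases k <;> norm_num [Nat.factorial] at h1 <;> omega
  have : Fact (Nat.Prime 5) := ⟨Nat.prime_five⟩
  have : Fact (Nat.Prime 3) := ⟨Nat.prime_three⟩
  obtain ⟨P⟩ : Nonempty (Sylow 5 M) := inferInstance
  have hP : Nat.card P = 5 := by
    rw [P.card_eq_multiplicity, hM315, show 315 = 5 ^ 1 * 63 by norm_num,
      Nat.factorization_mul (by norm_num) (by norm_num), Nat.Prime.factorization_pow Nat.prime_five]
    simp [Nat.factorization_eq_zero_of_not_dvd]
  have h3 := (P : Subgroup M).index_mul_card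
  have h4 := P.card_dvd_index
  have h5 := card_sylow_modEq_one 5 M
  have h6 := (normalizer (P : Set M)).index_mul_card
  rw [← P.card_eq_index_normalizer, hM315] at h6
  rw [hP, hM315] at h3
  rw [show (P : Subgroup M).index = 63 by omega] at h4
  have h7 : 3 ∣ Nat.card (normalizer (P : Set M)) := by
    have h8 : Nat.card (Sylow 5 M) ∈ Nat.divisors 63 := Nat.mem_divisors.2 ⟨h4, by norm_num⟩
    have h9 : Nat.divisors 63 = {1, 3, 7, 9, 21, 63} := by decide
    rw [h9] at h8
    simp only [Finset.mem_insert, Finset.mem_singleton] at h8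
    unfold Nat.ModEq at h5
    rcases h8 with e | e | e | e | e | e <;> rw [e] at h5 h6 <;> omega
  have hc : IsCyclic P := isCyclic_of_prime_card hP
  have h8 := H87.relIndex_centralizer_dvd_card_mulAut (P : Subgroup M)
  rw [IsCyclic.card_mulAut, hP, show Nat.totient 5 = 4 by decide] at h8
  have h9 := ((centralizer ((P : Subgroup M) : Set M)).subgroupOf
    (normalizer ((P : Subgroup M) : Set M))).index_mul_card
  rw [Nat.card_congr (subgroupOfEquivOfLe (centralizer_le_normalizer _)).toEquiv] at h9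
  have h10 : 3 ∣ Nat.card (centralizer ((P : Subgroup M) : Set M)) := by
    refine (Nat.Coprime.dvd_mul_left ?_).1 (by rw [h9]; exact h7)
    exact Nat.Coprime.coprime_dvd_right h8 (by norm_num)
  obtain ⟨y, hy⟩ := exists_prime_orderOf_dvd_card' 3 h10
  obtain ⟨x, hx⟩ := exists_prime_orderOf_dvd_card' (G := P) 5 hP.symm.dvd
  have hxy : Commute (x : M) (y : M) := y.2 x x.2
  have h11 := hxy.orderOf_mul_eq_mul_orderOf_of_coprime (by
    rw [orderOf_coe, orderOf_coe, hx, hy]; norm_num)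
  rw [orderOf_coe, orderOf_coe, hx, hy] at h11
  refine no_fifteen (((x : M) * (y : M) : M) : alternatingGroup (Fin 7)) ?_
  rw [orderOf_coe, orderOf_coe, h11]

theorem bruhat {F : Type*} [Field F] : ∃ w : PSL(2, F), ∀ g : PSL(2, F),
    g ∈ (H52.bSub F).map (H52.pj F) ∨ ∃ u ∈ (H11.uSub F).map (H52.pj F),
      w⁻¹ * u⁻¹ * g ∈ (H52.bSub F).map (H52.pj F) := by
  let w : SL(2, F) := ⟨!![0, -1; 1, 0], by simp [det_fin_two]⟩
  refine ⟨H52.pj F w, fun g => ?_⟩
  obtain ⟨g, rfl⟩ := H52.pj_surj g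
  by_cases h : g 1 0 = 0
  · exact Or.inl (H52.pj_mem_bSub.2 h)
  · refine Or.inr ⟨H52.pj F (H11.uMat (g 0 0 / g 1 0)), ⟨_, H11.uMat_mem_uSub _, rfl⟩, ?_⟩
    rw [← map_inv, ← map_inv, ← map_mul, ← map_mul, H52.pj_mem_bSub]
    simp only [H11.sl_mul_apply, H11.sl_inv_00, H11.sl_inv_01, H11.sl_inv_10, H11.sl_inv_11]
    simp [w]
    field_simp
    ring

section Act
variable {L V : Type*} [Group L] [Finite L] [CommGroup V] [Finite V] [MulDistribMulAction L V]

/-- the norm map of a subgroup -/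
noncomputable def nrm (V : Type*) [CommGroup V] [MulDistribMulAction L V] (K : Subgroup L) :
    V →* V :=
  haveI := Fintype.ofFinite K
  ∏ k : K, MulDistribMulAction.toMonoidHom V (k : L)

omit [Finite V] in
theorem nrm_apply (K : Subgroup L) (v : V) :
    nrm V K v = haveI := Fintype.ofFinite K; ∏ k : K, (k : L) • v := by
  simp [nrm, MonoidHom.finsetProd_apply]

omit [Finite V] in
theorem nrm_smul (K : Subgroup L) {k : L} (hk : k ∈ K) (v : V) : nrm V K (k • v) = nrm V K v := by
  rw [nrm_apply, nrm_apply]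
  letI := Fintype.ofFinite K
  refine Fintype.prod_equiv (Equiv.mulRight ⟨k, hk⟩) _ _ fun x => ?_
  simp [mul_smul]

omit [Finite V] in
theorem nrm_conj (K : Subgroup L) [hK : K.Normal] (g : L) (v : V) :
    nrm V K (g • v) = g • nrm V K v := by
  rw [nrm_apply, nrm_apply]
  letI := Fintype.ofFinite K
  rw [Finset.smul_prod']
  refine Fintype.prod_equiv (MulAut.conjNormal g⁻¹).toEquiv _ _ fun x => ?_
  simp [mul_smul]

omit [Finite V] in
theorem nrm_fix (K : Subgroup L) {v : V} (h : ∀ k ∈ K, k • v = v) :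
    nrm V K v = v ^ Nat.card K := by
  rw [nrm_apply]
  letI := Fintype.ofFinite K
  rw [Finset.prod_congr rfl fun (k : K) _ => h k k.2]
  simp

omit [Finite L] in
theorem eq_one_of_pow {n : ℕ} (hc : n.Coprime (Nat.card V)) {v : V} (h : v ^ n = 1) : v = 1 := by
  have h1 := orderOf_dvd_of_pow_eq_one h
  have h2 := orderOf_dvd_natCard v
  exact orderOf_eq_one_iff.1 (Nat.eq_one_of_dvd_coprimes hc h1 h2)

/-- fixed points of a subgroup -/
def fixS (V : Type*) [CommGroup V] [MulDistribMulAction L V] (K : Subgroup L) : Subgroup V where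
  carrier := {v | ∀ k ∈ K, k • v = v}
  one_mem' := fun _ _ => smul_one _
  mul_mem' := fun ha hb k hk => by rw [smul_mul', ha k hk, hb k hk]
  inv_mem' := fun ha k hk => by rw [smul_inv', ha k hk]

theorem geo_false {S : Type*} [Group S] {r q : ℕ} [Fact r.Prime] (hr : r ≠ 2) {U B : Subgroup S}
    (hg : H52.Geo r q U B) {w : S} (hw : ∀ g : S, g ∈ B ∨ ∃ u ∈ U, w⁻¹ * u⁻¹ * g ∈ B)
    (f : L →* S) (hf : Function.Surjective f) (hk : ∀ x, f x = 1 → x * x = 1 ∧ x ∈ center L)
    [FaithfulSMul L V] (hc : (Nat.card L).Coprime (Nat.card V))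
    (h2 : ∀ v : V, ∃ k, (stabilizer L v).index = 2 ^ k)
    (hfix : ∀ v : V, (stabilizer L v).map f = ⊤ → v = 1) : False := by
  classical
  have : Finite S := Finite.of_surjective f hf
  obtain ⟨T, hT⟩ := Sylow.mapSurjective_surjective hf r hg.syl.toSylowTop
  have hTU : (T : Subgroup L).map f = U := congrArg (fun P : Sylow r S => (P : Subgroup S)) hT
  have hodd : ∀ x ∈ (T : Subgroup L), x * x = 1 → x = 1 := by
    intro x hx h
    obtain ⟨k, hk⟩ := T.isPGroup' ⟨x, hx⟩
    have hk' : x ^ r ^ k = 1 := congrArg Subtype.val hk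
    have h1 := orderOf_dvd_of_pow_eq_one hk'
    have h3 : orderOf x ∣ 2 := orderOf_dvd_of_pow_eq_one (by rw [pow_two, h])
    exact orderOf_eq_one_iff.1 (Nat.eq_one_of_dvd_coprimes
      (Nat.Coprime.pow_left _ ((Nat.coprime_primes Fact.out Nat.prime_two).2 hr)) h1 h3)
  have hcard : Nat.card T = q := by
    rw [← hg.card, ← hTU]
    refine Nat.card_congr (Equiv.ofBijective (f.subgroupMap T) ⟨?_, f.subgroupMap_surjective _⟩)
    rw [injective_iff_map_eq_one]
    intro x hx
    exact Subtype.ext (hodd x x.2 (hk x (congrArg Subtype.val hx)).1)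
  have hB : ∀ b : L, f b ∈ B → ∀ c ∈ fixS V (T : Subgroup L), b • c ∈ fixS V (T : Subgroup L) := by
    intro b hb c hc u hu
    have h1 : f (b⁻¹ * u * b) ∈ U := by
      rw [map_mul, map_mul, map_inv]
      have := (mem_normalizer_iff.1 (hg.norm (B.inv_mem hb)) (f u)).1 (hTU ▸ ⟨u, hu, rfl⟩)
      simpa using this
    rw [← hTU] at h1
    obtain ⟨u', hu', e⟩ := h1
    obtain ⟨h3, h4⟩ := hk (u'⁻¹ * (b⁻¹ * u * b)) (by rw [map_mul, map_inv, e, inv_mul_cancel])
    have h5 : b⁻¹ * u * b ∈ normalizer (T : Set L) := by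
      have : b⁻¹ * u * b = u' * (u'⁻¹ * (b⁻¹ * u * b)) := by group
      rw [this]
      exact mul_mem (le_normalizer hu') (center_le_normalizer _ h4)
    have h6 : IsPGroup r (zpowers (b⁻¹ * u * b)) := by
      obtain ⟨k, hk⟩ := T.isPGroup' ⟨u, hu⟩
      have hk' : u ^ r ^ k = 1 := congrArg Subtype.val hk
      obtain ⟨j, -, hj⟩ := (Nat.dvd_prime_pow Fact.out).1
        (orderOf_dvd_of_pow_eq_one (x := b⁻¹ * u * b) (n := r ^ k) (by
          have := conj_pow (i := r ^ k) (a := b⁻¹) (b := u)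
          rw [inv_inv] at this
          rw [this, hk']; group))
      exact IsPGroup.of_card ((Nat.card_zpowers _).trans hj)
    have h7 := h6.inf_normalizer_sylow T
    rw [inf_eq_left.2 (zpowers_le.2 h5)] at h7
    have h8 := hc _ (h7.le (mem_zpowers _)).2
    rwa [mul_smul, mul_smul, inv_smul_eq_iff] at h8
  obtain ⟨w, rfl⟩ := hf w
  have hcov : ∀ v : V, ∃ g : L, ∃ c ∈ fixS V (T : Subgroup L), v = g • c := by
    intro v
    obtain ⟨k, hk⟩ := h2 v
    obtain ⟨R⟩ : Nonempty (Sylow r (stabilizer L v)) := inferInstance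
    obtain ⟨R', hR'⟩ := (R.isPGroup'.map (stabilizer L v).subtype).exists_le_sylow
    have h3 : (R : Subgroup (stabilizer L v)).map (stabilizer L v).subtype = R' := by
      refine eq_of_le_of_card_ge hR' (le_of_eq ?_)
      rw [card_map_of_injective (subtype_injective _), R.card_eq_multiplicity,
        R'.card_eq_multiplicity, ← (stabilizer L v).index_mul_card,
        Nat.factorization_mul index_ne_zero_of_finite Nat.card_pos.ne', hk,
        Nat.Prime.factorization_pow Nat.prime_two]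
      simp [Finsupp.single_eq_of_ne hr]
    obtain ⟨g, hg⟩ := exists_smul_eq L T R'
    refine ⟨g, g⁻¹ • v, fun u hu => ?_, (smul_inv_smul g v).symm⟩
    have h4 : g * u * g⁻¹ ∈ (R' : Subgroup L) := hg ▸ ⟨u, hu, rfl⟩
    rw [← h3] at h4
    obtain ⟨y, -, hy⟩ := h4
    have h5 : (g * u * g⁻¹) • v = v := hy ▸ y.2
    rwa [mul_smul, mul_smul, ← eq_inv_smul_iff] at h5
  have hcov2 : ∀ v : V, v ∈ fixS V (T : Subgroup L) ∨
      ∃ u : T, ∃ c ∈ fixS V (T : Subgroup L), v = ((u : L) * w) • c := by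
    intro v
    obtain ⟨g, c, hc, rfl⟩ := hcov v
    rcases hw (f g) with h | ⟨u, hu, h⟩
    · exact Or.inl (hB g h c hc)
    · rw [← hTU] at hu
      obtain ⟨u, hu, rfl⟩ := hu
      refine Or.inr ⟨⟨u, hu⟩, (w⁻¹ * u⁻¹ * g) • c, hB _ (by simpa using h) c hc, ?_⟩
      simp [mul_smul]
  set C := fixS V (T : Subgroup L) with hC
  have hcount : Nat.card V ≤ Nat.card C + q * (Nat.card C - 1) := by
    have h1 : Nat.card {c : C // c ≠ 1} = Nat.card C - 1 := by
      have := Fintype.ofFinite C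
      simp
    rw [← hcard, ← h1, ← Nat.card_prod, ← Nat.card_sum]
    refine Nat.card_le_card_of_surjective (Sum.elim (fun c : C => (c : V))
      fun p : T × {c : C // c ≠ 1} => ((p.1 : L) * w) • (p.2.1 : V)) fun v => ?_
    rcases hcov2 v with h | ⟨u, c, hc, rfl⟩
    · exact ⟨Sum.inl ⟨v, h⟩, rfl⟩
    · by_cases h1 : c = 1
      · exact ⟨Sum.inl 1, by simp [h1]⟩
      · exact ⟨Sum.inr (u, ⟨⟨c, hc⟩, fun e => h1 (congrArg Subtype.val e)⟩), rfl⟩
  have hcT : (Nat.card T).Coprime (Nat.card V) :=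
    hc.coprime_dvd_left (card_subgroup_dvd_card _)
  set N := (nrm V (T : Subgroup L)).ker with hN
  have hCN : ∀ v ∈ C, v ∈ N → v = 1 := fun v h1 h3 =>
    eq_one_of_pow hcT ((nrm_fix _ h1).symm.trans h3)
  have hprod : Nat.card C * Nat.card N ≤ Nat.card V := by
    rw [← Nat.card_prod]
    refine Nat.card_le_card_of_injective (fun p : C × N => (p.1 : V) * p.2) fun p p' e => ?_
    have h1 : (p'.1 : V)⁻¹ * p.1 = p'.2 * (p.2 : V)⁻¹ := by
      rw [inv_mul_eq_iff_eq_mul, ← mul_assoc, eq_mul_inv_iff_mul_eq]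
      exact e
    have h3 := hCN _ (C.mul_mem (C.inv_mem p'.1.2) p.1.2)
      (h1 ▸ N.mul_mem p'.2.2 (N.inv_mem p.2.2))
    rw [h3] at h1
    exact Prod.ext (Subtype.ext (inv_mul_eq_one.1 h3).symm) (Subtype.ext (mul_inv_eq_one.1 h1.symm).symm)
  obtain ⟨v, hvN, hv1⟩ : ∃ v ∈ N, v ≠ 1 := by
    have : Nontrivial T := Finite.one_lt_card_iff_nontrivial.1 (hcard ▸ hg.one_lt)
    obtain ⟨u, hu⟩ := exists_ne (1 : T)
    by_contra h
    push Not at h
    refine hu (Subtype.ext (eq_of_smul_eq_smul fun v : V => ?_))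
    have := h ((u : L) • v * v⁻¹) (by
      rw [MonoidHom.mem_ker, map_mul, map_inv, nrm_smul _ u.2, mul_inv_cancel])
    rw [mul_inv_eq_one] at this
    simpa using this
  have hfree : ∀ u ∈ (T : Subgroup L), u • v = v → u = 1 := by
    intro u hu huv
    by_contra hu1
    rcases hcov2 v with h | ⟨u', c, hc, e⟩
    · exact hv1 (hCN v h hvN)
    have h3 : U ≤ (stabilizer L c).map f := hTU ▸ map_mono fun x hx => hc x hx
    rcases hg.umax.uniq _ h3 le_top with h | h
    · have h4 : ((u' : L) * w)⁻¹ * u * ((u' : L) * w)⁻¹⁻¹ ∈ stabilizer L c := by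
        rw [mem_stabilizer_iff, inv_inv, mul_smul, mul_smul, ← e, huv, e, inv_smul_smul]
      have h5 := h ⟨_, h4, rfl⟩
      rw [map_mul, map_mul, map_inv f (_⁻¹)] at h5
      have h6 := hg.ti _ _ (hTU ▸ ⟨u, hu, rfl⟩) (fun e => hu1 (hodd u hu (hk u e).1)) h5
      rw [map_inv, inv_mem_iff] at h6
      exact hv1 (hCN v (e ▸ hB _ h6 c hc) hvN)
    · rw [hfix c h, smul_one] at e
      exact hv1 e
  have hNq : q + 1 ≤ Nat.card N := by
    rw [← hcard, ← Finite.card_option]
    refine Nat.card_le_card_of_injective (fun o : Option T => o.elim 1 fun u =>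
      (⟨(u : L) • v, by rw [MonoidHom.mem_ker, nrm_smul _ u.2]; exact hvN⟩ : N)) ?_
    rintro (_ | u) (_ | u') e
    · rfl
    · exact absurd (smul_eq_iff_eq_inv_smul _ |>.1 (congrArg Subtype.val e).symm) (by simpa using hv1)
    · exact absurd (smul_eq_iff_eq_inv_smul _ |>.1 (congrArg Subtype.val e)) (by simpa using hv1)
    · have h1 : (u : L) • v = (u' : L) • v := congrArg Subtype.val e
      have := hfree _ ((T : Subgroup L).mul_mem (inv_mem u'.2) u.2) (by
        rw [mul_smul, h1, inv_smul_smul])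
      rw [Subtype.ext (inv_mul_eq_one.1 this)]
  have h1 : 0 < Nat.card C := Nat.card_pos
  have h3 := hg.one_lt
  obtain ⟨m, hm⟩ : ∃ m, Nat.card C = m + 1 := ⟨_, (Nat.succ_pred_eq_of_pos h1).symm⟩
  rw [hm] at hcount hprod
  simp only [Nat.add_sub_cancel] at hcount
  nlinarith

end Act

end H25.Baer
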