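import Cfsg.Agent.H48.DPTop
import Cfsg.Agent.H61.DicksonField
import Cfsg.Agent.H87.Simple

/-! S3275, chapter K: `L₂(q)` without dihedral sections of order `2p`, and Burnside's argument. -/

set_option autoImplicit false

namespace H25.DPK

open Subgroup H48.DP Matrix Polynomial

universe u

section Num

theorem three_dvd {n m : ℕ} (h : ∀ r, r.Prime → r ∣ n → r ≤ 3) (hm : m ∣ n) (h2 : m % 2 = 1)
    {r : ℕ} (hr : r.Prime) (hd : r ∣ m) : r = 3 := by
  have h1 := h r hr (hd.trans hm)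
  have h3 := hr.two_le
  rcases (by omega : r = 2 ∨ r = 3) with rfl | rfl
  · omega
  · rfl

theorem three_dvd' {n m : ℕ} (h : ∀ r, r.Prime → r ∣ n → r ≤ 3) (hm : m ∣ n) (h2 : m % 2 = 1)
    (h1 : m ≠ 1) : 3 ∣ m := by
  obtain ⟨r, hr, hd⟩ := Nat.exists_prime_and_dvd h1
  exact three_dvd h hm h2 hr hd ▸ hd

theorem numA {n : ℕ} (h : ∀ r, r.Prime → r ∣ (n + 1) * ((n + 2) * n) → r ≤ 3) : n ≤ 2 := by
  by_contra hn
  have d1 : n + 1 ∣ (n + 1) * ((n + 2) * n) := Dvd.intro _ rfl
  have d2 : n + 2 ∣ (n + 1) * ((n + 2) * n) := (Dvd.intro _ rfl).mul_left _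
  have d0 : n ∣ (n + 1) * ((n + 2) * n) := (Dvd.intro_left _ rfl).mul_left _
  by_cases h2 : n % 2 = 1
  · have := three_dvd' h d0 h2 (by omega)
    have := three_dvd' h d2 (by omega) (by omega)
    omega
  · have := three_dvd' h d1 (by omega) (by omega)
    by_cases h4 : n % 4 = 0
    · have := three_dvd' h (m := (n + 2) / 2) ((Nat.div_dvd_of_dvd (by omega)).trans d2)
        (by omega) (by omega)
      omega
    · have := three_dvd' h (m := n / 2) ((Nat.div_dvd_of_dvd (by omega)).trans d0)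
        (by omega) (by omega)
      omega

theorem pow3 (a : ℕ) : 3 ^ a % 8 = 1 ∨ 3 ^ a % 8 = 3 := by
  induction a with
  | zero => simp
  | succ a ih => rw [pow_succ]; omega

theorem numB {n : ℕ} (h : ∀ r, r.Prime → r ∣ (n + 2) * n → r ≤ 3) (h4 : n % 4 = 2) :
    n ≤ 2 ∨ n = 6 := by
  by_contra hn
  have d0 : n / 2 ∣ (n + 2) * n := (Nat.div_dvd_of_dvd (by omega)).mul_left _
  have d2 : n / 2 + 1 ∣ (n + 2) * n := Dvd.dvd.mul_right ⟨2, by omega⟩ _
  have h3 := three_dvd' h d0 (by omega) (by omega)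
  have e3 : n / 2 = 3 ^ _ := Nat.eq_prime_pow_of_unique_prime_dvd (by omega)
    fun hr hd => three_dvd h d0 (by omega) hr hd
  have e2 : n / 2 + 1 = 2 ^ _ := Nat.eq_prime_pow_of_unique_prime_dvd (by omega)
    fun {r} hr hd => by
      have h1 := h r hr (hd.trans d2)
      have h5 := hr.two_le
      rcases (by omega : r = 2 ∨ r = 3) with rfl | rfl
      · rfl
      · omega
  have h8 := pow3 (n / 2).primeFactorsList.length
  rw [← e3] at h8
  generalize (n / 2 + 1).primeFactorsList.length = b at e2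
  rcases b with _ | _ | _ | b
  · omega
  · omega
  · omega
  · rw [pow_add] at e2
    omega

end Num

variable {F : Type} [Field F]

theorem sol [Fintype F] {e b c : F} (hb : b ≠ 0)
    (h : IsSquare (-1 : F) ∨ (Fintype.card F % 2 = 1 ∧ (2 : F) ≠ 0 ∧ e * e + 4 * b * c ≠ 0)) :
    ∃ u v w : F, u * u + v * w = -1 ∧ u * e + v * c + w * b = 0 := by
  rcases h with ⟨i, hi⟩ | ⟨h1, h2, h3⟩
  · exact ⟨i, 0, -(i * e) / b, by rw [hi]; ring, by field_simp; ring⟩
  · obtain ⟨s, v, h⟩ := FiniteField.exists_root_sum_quadratic (f := X ^ 2 + C (4 * b * b))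
      (g := C (-(e * e + 4 * b * c)) * X ^ 2) (degree_X_pow_add_C two_pos _)
      (degree_C_mul_X_pow 2 (neg_ne_zero.mpr h3)) h1
    simp only [eval_add, eval_pow, eval_X, eval_C, eval_mul] at h
    refine ⟨(s + e * v) / (2 * b), v, -((s + e * v) / (2 * b) * e + v * c) / b, ?_, ?_⟩
    · field_simp
      linear_combination h
    · field_simp
      ring

theorem real_of (x : SpecialLinearGroup (Fin 2) F) {u v w : F} (h1 : u * u + v * w = -1)
    (h2 : u * (x 0 0 - x 1 1) + v * x 1 0 + w * x 0 1 = 0) :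
    ∃ g : SpecialLinearGroup (Fin 2) F, g * x * g⁻¹ = x⁻¹ := by
  have hd : x 0 0 * x 1 1 - x 0 1 * x 1 0 = 1 := by rw [← det_fin_two, x.det_coe]
  obtain ⟨g, hg⟩ : ∃ g : SpecialLinearGroup (Fin 2) F, (g : Matrix _ _ F) = !![u, v; w, -u] :=
    ⟨⟨!![u, v; w, -u], by rw [det_fin_two_of]; linear_combination -h1⟩, rfl⟩
  refine ⟨g, ?_⟩
  rw [mul_inv_eq_iff_eq_mul, eq_inv_mul_iff_mul_eq]
  ext i j
  fin_cases i <;> fin_cases j <;>
    simp [SpecialLinearGroup.coe_mul, Matrix.mul_apply, Fin.sum_univ_two, hg, vecMul, dotProduct]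
  · linear_combination x 0 0 * h2 + u * hd
  · linear_combination x 0 1 * h2 + v * hd
  · linear_combination x 1 0 * h2 + w * hd
  · linear_combination x 1 1 * h2 - u * hd

theorem real_sl [Fintype F] (x : SpecialLinearGroup (Fin 2) F)
    (h : IsSquare (-1 : F) ∨ (Fintype.card F % 2 = 1 ∧ (2 : F) ≠ 0 ∧
      (x 0 0 - x 1 1) * (x 0 0 - x 1 1) + 4 * x 0 1 * x 1 0 ≠ 0)) :
    ∃ g : SpecialLinearGroup (Fin 2) F, g * x * g⁻¹ = x⁻¹ := by
  by_cases hb : x 0 1 = 0
  · by_cases hc : x 1 0 = 0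
    · exact real_of x (u := 0) (v := 1) (w := -1) (by ring) (by rw [hb, hc]; ring)
    · obtain ⟨u, v, w, h1, h2⟩ := sol (e := x 0 0 - x 1 1) (c := x 0 1) hc
        (h.imp id fun h => ⟨h.1, h.2.1, fun e => h.2.2 (by linear_combination e)⟩)
      exact real_of x (u := u) (v := w) (w := v) (by linear_combination h1)
        (by linear_combination h2)
  · obtain ⟨u, v, w, h1, h2⟩ := sol hb h
    exact real_of x h1 h2

/-- An element with a double eigenvalue has order dividing twice the order of the field. -/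
theorem pow_eq_one [Fintype F] (x : SpecialLinearGroup (Fin 2) F) (h2 : (2 : F) ≠ 0)
    (h : (x 0 0 - x 1 1) * (x 0 0 - x 1 1) + 4 * x 0 1 * x 1 0 = 0) :
    x ^ (2 * Fintype.card F) = 1 := by
  have hd : x 0 0 * x 1 1 - x 0 1 * x 1 0 = 1 := by rw [← det_fin_two, x.det_coe]
  have key : ∀ n : ℕ, (x.1 * x.1) ^ n = 1 + (n : F) • (x.1 * x.1 - 1) := by
    have h0 : (x.1 * x.1 - 1) * (x.1 * x.1 - 1) = 0 := by
      have ht : (x 0 0 + x 1 1) * (x 0 0 + x 1 1) = 4 := by linear_combination h + 4 * hd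
      ext i j
      fin_cases i <;> fin_cases j <;>
        simp [SpecialLinearGroup.coe_mul, Matrix.mul_apply, Fin.sum_univ_two] <;> grind
    intro n
    induction n with
    | zero => simp
    | succ n ih =>
      rw [pow_succ, ih]
      generalize x.1 * x.1 = y at h0
      have : y = 1 + (y - 1) := by abel
      generalize y - 1 = N at h0 this
      subst this
      rw [add_mul, one_mul, smul_mul_assoc, mul_add, mul_one, h0, add_zero, Nat.cast_succ,
        add_smul, one_smul]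
      abel
  refine Subtype.ext ((Matrix.SpecialLinearGroup.coe_pow x _).trans ?_)
  rw [pow_mul, pow_two, key, FiniteField.cast_card_eq_zero, zero_smul, add_zero]
  rfl

theorem not_real [Fintype F] (h : ND (ProjectiveSpecialLinearGroup (Fin 2) F)) {r : ℕ}
    (hr : r.Prime) {x g : SpecialLinearGroup (Fin 2) F} (hx : orderOf x = r)
    (e : g * x * g⁻¹ = x⁻¹) : r ≤ 3 := by
  by_contra h3
  haveI := Fact.mk hr
  refine h.not_real hr (by omega) (x := QuotientGroup.mk x) (g := QuotientGroup.mk g)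
    (orderOf_eq_prime (by rw [← QuotientGroup.mk_pow, ← hx, pow_orderOf_eq_one]; rfl) fun h1 => ?_)
    (by rw [← QuotientGroup.mk_inv, ← QuotientGroup.mk_inv, ← e]; rfl)
  have hc := mem_center_iff.mp ((QuotientGroup.eq_one_iff x).mp h1) g
  rw [hc, mul_inv_cancel_right] at e
  have h5 : x ^ 2 = 1 := by rw [pow_two]; exact mul_eq_one_iff_eq_inv.2 e
  have := Nat.le_of_dvd two_pos (hx ▸ orderOf_dvd_of_pow_eq_one h5)
  omega

theorem jobKL2 : JobKL2 := by
  intro F _ _ h
  obtain ⟨n, hn⟩ : ∃ n, Fintype.card F = n + 1 := ⟨_, (Nat.succ_pred_eq_of_pos Fintype.card_pos).symm⟩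
  have hc : Nat.card (SpecialLinearGroup (Fin 2) F) = (n + 1) * ((n + 2) * n) := by
    rw [H61.card_sl_two', Nat.card_eq_fintype_card, hn,
      show (n + 1) ^ 2 = (n + 2) * n + 1 by ring, Nat.add_sub_cancel]
  by_cases hs : IsSquare (-1 : F)
  · have := numA (n := n) fun r hr hd => by
      haveI := Fact.mk hr
      obtain ⟨x, hx⟩ := exists_prime_orderOf_dvd_card' r (hc ▸ hd)
      obtain ⟨g, e⟩ := real_sl x (Or.inl hs)
      exact not_real h hr hx e
    omega
  · have h4 : Fintype.card F % 4 = 3 := by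
      by_contra h4
      exact hs (FiniteField.isSquare_neg_one_iff.mpr h4)
    have h2 : (2 : F) ≠ 0 := fun e => hs ⟨1, by linear_combination -e⟩
    have := numB (n := n) (fun r hr hd => by
      haveI := Fact.mk hr
      obtain ⟨x, hx⟩ := exists_prime_orderOf_dvd_card' r (hc ▸ hd.mul_left _)
      by_cases h0 : (x 0 0 - x 1 1) * (x 0 0 - x 1 1) + 4 * x 0 1 * x 1 0 = 0
      · have h1 := orderOf_dvd_of_pow_eq_one (pow_eq_one x h2 h0)
        rw [hx, hn] at h1
        rcases (Nat.Prime.dvd_mul hr).mp h1 with h5 | h5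
        · exact (Nat.le_of_dvd two_pos h5).trans (by decide)
        · have h6 : r ∣ (n + 1) * (n + 1) := h5.mul_left _
          rw [show (n + 1) * (n + 1) = (n + 2) * n + 1 by ring] at h6
          exact absurd ((Nat.dvd_add_right hd).mp h6) hr.not_dvd_one
      · obtain ⟨g, e⟩ := real_sl x (Or.inr ⟨by omega, h2, h0⟩)
        exact not_real h hr hx e) (by omega)
    omega

theorem jobKBu : JobKBu.{u} := by
  intro X _ _ _ hc p hp h1 h2 h
  have pp : p.Prime := by rcases hp with rfl | rfl <;> norm_num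
  haveI := Fact.mk pp
  haveI := Fact.mk Nat.prime_two
  obtain ⟨P⟩ : Nonempty (Sylow p X) := inferInstance
  have hP : Nat.card P = p := by
    rw [P.card_eq_multiplicity, (Nat.factorization_eq_of_coprime_left (b := 1) (by simp)
      (by simpa using ⟨pp, h1, Nat.card_pos.ne'⟩)).symm.trans ?_, pow_one]
    rw [mul_one]
    have a := (pp.pow_dvd_iff_le_factorization (k := 1) (Nat.card_pos (α := X)).ne').mp (by simpa)
    have b := mt (pp.pow_dvd_iff_le_factorization (k := 2) (Nat.card_pos (α := X)).ne').mpr h2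
    omega
  haveI := isCyclic_of_prime_card hP
  refine H87.not_normalizer_le_centralizer hc h1 P fun g hg => ?_
  obtain ⟨k, m, hm, e⟩ := Nat.exists_eq_two_pow_mul_odd (orderOf_pos g).ne'
  have a1 : g ^ m ∈ centralizer ((P : Subgroup X) : Set X) :=
    h.inv p pp (by omega) (zpowers (g ^ m)) P
      (H98.isPGroup_zpowers (k := k) (by rw [← pow_mul, mul_comm, ← e, pow_orderOf_eq_one])) P.2
      (zpowers_le.mpr (pow_mem hg m)) (mem_zpowers _)
  have a2 : g ^ 16 ∈ centralizer ((P : Subgroup X) : Set X) := by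
    have h3 : (normalizerMonoidHom (P : Subgroup X) ⟨g, hg⟩) ^ 16 = 1 := by
      apply orderOf_dvd_iff_pow_eq_one.mp
      refine (_root_.orderOf_dvd_natCard _).trans ?_
      rw [IsCyclic.card_mulAut, hP, Nat.totient_prime pp]
      rcases hp with rfl | rfl <;> decide
    rw [← map_pow, ← MonoidHom.mem_ker, normalizerMonoidHom_ker] at h3
    exact h3
  have hco : Nat.Coprime m 16 := (Nat.coprime_two_right.mpr hm).pow_right 4
  obtain ⟨j, -, hj⟩ := Nat.exists_mul_mod_eq_one_of_coprime hco (by decide)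
  have e2 : g = (g ^ m) ^ j * ((g ^ 16) ^ (m * j / 16))⁻¹ := by
    rw [eq_mul_inv_iff_mul_eq, ← pow_mul, ← pow_mul, ← pow_succ']
    congr 1
    omega
  rw [e2]
  exact mul_mem (pow_mem a1 j) (inv_mem (pow_mem a2 _))

end H25.DPK
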