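/- Derangements of transitive groups: the bound `2 |G| / n` (counting part). -/
import Cfsg.Agent.Base

set_option autoImplicit false

namespace H25.Der

open MulAction Finset
open scoped Classical

variable {G Ω : Type*} [Group G] [MulAction G Ω]

/-- fixed points as a finset -/
noncomputable def Fx (Ω : Type*) [MulAction G Ω] [Fintype Ω] (g : G) : Finset Ω :=
  univ.filter fun z : Ω => g • z = z

/-- two point stabiliser -/
def K (G : Type*) [Group G] [MulAction G Ω] (x y : Ω) : Subgroup G := stabilizer G (x, y)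

/-- double transitivity -/
def TT (G Ω : Type*) [Group G] [MulAction G Ω] : Prop :=
  ∀ x y x' y' : Ω, x ≠ y → x' ≠ y' → ∃ g : G, g • x = x' ∧ g • y = y'

theorem mem_K {x y : Ω} {g : G} : g ∈ K G x y ↔ g • x = x ∧ g • y = y := by
  simp [K, mem_stabilizer_iff, Prod.ext_iff]

theorem mem_Fx [Fintype Ω] {g : G} {z : Ω} : z ∈ Fx Ω g ↔ g • z = z := by simp [Fx]

theorem card_Fx [Fintype Ω] (g : G) : (Fx Ω g).card = Nat.card (fixedBy Ω g) := by
  rw [Nat.card_eq_fintype_card, Fintype.card_subtype]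
  congr 1

theorem burnside {X : Type*} [MulAction G X] [Fintype G] [Finite X] :
    ∑ g : G, Nat.card (fixedBy X g) = Nat.card (orbitRel.Quotient G X) * Nat.card G := by
  have := Fintype.ofFinite X
  have := Fintype.ofFinite (orbitRel.Quotient G X)
  have h := sum_card_fixedBy_eq_card_orbits_mul_card_group G X
  simp only [← Nat.card_eq_fintype_card] at h
  exact h

variable [Fintype G] [Fintype Ω]

theorem sum_Fx (htr : IsPretransitive G Ω) [Nonempty Ω] :
    ∑ g : G, (Fx Ω g).card = Nat.card G := by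
  simp only [card_Fx]
  rw [burnside]
  have : Nat.card (orbitRel.Quotient G Ω) = 1 := by
    rw [Nat.card_eq_one_iff_unique]
    refine ⟨⟨?_⟩, ⟨Quotient.mk _ (Classical.arbitrary Ω)⟩⟩
    rintro ⟨x⟩ ⟨y⟩
    apply Quotient.sound
    obtain ⟨g, hg⟩ := htr.exists_smul_eq y x
    exact ⟨g, hg⟩
  rw [this, one_mul]

theorem sum_Fx_sq (h : ¬ TT G Ω) : 3 * Nat.card G ≤ ∑ g : G, (Fx Ω g).card ^ 2 := by
  have h1 : ∀ g : G, (Fx Ω g).card ^ 2 = Nat.card (fixedBy (Ω × Ω) g) := by
    intro g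
    rw [card_Fx, sq, ← Nat.card_prod]
    refine Nat.card_congr ⟨fun p => ⟨(p.1.1, p.2.1), ?_⟩, fun p => (⟨p.1.1, ?_⟩, ⟨p.1.2, ?_⟩),
      fun _ => rfl, fun _ => rfl⟩
    · have h1 := p.1.2
      have h2 := p.2.2
      simp only [mem_fixedBy] at h1 h2 ⊢
      exact Prod.ext h1 h2
    · have h1 := p.2
      simp only [mem_fixedBy] at h1 ⊢
      exact congrArg Prod.fst h1
    · have h1 := p.2
      simp only [mem_fixedBy] at h1 ⊢
      exact congrArg Prod.snd h1
  simp only [h1]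
  rw [burnside]
  refine Nat.mul_le_mul_right _ ?_
  simp only [TT, not_forall] at h
  obtain ⟨x, y, x', y', hxy, hxy', hn⟩ := h
  have := Fintype.ofFinite (orbitRel.Quotient G (Ω × Ω))
  let q : Ω × Ω → orbitRel.Quotient G (Ω × Ω) := Quotient.mk _
  have hq : ∀ p p' : Ω × Ω, q p = q p' → ∃ g : G, g • p' = p := fun p p' h => Quotient.exact h
  have h12 : q (x, x) ≠ q (x, y) := by
    intro h
    obtain ⟨g, hg⟩ := hq _ _ h
    have h1 : g • x = x := congrArg Prod.fst hg
    have h2 : g • y = x := congrArg Prod.snd hg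
    exact hxy (smul_left_cancel g (h1.trans h2.symm))
  have h13 : q (x, x) ≠ q (x', y') := by
    intro h
    obtain ⟨g, hg⟩ := hq _ _ h
    have h1 : g • x' = x := congrArg Prod.fst hg
    have h2 : g • y' = x := congrArg Prod.snd hg
    exact hxy' (smul_left_cancel g (h1.trans h2.symm))
  have h23 : q (x, y) ≠ q (x', y') := by
    intro h
    obtain ⟨g, hg⟩ := hq _ _ h.symm
    exact hn ⟨g, congrArg Prod.fst hg, congrArg Prod.snd hg⟩
  rw [Nat.card_eq_fintype_card]
  have : ({q (x, x), q (x, y), q (x', y')} : Finset _).card = 3 := card_eq_three.2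
    ⟨_, _, _, h12, h13, h23, rfl⟩
  rw [← this]
  exact card_le_univ _

/-- number of derangements -/
noncomputable def D (G Ω : Type*) [Group G] [MulAction G Ω] [Fintype G] [Fintype Ω] : ℕ :=
  (univ.filter fun g : G => (Fx Ω g).card = 0).card

theorem D_eq : D G Ω = Nat.card {g : G // ∀ ω : Ω, g • ω ≠ ω} := by
  rw [Nat.card_eq_fintype_card, Fintype.card_subtype, D]
  congr 1
  ext g
  simp [Fx, filter_eq_empty_iff]

theorem bound_not_TT (htr : IsPretransitive G Ω) [Nonempty Ω] (h : ¬ TT G Ω) :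
    2 * Nat.card G ≤ Fintype.card Ω * D G Ω := by
  have h1 := sum_Fx htr
  have h2 := sum_Fx_sq h
  set n := Fintype.card Ω with hn
  have h3 : ∀ g : G, ((Fx Ω g).card : ℤ) ^ 2 - (n + 1) * (Fx Ω g).card + n ≤
      if (Fx Ω g).card = 0 then (n : ℤ) else 0 := by
    intro g
    have hle : (Fx Ω g).card ≤ n := card_le_univ _
    split_ifs with h0
    · simp [h0]
    · have h1 : (1 : ℤ) ≤ (Fx Ω g).card := by exact_mod_cast Nat.one_le_iff_ne_zero.2 h0
      have h2 : ((Fx Ω g).card : ℤ) ≤ n := by exact_mod_cast hle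
      nlinarith
  have h4 := sum_le_sum fun g (_ : g ∈ (univ : Finset G)) => h3 g
  rw [sum_add_distrib, sum_sub_distrib, ← mul_sum, ← sum_filter] at h4
  simp only [sum_const, card_univ, nsmul_eq_mul] at h4
  have h1' : ∑ g : G, ((Fx Ω g).card : ℤ) = Nat.card G := by exact_mod_cast h1
  have h2' : 3 * (Nat.card G : ℤ) ≤ ∑ g : G, ((Fx Ω g).card : ℤ) ^ 2 := by exact_mod_cast h2
  rw [h1', ← Nat.card_eq_fintype_card] at h4
  have : (2 * Nat.card G : ℤ) ≤ n * D G Ω := by
    unfold D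
    nlinarith
  exact_mod_cast this

theorem card_K (h : TT G Ω) {x y : Ω} (hxy : x ≠ y) :
    Fintype.card Ω * (Fintype.card Ω - 1) * Nat.card (K G x y) = Nat.card G := by
  have h1 := (stabilizer G (x, y)).index_mul_card
  rw [index_stabilizer] at h1
  rw [← h1, K]
  congr 1
  have : orbit G (x, y) = ((univ : Finset Ω).offDiag : Set (Ω × Ω)) := by
    ext p
    simp only [coe_offDiag, coe_univ, Set.mem_offDiag, Set.mem_univ, true_and]
    constructor
    · rintro ⟨g, rfl⟩ h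
      exact hxy (smul_left_cancel g h)
    · intro hp
      obtain ⟨g, h1, h2⟩ := h x y p.1 p.2 hxy hp
      exact ⟨g, Prod.ext h1 h2⟩
  rw [this, Set.ncard_coe_finset, offDiag_card, card_univ, Nat.mul_sub_one]

theorem card_K_eq (h : TT G Ω) {x y x' y' : Ω} (hxy : x ≠ y) (hxy' : x' ≠ y') :
    Nat.card (K G x y) = Nat.card (K G x' y') := by
  have h1 := card_K h hxy
  rw [← card_K h hxy'] at h1
  have : 1 < Fintype.card Ω := Fintype.one_lt_card_iff.2 ⟨x, y, hxy⟩
  exact Nat.eq_of_mul_eq_mul_left (Nat.mul_pos (by omega) (by omega)) h1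

omit [Fintype G] in
theorem card_Fx_conj (g h : G) : (Fx Ω (g * h * g⁻¹)).card = (Fx Ω h).card := by
  symm
  refine card_bij (fun z _ => g • z) ?_ ?_ ?_
  · intro z hz
    rw [mem_Fx] at hz ⊢
    rw [mul_smul, mul_smul, inv_smul_smul, hz]
  · intro z _ w _ hzw
    exact smul_left_cancel g hzw
  · intro z hz
    refine ⟨g⁻¹ • z, ?_, smul_inv_smul g z⟩
    rw [mem_Fx] at hz ⊢
    rw [mul_smul, mul_smul, ← eq_inv_smul_iff] at hz
    exact hz

/-- the finset of a subgroup -/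
noncomputable def fs (H : Subgroup G) : Finset G := univ.filter fun g => g ∈ H

omit [Fintype Ω] in
theorem mem_fs {H : Subgroup G} {g : G} : g ∈ fs H ↔ g ∈ H := by simp [fs]

omit [Fintype Ω] in
theorem card_fs (H : Subgroup G) : (fs H).card = Nat.card H := by
  rw [Nat.card_eq_fintype_card, Fintype.card_subtype, fs]

theorem sum_K_eq (h : TT G Ω) {x y x' y' : Ω} (hxy : x ≠ y) (hxy' : x' ≠ y') :
    ∑ g ∈ fs (K G x y), (1 : ℚ) / (Fx Ω g).card = ∑ g ∈ fs (K G x' y'), (1 : ℚ) / (Fx Ω g).card := by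
  obtain ⟨u, h1, h2⟩ := h x y x' y' hxy hxy'
  refine sum_bij (fun g _ => u * g * u⁻¹) ?_ ?_ ?_ ?_
  · intro g hg
    rw [mem_fs, mem_K] at hg ⊢
    rw [← h1, ← h2]
    simp [mul_smul, hg.1, hg.2]
  · intro g _ g' _ hgg
    simpa using hgg
  · intro g hg
    refine ⟨u⁻¹ * g * u, ?_, by group⟩
    rw [mem_fs, mem_K] at hg ⊢
    simp [mul_smul, h1, h2, hg.1, hg.2, inv_smul_eq_iff]
  · intro g _
    rw [card_Fx_conj]

theorem D_formula (htr : IsPretransitive G Ω) (h : TT G Ω) {a b : Ω} (hab : a ≠ b) :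
    (D G Ω : ℚ) = Fintype.card Ω * (Fintype.card Ω - 1) *
      ∑ g ∈ fs (K G a b), (1 : ℚ) / (Fx Ω g).card := by
  have : Nonempty Ω := ⟨a⟩
  have h1 := sum_Fx htr
  have h2 : ∑ p ∈ (univ : Finset Ω).offDiag, ∑ g ∈ fs (K G p.1 p.2), (1 : ℚ) / (Fx Ω g).card =
      Fintype.card Ω * (Fintype.card Ω - 1) * ∑ g ∈ fs (K G a b), (1 : ℚ) / (Fx Ω g).card := by
    rw [sum_congr rfl fun p hp => sum_K_eq h (mem_offDiag.1 hp).2.2 hab, sum_const, offDiag_card,
      card_univ, nsmul_eq_mul, Nat.cast_sub (Nat.le_mul_self _)]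
    push_cast
    ring
  rw [← h2]
  have h3 : ∑ p ∈ (univ : Finset Ω).offDiag, ∑ g ∈ fs (K G p.1 p.2), (1 : ℚ) / (Fx Ω g).card =
      ∑ g : G, ∑ p ∈ (Fx Ω g).offDiag, (1 : ℚ) / (Fx Ω g).card := by
    refine sum_comm' ?_
    intro p g
    simp only [mem_offDiag, mem_univ, true_and, mem_fs, mem_K, mem_Fx, and_true]
    tauto
  rw [h3]
  have h4 : ∀ g : G, ∑ p ∈ (Fx Ω g).offDiag, (1 : ℚ) / (Fx Ω g).card =
      ((Fx Ω g).card - 1 : ℚ) + if (Fx Ω g).card = 0 then 1 else 0 := by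
    intro g
    rw [sum_const, offDiag_card, nsmul_eq_mul, Nat.cast_sub (Nat.le_mul_self _)]
    split_ifs with h0
    · simp [h0]
    · have : ((Fx Ω g).card : ℚ) ≠ 0 := by exact_mod_cast h0
      push_cast
      field_simp
      ring
  simp only [h4]
  rw [sum_add_distrib, sum_sub_distrib, ← sum_filter]
  have h1' : ∑ g : G, ((Fx Ω g).card : ℚ) = Nat.card G := by exact_mod_cast h1
  rw [h1']
  simp [D]

end H25.Der
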