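/- Derangements of doubly transitive groups: lines, fixed point bounds, suborbits. -/
import Cfsg.Agent.H25.Der

set_option autoImplicit false

namespace H25.Der

open MulAction Finset
open scoped Classical

variable {G Ω : Type*} [Group G] [MulAction G Ω] [Fintype G] [Fintype Ω]

/-- the line through two points -/
noncomputable def L (G : Type*) [Group G] [MulAction G Ω] (x y : Ω) : Finset Ω :=
  univ.filter fun z => ∀ g ∈ K G x y, g • z = z

omit [Fintype G] in
theorem mem_L {x y z : Ω} : z ∈ L G x y ↔ ∀ g ∈ K G x y, g • z = z := by simp [L]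

omit [Fintype G] in
theorem left_mem_L (x y : Ω) : x ∈ L G x y := mem_L.2 fun _ hg => (mem_K.1 hg).1

omit [Fintype G] in
theorem right_mem_L (x y : Ω) : y ∈ L G x y := mem_L.2 fun _ hg => (mem_K.1 hg).2

theorem K_eq_of_le (h : TT G Ω) {x y x' y' : Ω} (hxy : x ≠ y) (hxy' : x' ≠ y')
    (hle : K G x y ≤ K G x' y') : K G x y = K G x' y' :=
  Subgroup.eq_of_le_of_card_ge hle (card_K_eq h hxy' hxy).le

theorem K_eq_of_mem (h : TT G Ω) {x y x' y' : Ω} (hxy : x ≠ y) (hxy' : x' ≠ y')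
    (hx : x' ∈ L G x y) (hy : y' ∈ L G x y) : K G x y = K G x' y' :=
  K_eq_of_le h hxy hxy' fun g hg => mem_K.2 ⟨mem_L.1 hx g hg, mem_L.1 hy g hg⟩

theorem L_eq_of_mem (h : TT G Ω) {x y x' y' : Ω} (hxy : x ≠ y) (hxy' : x' ≠ y')
    (hx : x' ∈ L G x y) (hy : y' ∈ L G x y) : L G x y = L G x' y' := by
  unfold L
  rw [K_eq_of_mem h hxy hxy' hx hy]

omit [Fintype G] [Fintype Ω] in
theorem conj_mem_K {u g : G} {x y : Ω} (hg : g ∈ K G x y) :
    u * g * u⁻¹ ∈ K G (u • x) (u • y) := by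
  rw [mem_K] at hg ⊢
  simp [mul_smul, hg.1, hg.2]

omit [Fintype G] [Fintype Ω] in
theorem conj_mem_K' {u g : G} {x y : Ω} (hg : g ∈ K G (u • x) (u • y)) :
    u⁻¹ * g * u ∈ K G x y := by
  rw [mem_K] at hg ⊢
  simp [mul_smul, hg.1, hg.2]

omit [Fintype G] in
theorem card_L_eq (h : TT G Ω) {x y x' y' : Ω} (hxy : x ≠ y) (hxy' : x' ≠ y') :
    (L G x y).card = (L G x' y').card := by
  obtain ⟨u, rfl, rfl⟩ := h x y x' y' hxy hxy'
  refine card_bij (fun z _ => u • z) ?_ ?_ ?_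
  · intro z hz
    rw [mem_L] at hz ⊢
    intro g hg
    have := hz _ (conj_mem_K' hg)
    rwa [mul_smul, mul_smul, inv_smul_eq_iff] at this
  · intro z _ w _ hzw
    exact smul_left_cancel u hzw
  · intro z hz
    refine ⟨u⁻¹ • z, ?_, smul_inv_smul u z⟩
    rw [mem_L] at hz ⊢
    intro g hg
    have := hz _ (conj_mem_K (u := u) hg)
    rwa [mul_smul, mul_smul, ← eq_inv_smul_iff] at this

theorem Fx_bound (h : TT G Ω) {a b : Ω} (hab : a ≠ b) {g : G} {z : Ω} (hz : g • z ≠ z) :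
    (Fx Ω g).card * ((L G a b).card - 1) + 1 ≤ Fintype.card Ω := by
  have hne : ∀ x ∈ Fx Ω g, z ≠ x := fun x hx e => hz (e ▸ mem_Fx.1 hx)
  have h1 : ((Fx Ω g).biUnion fun x => (L G z x).erase z).card =
      ∑ x ∈ Fx Ω g, ((L G z x).erase z).card := by
    refine card_biUnion ?_
    intro x hx x' hx' hxx'
    rw [mem_coe] at hx hx'
    rw [Function.onFun, disjoint_left]
    intro w hw hw'
    rw [mem_erase] at hw hw'
    have e1 := L_eq_of_mem h (hne x hx) hw.1.symm (left_mem_L z x) hw.2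
    have e2 := L_eq_of_mem h (hne x' hx') hw.1.symm (left_mem_L z x') hw'.2
    have e3 := L_eq_of_mem h (hne x hx) hxx' (right_mem_L z x)
      (by rw [e1, ← e2]; exact right_mem_L z x')
    have : z ∈ L G x x' := e3 ▸ left_mem_L z x
    exact hz (mem_L.1 this g (mem_K.2 ⟨mem_Fx.1 hx, mem_Fx.1 hx'⟩))
  have h2 : ∑ x ∈ Fx Ω g, ((L G z x).erase z).card = (Fx Ω g).card * ((L G a b).card - 1) := by
    rw [sum_congr rfl fun x hx => (card_erase_of_mem (left_mem_L z x)).trans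
      (congrArg (· - 1) (card_L_eq h (hne x hx) hab)), sum_const, smul_eq_mul]
  have h3 : ((Fx Ω g).biUnion fun x => (L G z x).erase z) ⊆ univ.erase z := by
    intro w hw
    obtain ⟨x, _, hw⟩ := mem_biUnion.1 hw
    exact mem_erase.2 ⟨(mem_erase.1 hw).1, mem_univ _⟩
  have h4 := card_le_card h3
  rw [h1, h2, card_erase_of_mem (mem_univ _), card_univ] at h4
  have : 0 < Fintype.card Ω := Fintype.card_pos_iff.2 ⟨a⟩
  omega

/-- orbit of a subgroup as a finset -/
noncomputable def O (H : Subgroup G) (z : Ω) : Finset Ω :=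
  univ.filter fun w => ∃ g ∈ H, g • z = w

theorem mem_O {H : Subgroup G} {z w : Ω} : w ∈ O H z ↔ ∃ g ∈ H, g • z = w := by simp [O]

theorem self_mem_O (H : Subgroup G) (z : Ω) : z ∈ O H z := mem_O.2 ⟨1, H.one_mem, one_smul _ _⟩

theorem smul_mem_O {H : Subgroup G} {g : G} (hg : g ∈ H) (z : Ω) : g • z ∈ O H z :=
  mem_O.2 ⟨g, hg, rfl⟩

theorem O_eq_of_mem {H : Subgroup G} {z w : Ω} (hw : w ∈ O H z) : O H w = O H z := by
  obtain ⟨g, hg, rfl⟩ := mem_O.1 hw
  ext v
  simp only [mem_O]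
  constructor
  · rintro ⟨u, hu, rfl⟩
    exact ⟨u * g, H.mul_mem hu hg, mul_smul _ _ _⟩
  · rintro ⟨u, hu, rfl⟩
    exact ⟨u * g⁻¹, H.mul_mem hu (H.inv_mem hg), by rw [mul_smul, inv_smul_smul]⟩

/-- size of a point stabiliser in a subgroup -/
noncomputable def st (H : Subgroup G) (z : Ω) : ℕ := ((fs H).filter fun g => g • z = z).card

omit [Fintype Ω] in
theorem st_eq (H : Subgroup G) (z : Ω) : st H z = Nat.card ↥(H ⊓ stabilizer G z) := by
  rw [← card_fs, st]
  congr 1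
  ext g
  simp [mem_fs]

theorem card_O_mul (H : Subgroup G) (z : Ω) : (O H z).card * st H z = Nat.card H := by
  have h1 := (stabilizer H z).index_mul_card
  rw [index_stabilizer] at h1
  rw [← h1]
  congr 1
  · rw [← Set.ncard_coe_finset]
    congr 1
    ext w
    simp only [mem_coe, mem_O, mem_orbit_iff]
    constructor
    · rintro ⟨g, hg, rfl⟩
      exact ⟨⟨g, hg⟩, rfl⟩
    · rintro ⟨g, rfl⟩
      exact ⟨g, g.2, rfl⟩
  · rw [st_eq]
    refine Nat.card_congr ⟨fun g => ⟨⟨g.1, g.2.1⟩, g.2.2⟩, fun g => ⟨g.1.1, g.1.2, g.2⟩,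
      fun _ => rfl, fun _ => rfl⟩

theorem sum_Fx_sub (H : Subgroup G) : ∑ g ∈ fs H, (Fx Ω g).card = ∑ z : Ω, st H z := by
  simp only [Fx, st, card_filter]
  exact sum_comm

theorem card_O_conj (u : G) (x y z : Ω) :
    (O (K G (u • x) (u • y)) (u • z)).card = (O (K G x y) z).card := by
  symm
  refine card_bij (fun w _ => u • w) ?_ ?_ ?_
  · intro w hw
    obtain ⟨g, hg, rfl⟩ := mem_O.1 hw
    exact mem_O.2 ⟨_, conj_mem_K (u := u) hg, by simp [mul_smul]⟩
  · intro z _ w _ hzw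
    exact smul_left_cancel u hzw
  · intro w hw
    obtain ⟨g, hg, rfl⟩ := mem_O.1 hw
    exact ⟨_, mem_O.2 ⟨_, conj_mem_K' hg, rfl⟩, by simp [mul_smul]⟩

theorem card_O_le_all (h : TT G Ω) {a b : Ω} (hab : a ≠ b) {m : ℕ}
    (hm : ∀ z : Ω, (O (K G a b) z).card ≤ m) {x y : Ω} (hxy : x ≠ y) (z : Ω) :
    (O (K G x y) z).card ≤ m := by
  obtain ⟨u, rfl, rfl⟩ := h a b x y hab hxy
  have := card_O_conj u a b (u⁻¹ • z)
  rw [smul_inv_smul] at this
  exact this ▸ hm _

theorem mem_pair_of_card_le_two {H : Subgroup G} {z z' w : Ω} (h2 : (O H z).card ≤ 2)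
    (hz : z ≠ z') (hz' : z' ∈ O H z) (hw : w ∈ O H z) : w = z ∨ w = z' := by
  by_contra hc
  push Not at hc
  have : ({z, z', w} : Finset Ω) ⊆ O H z := by
    intro v hv
    simp only [mem_insert, mem_singleton] at hv
    rcases hv with rfl | rfl | rfl
    exacts [self_mem_O _ _, hz', hw]
  have h3 : ({z, z', w} : Finset Ω).card = 3 :=
    card_eq_three.2 ⟨_, _, _, hz, hc.1.symm, hc.2.symm, rfl⟩
  have := card_le_card this
  omega

/-- setwise stabiliser of a pair -/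
def S2 (G : Type*) [Group G] [MulAction G Ω] (z z' : Ω) : Subgroup G where
  carrier := {g | (g • z = z ∧ g • z' = z') ∨ (g • z = z' ∧ g • z' = z)}
  one_mem' := Or.inl ⟨one_smul _ _, one_smul _ _⟩
  mul_mem' := by
    rintro g g' (⟨h1, h2⟩ | ⟨h1, h2⟩) (⟨h3, h4⟩ | ⟨h3, h4⟩) <;>
      simp [mul_smul, h1, h2, h3, h4]
  inv_mem' := by
    rintro g (⟨h1, h2⟩ | ⟨h1, h2⟩)
    · exact Or.inl ⟨inv_smul_eq_iff.2 h1.symm, inv_smul_eq_iff.2 h2.symm⟩
    · exact Or.inr ⟨inv_smul_eq_iff.2 h2.symm, inv_smul_eq_iff.2 h1.symm⟩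

theorem card_S2_le (z z' : Ω) : Nat.card (S2 G z z') ≤ 2 * Nat.card (K G z z') := by
  rw [← card_O_mul (S2 G z z') z]
  refine Nat.mul_le_mul ?_ ?_
  · refine (card_le_card (t := {z, z'}) ?_).trans card_le_two
    intro w hw
    obtain ⟨g, hg | hg, rfl⟩ := mem_O.1 hw <;> simp [hg.1]
  · rw [st_eq]
    refine Subgroup.card_le_of_le ?_
    rintro g ⟨hg | hg, hg'⟩
    · exact mem_K.2 hg
    · have h1 : g • z = z := hg'
      have : z = z' := h1.symm.trans hg.1
      exact mem_K.2 ⟨h1, by rw [hg.2, this]⟩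

theorem le_S2 {H : Subgroup G} {z : Ω} {t : G} (ht : t ∈ H) (hz : t • z ≠ z)
    (h2 : (O H z).card ≤ 2) : H ≤ S2 G z (t • z) := by
  intro g hg
  have h1 := mem_pair_of_card_le_two h2 hz.symm (smul_mem_O ht z) (smul_mem_O hg z)
  have h3 := mem_pair_of_card_le_two h2 hz.symm (smul_mem_O ht z) (smul_mem_O (H.mul_mem hg ht) z)
  rw [mul_smul] at h3
  have h4 : g • z ≠ g • t • z := fun e => hz (smul_left_cancel g e).symm
  rcases h1 with h1 | h1 <;> rcases h3 with h3 | h3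
  · exact absurd (h1.trans h3.symm) h4
  · exact Or.inl ⟨h1, h3⟩
  · exact Or.inr ⟨h1, h3⟩
  · exact absurd (h1.trans h3.symm) h4

omit [Fintype Ω] in
theorem two_mul_card_le_of_lt {A B : Subgroup G} (h : A < B) : 2 * Nat.card A ≤ Nat.card B := by
  obtain ⟨c, hc⟩ := Subgroup.card_dvd_of_le h.le
  have hB : 0 < Nat.card B := Nat.card_pos
  have hne : Nat.card B ≠ Nat.card A := fun e => h.ne (Subgroup.eq_of_le_of_card_ge h.le e.le)
  rcases c with _ | _ | c
  · omega
  · exact absurd (by simpa only [zero_add, mul_one] using hc) hne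
  · rw [hc]; nlinarith

/-- If all suborbits of the two point stabiliser have at most two points, it has order at most 2. -/
theorem card_K_le_two [FaithfulSMul G Ω] (h : TT G Ω) {a b : Ω} (hab : a ≠ b)
    (hm : ∀ z : Ω, (O (K G a b) z).card ≤ 2) : Nat.card (K G a b) ≤ 2 := by
  by_cases hK : ∀ c : Ω, c ∈ L G a b
  · have : K G a b = ⊥ := by
      rw [eq_bot_iff]
      intro g hg
      exact eq_of_smul_eq_smul fun c : Ω => by rw [mem_L.1 (hK c) g hg, one_smul]
    simp [this]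
  push Not at hK
  obtain ⟨c, hc⟩ := hK
  have hac : a ≠ c := fun e => hc (e ▸ left_mem_L a b)
  have hbc : b ≠ c := fun e => hc (e ▸ right_mem_L a b)
  have hH : K G a b ⊓ stabilizer G c = ⊥ := by
    rw [eq_bot_iff]
    rintro t ⟨ht, htc⟩
    by_contra hne
    have : ∃ z : Ω, t • z ≠ z := by
      by_contra hz
      push Not at hz
      exact hne (eq_of_smul_eq_smul fun c : Ω => by rw [hz c, one_smul])
    obtain ⟨z, hz⟩ := this
    have hta := (mem_K.1 ht).1
    have htb := (mem_K.1 ht).2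
    have s1 := le_S2 ht hz (hm z)
    have s2 := le_S2 (mem_K.2 ⟨hta, htc⟩) hz (card_O_le_all h hab hm hac z)
    have s3 := le_S2 (mem_K.2 ⟨htb, htc⟩) hz (card_O_le_all h hab hm hbc z)
    have hlt : K G a b < S2 G z (t • z) ⊓ stabilizer G a := by
      refine lt_of_le_of_ne (le_inf s1 fun g hg => (mem_K.1 hg).1) fun e => hc ?_
      have : K G a c ≤ K G a b := e ▸ le_inf s2 fun g hg => (mem_K.1 hg).1
      rw [mem_L, ← K_eq_of_le h hac hab this]
      exact fun g hg => (mem_K.1 hg).2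
    have e1 : S2 G z (t • z) ⊓ stabilizer G a = S2 G z (t • z) := by
      refine Subgroup.eq_of_le_of_card_ge inf_le_left ?_
      refine (card_S2_le z _).trans ?_
      rw [card_K_eq h hz.symm hab]
      exact two_mul_card_le_of_lt hlt
    have : K G b c ≤ K G a b := fun g hg =>
      mem_K.2 ⟨(e1.ge (s3 hg)).2, (mem_K.1 hg).1⟩
    apply hc
    rw [mem_L, ← K_eq_of_le h hbc hab this]
    exact fun g hg => (mem_K.1 hg).2
  have := card_O_mul (K G a b) c
  rw [st_eq, hH, Subgroup.card_bot, mul_one] at this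
  exact this ▸ hm c

end H25.Der
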