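/- Derangements of doubly transitive groups: the bound `2 |G| / n`. -/
import Cfsg.Agent.H25.Der2

set_option autoImplicit false

namespace H25.Der

open MulAction Finset
open scoped Classical

variable {G Ω : Type*} [Group G] [MulAction G Ω] [Fintype G] [Fintype Ω]

theorem two_le_Fx {a b : Ω} (hab : a ≠ b) {g : G} (hg : g ∈ K G a b) : 2 ≤ (Fx Ω g).card := by
  have : ({a, b} : Finset Ω) ⊆ Fx Ω g := by
    intro v hv
    simp only [mem_insert, mem_singleton] at hv
    rcases hv with rfl | rfl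
    exacts [mem_Fx.2 (mem_K.1 hg).1, mem_Fx.2 (mem_K.1 hg).2]
  have h := card_le_card this
  rwa [card_pair hab] at h

omit [Fintype G] in
theorem Fx_one : (Fx Ω (1 : G)).card = Fintype.card Ω := by simp [Fx]

theorem sum_split (H : Subgroup G) (φ : G → ℚ) :
    ∑ g ∈ fs H, φ g = φ 1 + ∑ g ∈ (fs H).erase 1, φ g :=
  (add_sum_erase _ _ (mem_fs.2 H.one_mem)).symm

theorem card_erase_fs (H : Subgroup G) : (((fs H).erase 1).card : ℚ) = Nat.card H - 1 := by
  rw [card_erase_of_mem (mem_fs.2 H.one_mem), card_fs, Nat.cast_sub Nat.card_pos]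
  simp

omit [Fintype G] [Fintype Ω] in
theorem exists_moved [FaithfulSMul G Ω] {g : G} (hg : g ≠ 1) : ∃ z : Ω, g • z ≠ z := by
  by_contra hz
  push Not at hz
  exact hg (eq_of_smul_eq_smul fun c : Ω => by rw [hz c, one_smul])

theorem routeA [FaithfulSMul G Ω] (h : TT G Ω) {a b : Ω} (hab : a ≠ b)
    (hi : (2 * (Nat.card (K G a b) : ℚ) - 1) * (Fintype.card Ω - 1) ≤
      Fintype.card Ω * (Nat.card (K G a b) - 1) * ((L G a b).card - 1)) :
    2 * (Nat.card (K G a b) : ℚ) ≤
      Fintype.card Ω * ∑ g ∈ fs (K G a b), (1 : ℚ) / (Fx Ω g).card := by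
  have hn : 1 < Fintype.card Ω := Fintype.one_lt_card_iff.2 ⟨a, b, hab⟩
  have hn' : (1 : ℚ) < Fintype.card Ω := by exact_mod_cast hn
  have hf : 0 < (L G a b).card := card_pos.2 ⟨a, left_mem_L a b⟩
  have h1 : ∀ g ∈ (fs (K G a b)).erase 1,
      (((L G a b).card : ℚ) - 1) / (Fintype.card Ω - 1) ≤ (1 : ℚ) / (Fx Ω g).card := by
    intro g hg
    rw [mem_erase, mem_fs] at hg
    obtain ⟨z, hz⟩ := exists_moved (Ω := Ω) hg.1
    have h2 := Fx_bound h hab hz
    have h3 := two_le_Fx hab hg.2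
    have h3' : (2 : ℚ) ≤ (Fx Ω g).card := by exact_mod_cast h3
    have h2' : ((Fx Ω g).card : ℚ) * (((L G a b).card : ℚ) - 1) + 1 ≤ Fintype.card Ω := by
      have : (((L G a b).card - 1 : ℕ) : ℚ) = ((L G a b).card : ℚ) - 1 := by
        rw [Nat.cast_sub hf]; simp
      rw [← this]
      exact_mod_cast h2
    rw [div_le_div_iff₀ (by linarith) (by linarith)]
    linarith
  have h2 := card_nsmul_le_sum _ _ _ h1
  rw [nsmul_eq_mul, card_erase_fs] at h2
  rw [sum_split, Fx_one, mul_add, mul_one_div_cancel (by linarith)]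
  have h3 : (2 * (Nat.card (K G a b) : ℚ) - 1) ≤ Fintype.card Ω * ((Nat.card (K G a b) - 1) *
      ((((L G a b).card : ℚ) - 1) / (Fintype.card Ω - 1))) := by
    rw [← mul_div_assoc, ← mul_div_assoc, le_div_iff₀ (by linarith)]
    linarith
  have h4 := mul_le_mul_of_nonneg_left h2 (show (0 : ℚ) ≤ Fintype.card Ω by linarith)
  linarith

theorem routeB {a b : Ω} (hab : a ≠ b) (hk : 2 ≤ Nat.card (K G a b)) (e : ℕ)
    (hS : 2 * ∑ z : Ω, st (K G a b) z ≤ Nat.card (K G a b) * (Fintype.card Ω + e))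
    (he : e * (2 * Nat.card (K G a b) - 1) ≤ Fintype.card Ω) :
    2 * (Nat.card (K G a b) : ℚ) ≤
      Fintype.card Ω * ∑ g ∈ fs (K G a b), (1 : ℚ) / (Fx Ω g).card := by
  have hn : 1 < Fintype.card Ω := Fintype.one_lt_card_iff.2 ⟨a, b, hab⟩
  have hn' : (1 : ℚ) < Fintype.card Ω := by exact_mod_cast hn
  have hk' : (2 : ℚ) ≤ Nat.card (K G a b) := by exact_mod_cast hk
  have hpos : ∀ g ∈ (fs (K G a b)).erase 1, (0 : ℚ) < (Fx Ω g).card := by
    intro g hg
    rw [mem_erase, mem_fs] at hg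
    have := two_le_Fx hab hg.2
    exact_mod_cast (by omega : 0 < (Fx Ω g).card)
  have h1 := sq_sum_div_le_sum_sq_div ((fs (K G a b)).erase 1) (fun _ => (1 : ℚ)) hpos
  simp only [sum_const, nsmul_eq_mul, mul_one, one_pow, card_erase_fs] at h1
  rw [← sum_Fx_sub] at hS
  have hS' : 2 * ∑ g ∈ fs (K G a b), ((Fx Ω g).card : ℚ) ≤
      Nat.card (K G a b) * (Fintype.card Ω + e) := by exact_mod_cast hS
  rw [sum_split, Fx_one] at hS'
  have he' : (e : ℚ) * (2 * Nat.card (K G a b) - 1) ≤ Fintype.card Ω := by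
    have : ((2 * Nat.card (K G a b) - 1 : ℕ) : ℚ) = 2 * Nat.card (K G a b) - 1 := by
      rw [Nat.cast_sub (by omega)]; simp
    rw [← this]
    exact_mod_cast he
  have hT : (0 : ℚ) < ∑ g ∈ (fs (K G a b)).erase 1, ((Fx Ω g).card : ℚ) := by
    refine sum_pos hpos (card_pos.1 ?_)
    rw [card_erase_of_mem (mem_fs.2 (K G a b).one_mem), card_fs]
    omega
  rw [sum_split, Fx_one, mul_add, mul_one_div_cancel (by linarith)]
  set T := ∑ g ∈ (fs (K G a b)).erase 1, ((Fx Ω g).card : ℚ)
  set k : ℚ := ((Nat.card (K G a b) : ℕ) : ℚ)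
  set n : ℚ := ((Fintype.card Ω : ℕ) : ℚ)
  have h3 : 2 * k - 1 ≤ n * ((k - 1) ^ 2 / T) := by
    rw [← mul_div_assoc, le_div_iff₀ hT]
    have h5 := mul_le_mul_of_nonneg_left hS' (show 0 ≤ 2 * k - 1 by linarith)
    have h6 := mul_le_mul_of_nonneg_left he' (show 0 ≤ k by linarith)
    nlinarith
  have h4 := mul_le_mul_of_nonneg_left h1 (show (0 : ℚ) ≤ n by linarith)
  linarith

theorem st_le (H : Subgroup G) (z : Ω) : st H z ≤ Nat.card H := by
  rw [← card_fs]
  exact card_filter_le _ _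

theorem two_st_le {a b z : Ω} (hz : z ∉ L G a b) : 2 * st (K G a b) z ≤ Nat.card (K G a b) := by
  rw [st_eq]
  refine two_mul_card_le_of_lt (lt_of_le_of_ne inf_le_left fun e => hz ?_)
  exact mem_L.2 fun g hg => (e.ge hg).2

theorem sum_st_bound (a b : Ω) (T : Finset Ω) :
    2 * ∑ z : Ω, st (K G a b) z + Nat.card (K G a b) * T.card ≤
      Nat.card (K G a b) * (Fintype.card Ω + (L G a b).card) + 2 * ∑ z ∈ T, st (K G a b) z := by
  rw [← sum_add_sum_compl T]
  have h1 : ∀ z ∈ Tᶜ, 2 * st (K G a b) z ≤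
      Nat.card (K G a b) + if z ∈ L G a b then Nat.card (K G a b) else 0 := by
    intro z _
    split_ifs with hz
    · have := st_le (K G a b) z
      omega
    · have := two_st_le hz
      omega
  have h2 := sum_le_sum h1
  rw [← mul_sum, sum_add_distrib, ← sum_filter, sum_const, sum_const, smul_eq_mul,
    smul_eq_mul] at h2
  have h3 : (Tᶜ.filter fun z => z ∈ L G a b).card ≤ (L G a b).card :=
    card_le_card fun z hz => (mem_filter.1 hz).2
  have h4 := card_add_card_compl T
  have h5 := Nat.mul_le_mul_right (Nat.card (K G a b)) h3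
  rw [← h4]
  nlinarith

theorem sum_st_O (H : Subgroup G) (z : Ω) : ∑ w ∈ O H z, st H w = Nat.card H := by
  have h0 : 0 < (O H z).card := card_pos.2 ⟨z, self_mem_O H z⟩
  have : ∀ w ∈ O H z, st H w = st H z := by
    intro w hw
    have h1 := card_O_mul H w
    rw [O_eq_of_mem hw, ← card_O_mul H z] at h1
    exact Nat.eq_of_mul_eq_mul_left h0 h1
  rw [sum_congr rfl this, sum_const, smul_eq_mul, card_O_mul]

theorem big_orbits (a b : Ω) (hc : (∃ z : Ω, 4 ≤ (O (K G a b) z).card) ∨
    ∃ z w : Ω, 3 ≤ (O (K G a b) z).card ∧ 3 ≤ (O (K G a b) w).card ∧ w ∉ O (K G a b) z) :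
    2 * ∑ z : Ω, st (K G a b) z + 2 * Nat.card (K G a b) ≤
      Nat.card (K G a b) * (Fintype.card Ω + (L G a b).card) := by
  rcases hc with ⟨z, hz⟩ | ⟨z, w, hz, hw, hzw⟩
  · have h1 := sum_st_bound (G := G) a b (O (K G a b) z)
    rw [sum_st_O] at h1
    have := Nat.mul_le_mul_left (Nat.card (K G a b)) hz
    omega
  · have hd : Disjoint (O (K G a b) z) (O (K G a b) w) := by
      rw [disjoint_left]
      intro v hv hv'
      apply hzw
      rw [← O_eq_of_mem hv, O_eq_of_mem hv']
      exact self_mem_O _ _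
    have h1 := sum_st_bound (G := G) a b (O (K G a b) z ∪ O (K G a b) w)
    rw [sum_union hd, card_union_of_disjoint hd, sum_st_O, sum_st_O] at h1
    have := Nat.mul_le_mul_left (Nat.card (K G a b)) (Nat.add_le_add hz hw)
    omega

theorem no_three_cycle [FaithfulSMul G Ω] (h : TT G Ω) (hn : 7 ≤ Fintype.card Ω) {a b : Ω}
    (hab : a ≠ b) (h3 : ∀ z : Ω, (O (K G a b) z).card ≤ 3) {z : Ω}
    (hz : 3 ≤ (O (K G a b) z).card)
    (hu : ∀ w : Ω, 3 ≤ (O (K G a b) w).card → w ∈ O (K G a b) z) : False := by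
  have hz3 : (O (K G a b) z).card = 3 := le_antisymm (h3 z) hz
  have : Fact (Nat.Prime 3) := ⟨by norm_num⟩
  obtain ⟨t, ht⟩ := exists_prime_orderOf_dvd_card' (G := K G a b) 3
    (hz3 ▸ Dvd.intro _ (card_O_mul (K G a b) z))
  have ht3 : (t : G) ^ 3 = 1 := by
    have := pow_orderOf_eq_one t
    rw [ht] at this
    exact_mod_cast congrArg Subtype.val this
  have ht1 : (t : G) ≠ 1 := by
    intro e
    have : t = 1 := Subtype.ext e
    rw [this, orderOf_one] at ht
    omega
  have hcube : ∀ w : Ω, (t : G) • (t : G) • (t : G) • w = w := by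
    intro w
    rw [← mul_smul, ← mul_smul, ← pow_three', ht3, one_smul]
  have hsq : ∀ w : Ω, (t : G) • (t : G) • w = w → (t : G) • w = w := by
    intro w hw
    have := hcube w
    rwa [hw] at this
  have hfix : ∀ w : Ω, w ∉ O (K G a b) z → (t : G) • w = w := by
    intro w hw
    have h2 : (O (K G a b) w).card ≤ 2 := by
      by_contra hc
      exact hw (hu w (by omega))
    by_contra hne
    have := mem_pair_of_card_le_two h2 (Ne.symm hne) (smul_mem_O t.2 w)
      (smul_mem_O ((K G a b).mul_mem t.2 t.2) w)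
    rw [mul_smul] at this
    rcases this with e | e
    · exact hne (hsq w e)
    · exact hne (smul_left_cancel _ e)
  obtain ⟨x, hx⟩ := exists_moved (Ω := Ω) ht1
  have hxT : x ∈ O (K G a b) z := by
    by_contra hc
    exact hx (hfix x hc)
  have hex : ∀ s : Finset Ω, s.card < Fintype.card Ω → ∃ w, w ∉ s := by
    intro s hs
    by_contra hc
    push Not at hc
    rw [eq_univ_iff_forall.2 hc, card_univ] at hs
    omega
  obtain ⟨w, hw⟩ := hex (O (K G a b) z) (by omega)
  have hxw : x ≠ w := fun e => hw (e ▸ hxT)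
  obtain ⟨g, hg1, hg2⟩ := h x ((t : G) • x) x w (Ne.symm hx) hxw
  set T := O (K G a b) z
  let U := T ∪ (T.erase x).image fun v => g • v
  have hU : U.card ≤ 5 := by
    have h1 : U.card ≤ _ := card_union_le T ((T.erase x).image fun v => g • v)
    have h2 := card_image_le (s := T.erase x) (f := fun v => g • v)
    rw [card_erase_of_mem hxT] at h2
    omega
  obtain ⟨u, hu1⟩ := hex U (by omega)
  obtain ⟨v, hv1⟩ := hex (insert u U) (by have := card_insert_le u U; omega)
  rw [mem_insert, not_or] at hv1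
  have hfix2 : ∀ y, y ∉ U → (t : G) • y = y ∧ (g * t * g⁻¹) • y = y := by
    intro y hy
    rw [mem_union, not_or] at hy
    refine ⟨hfix y hy.1, ?_⟩
    rw [mul_smul, mul_smul, hfix, smul_inv_smul]
    intro hc
    apply hy.2
    refine mem_image.2 ⟨g⁻¹ • y, mem_erase.2 ⟨fun e => hy.1 ?_, hc⟩, smul_inv_smul _ _⟩
    rw [inv_smul_eq_iff, hg1] at e
    exact e ▸ hxT
  have k1 : (t : G) ∈ K G u v := mem_K.2 ⟨(hfix2 u hu1).1, (hfix2 v hv1.2).1⟩
  have k2 : g * t * g⁻¹ ∈ K G u v := mem_K.2 ⟨(hfix2 u hu1).2, (hfix2 v hv1.2).2⟩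
  have h4 := card_O_le_all h hab h3 (Ne.symm hv1.1) x
  have hT1 : (t : G) • x ∈ T := by
    have := smul_mem_O t.2 x
    rwa [O_eq_of_mem hxT] at this
  have hT2 : (t : G) • (t : G) • x ∈ T := by
    have := smul_mem_O t.2 ((t : G) • x)
    rwa [O_eq_of_mem hT1] at this
  have hsub : ({w, x, (t : G) • x, (t : G) • (t : G) • x} : Finset Ω) ⊆ O (K G u v) x := by
    intro y hy
    simp only [mem_insert, mem_singleton] at hy
    rcases hy with rfl | rfl | rfl | rfl
    · refine mem_O.2 ⟨_, k2, ?_⟩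
      rw [mul_smul, mul_smul, inv_smul_eq_iff.2 hg1.symm, hg2]
    · exact self_mem_O _ _
    · exact smul_mem_O k1 _
    · rw [← mul_smul]
      exact smul_mem_O ((K G u v).mul_mem k1 k1) _
  have hc := card_le_card hsub
  rw [card_insert_of_notMem, card_eq_three.2 ⟨_, _, _, Ne.symm hx,
    fun e => hx (hsq x e.symm), fun e => hx (smul_left_cancel _ e).symm, rfl⟩] at hc
  · omega
  · simp only [mem_insert, mem_singleton, not_or]
    exact ⟨fun e => hw (e ▸ hxT), fun e => hw (e ▸ hT1), fun e => hw (e ▸ hT2)⟩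

theorem not_seven [FaithfulSMul G Ω] (h : TT G Ω) (hn : Fintype.card Ω = 7) {a b : Ω}
    (hab : a ≠ b) (hk : Nat.card (K G a b) = 2) : False := by
  have hG := card_K h hab
  rw [hn, hk] at hG
  have : Fact (Nat.Prime 7) := ⟨by norm_num⟩
  obtain ⟨P⟩ : Nonempty (Sylow 7 G) := inferInstance
  have hP : Nat.card P = 7 := by
    rw [P.card_eq_multiplicity, ← hG]
    have : Nat.factorization (7 * (7 - 1) * 2) 7 = 1 := by
      rw [show 7 * (7 - 1) * 2 = 7 ^ 1 * 12 by norm_num, Nat.factorization_mul (by norm_num)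
        (by norm_num), Nat.Prime.factorization_pow (by norm_num)]
      simp [Nat.factorization_eq_zero_of_not_dvd]
    rw [this, pow_one]
  have hidx : (P : Subgroup G).index = 12 := by
    have := (P : Subgroup G).index_mul_card
    rw [hP, ← hG] at this
    omega
  have h1 : Nat.card (Sylow 7 G) = 1 := by
    have h2 := P.card_dvd_index
    have h3 := card_sylow_modEq_one 7 G
    rw [hidx] at h2
    have h4 := Nat.le_of_dvd (by norm_num) h2
    unfold Nat.ModEq at h3
    interval_cases Nat.card (Sylow 7 G) <;> omega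
  have : Subsingleton (Sylow 7 G) := (Nat.card_eq_one_iff_unique.1 h1).1
  have hN : (P : Subgroup G).Normal := P.normal_of_subsingleton
  have hPne : (P : Subgroup G) ≠ ⊥ := by
    intro e
    rw [e, Subgroup.card_bot] at hP
    omega
  obtain ⟨⟨p0, hp0⟩, hp1⟩ := Subgroup.ne_bot_iff_exists_ne_one.1 hPne
  have hp1' : p0 ≠ 1 := fun e => hp1 (Subtype.ext e)
  obtain ⟨x, hx⟩ := exists_moved (Ω := Ω) hp1'
  have hO : O (P : Subgroup G) x = univ := by
    have h2 := card_O_mul (P : Subgroup G) x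
    rw [hP] at h2
    have h3 : ({x, p0 • x} : Finset Ω) ⊆ O (P : Subgroup G) x := by
      intro v hv
      simp only [mem_insert, mem_singleton] at hv
      rcases hv with rfl | rfl
      exacts [self_mem_O _ _, smul_mem_O hp0 _]
    have h4 := card_le_card h3
    rw [card_pair (Ne.symm hx)] at h4
    rcases (Nat.dvd_prime (by norm_num : Nat.Prime 7)).1 (Dvd.intro _ h2) with e | e
    · omega
    · exact eq_univ_of_card _ (e.trans hn.symm)
  have hOa : O (P : Subgroup G) a = univ := by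
    rw [O_eq_of_mem (hO ▸ mem_univ a : a ∈ O (P : Subgroup G) x), hO]
  have hst : (P : Subgroup G) ⊓ stabilizer G a = ⊥ := by
    have h2 := card_O_mul (P : Subgroup G) a
    rw [hOa, card_univ, hn, hP, st_eq] at h2
    exact Subgroup.card_eq_one.1 (by omega)
  obtain ⟨p, hp, hpa⟩ := mem_O.1 (hOa ▸ mem_univ b : b ∈ O (P : Subgroup G) a)
  have hz : Subgroup.zpowers p = P := by
    refine Subgroup.eq_of_le_of_card_ge (by simpa using hp) ?_
    have h2 : Nat.card (Subgroup.zpowers p) ∣ 7 :=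
      hP ▸ Subgroup.card_dvd_of_le (by simpa using hp)
    rcases (Nat.dvd_prime (by norm_num : Nat.Prime 7)).1 h2 with e | e
    · rw [Subgroup.card_eq_one, Subgroup.zpowers_eq_bot] at e
      rw [e, one_smul] at hpa
      exact absurd hpa hab
    · omega
  have hKb : K G a b = ⊥ := by
    rw [eq_bot_iff]
    intro t ht
    have hta := (mem_K.1 ht).1
    have htb := (mem_K.1 ht).2
    have h2 : p⁻¹ * (t * p * t⁻¹) ∈ (P : Subgroup G) ⊓ stabilizer G a := by
      refine ⟨(P : Subgroup G).mul_mem ((P : Subgroup G).inv_mem hp) (hN.conj_mem p hp t), ?_⟩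
      show _ • a = a
      rw [mul_smul, mul_smul, mul_smul, inv_smul_eq_iff.2 hta.symm, hpa, htb, inv_smul_eq_iff, hpa]
    rw [hst, Subgroup.mem_bot, inv_mul_eq_one, eq_mul_inv_iff_mul_eq] at h2
    have hc : Commute p t := h2
    refine eq_of_smul_eq_smul fun c : Ω => ?_
    obtain ⟨q, hq, rfl⟩ := mem_O.1 (hOa ▸ mem_univ c : c ∈ O (P : Subgroup G) a)
    rw [← hz] at hq
    obtain ⟨i, rfl⟩ := hq
    rw [one_smul, ← mul_smul, ← (hc.zpow_left i).eq, mul_smul, hta]
  rw [hKb, Subgroup.card_bot] at hk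
  omega

theorem parity {a b : Ω} (hk : Nat.card (K G a b) = 2) :
    Fintype.card Ω % 2 = (L G a b).card % 2 := by
  have : Fact (Nat.Prime 2) := ⟨by norm_num⟩
  have hp : IsPGroup 2 (K G a b) := IsPGroup.of_card (n := 1) hk
  have h1 := hp.card_modEq_card_fixedPoints Ω
  rw [Nat.card_eq_fintype_card] at h1
  have : Nat.card (fixedPoints (K G a b) Ω) = (L G a b).card := by
    rw [Nat.card_coe_set_eq, ← Set.ncard_coe_finset]
    congr 1
    ext z
    simp only [mem_fixedPoints, mem_coe, mem_L]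
    exact ⟨fun h g hg => h ⟨g, hg⟩, fun h g => h g g.2⟩
  rw [this] at h1
  exact h1

theorem main_ineq [FaithfulSMul G Ω] (h : TT G Ω) (hn : 7 ≤ Fintype.card Ω) {a b : Ω}
    (hab : a ≠ b) (hk : 2 ≤ Nat.card (K G a b)) :
    2 * (Nat.card (K G a b) : ℚ) ≤
      Fintype.card Ω * ∑ g ∈ fs (K G a b), (1 : ℚ) / (Fx Ω g).card := by
  have hf2 : 2 ≤ (L G a b).card := by
    have : ({a, b} : Finset Ω) ⊆ L G a b := by
      intro v hv
      simp only [mem_insert, mem_singleton] at hv
      rcases hv with rfl | rfl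
      exacts [left_mem_L _ _, right_mem_L _ _]
    have h := card_le_card this
    rwa [card_pair hab] at h
  have hk' : (2 : ℚ) ≤ Nat.card (K G a b) := by exact_mod_cast hk
  have hn' : (7 : ℚ) ≤ Fintype.card Ω := by exact_mod_cast hn
  by_cases hf4 : 4 ≤ (L G a b).card
  · refine routeA h hab ?_
    have hf' : (4 : ℚ) ≤ (L G a b).card := by exact_mod_cast hf4
    have h1 : (Fintype.card Ω : ℚ) * (Nat.card (K G a b) - 1) * 3 ≤
        Fintype.card Ω * (Nat.card (K G a b) - 1) * ((L G a b).card - 1) :=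
      mul_le_mul_of_nonneg_left (by linarith) (mul_nonneg (by linarith) (by linarith))
    nlinarith
  by_cases hc : (∃ z : Ω, 4 ≤ (O (K G a b) z).card) ∨
    ∃ z w : Ω, 3 ≤ (O (K G a b) z).card ∧ 3 ≤ (O (K G a b) w).card ∧ w ∉ O (K G a b) z
  · have h1 := big_orbits a b hc
    rcases (by omega : (L G a b).card = 2 ∨ (L G a b).card = 3) with e | e
    · refine routeB hab hk 0 ?_ (by omega)
      rw [e] at h1
      nlinarith
    · by_cases hkn : 2 * Nat.card (K G a b) - 1 ≤ Fintype.card Ω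
      · refine routeB hab hk 1 ?_ (by omega)
        rw [e] at h1
        nlinarith
      · refine routeA h hab ?_
        rw [e]
        have : (Fintype.card Ω : ℚ) + 1 ≤ 2 * Nat.card (K G a b) := by
          exact_mod_cast (by omega : Fintype.card Ω + 1 ≤ 2 * Nat.card (K G a b))
        push_cast
        nlinarith
  push Not at hc
  by_cases h2 : ∀ z : Ω, (O (K G a b) z).card ≤ 2
  · have hk2 : Nat.card (K G a b) = 2 := le_antisymm (card_K_le_two h hab h2) hk
    refine routeB hab hk (L G a b).card ?_ ?_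
    · simpa using sum_st_bound (G := G) a b ∅
    · have h7 : Fintype.card Ω ≠ 7 := fun e => not_seven h e hab hk2
      have := parity hk2
      rw [hk2]
      omega
  · push Not at h2
    obtain ⟨z, hz⟩ := h2
    exact (no_three_cycle h hn hab (fun w => by have := hc.1 w; omega) hz
      fun w hw => hc.2 z w hz hw).elim

theorem main [FaithfulSMul G Ω] (htr : IsPretransitive G Ω) (hn : 7 ≤ Fintype.card Ω) :
    ((∃ g : G, g ≠ 1 ∧ ∃ ω : Ω, g • ω = ω) ∧ (∀ g : G, g ≠ 1 → Nat.card (fixedBy Ω g) ≤ 1) ∧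
      Nat.card G = Fintype.card Ω * (Fintype.card Ω - 1) ∧
      Fintype.card Ω * D G Ω = Nat.card G) ∨ 2 * Nat.card G ≤ Fintype.card Ω * D G Ω := by
  obtain ⟨a, b, c, hab, hac, hbc⟩ := Fintype.two_lt_card_iff.1 (by omega : 2 < Fintype.card Ω)
  have : Nonempty Ω := ⟨a⟩
  by_cases h : TT G Ω
  swap
  · exact Or.inr (bound_not_TT htr h)
  have hG := card_K h hab
  have hD := D_formula htr h hab
  have hn' : (7 : ℚ) ≤ Fintype.card Ω := by exact_mod_cast hn
  have hc : ((Fintype.card Ω - 1 : ℕ) : ℚ) = Fintype.card Ω - 1 := by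
    rw [Nat.cast_sub (by omega)]; simp
  by_cases hk : 2 ≤ Nat.card (K G a b)
  · right
    have h1 := main_ineq h hn hab hk
    have h2 := mul_le_mul_of_nonneg_left h1
      (show (0 : ℚ) ≤ Fintype.card Ω * (Fintype.card Ω - 1) from
        mul_nonneg (by linarith) (by linarith))
    have : (2 * Nat.card G : ℚ) ≤ Fintype.card Ω * D G Ω := by
      rw [hD, ← hG]
      push_cast
      rw [hc]
      linarith
    exact_mod_cast this
  · left
    have hk1 : Nat.card (K G a b) = 1 := by
      have : 0 < Nat.card (K G a b) := Nat.card_pos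
      omega
    rw [hk1, mul_one] at hG
    refine ⟨?_, ?_, hG.symm, ?_⟩
    · obtain ⟨g, h1, h2⟩ := h a b a c hab hac
      refine ⟨g, ?_, a, h1⟩
      rintro rfl
      exact hbc (by simpa using h2)
    · intro g hg
      rw [← card_Fx, card_le_one]
      intro x hx y hy
      by_contra hxy
      have h1 := (card_K_eq h hxy hab).trans hk1
      rw [Subgroup.card_eq_one] at h1
      exact hg (h1.le (mem_K.2 ⟨mem_Fx.1 hx, mem_Fx.1 hy⟩))
    · have h1 : fs (K G a b) = {1} := by
        ext g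
        rw [mem_fs, Subgroup.card_eq_one.1 hk1]
        simp
      rw [h1, sum_singleton, Fx_one] at hD
      have : (Fintype.card Ω * D G Ω : ℚ) = Nat.card G := by
        rw [hD, ← hG]
        push_cast
        rw [hc]
        field_simp
      exact_mod_cast this

end H25.Der
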