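import Cfsg.Agent.H25.E7FI3
import Cfsg.Agent.H36.E7MSpec
import Cfsg.Agent.S1064

/-! Tower E7MAX, job DD. -/

set_option autoImplicit false

namespace H25.E7

open H36.E7M Module Cfsg.Lie

theorem card_G : Nat.card G = N7 := by
  have := Cfsg.Agent.S1064.result (F := F) (q := 2) (ZMod.card 2)
  rwa [show Nat.gcd 2 (2 - 1) = 1 by decide, one_mul] at this

theorem finrank_LA : finrank F LA = 133 := by
  rw [Module.finrank_fintype_fun_eq_card]
  exact (Fintype.card_congr (Equiv.refl (Fin 7 ⊕ Fin 126))).trans (by simp)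

theorem fixS_one (g : G) : fixS {g} = Fx ρ g := by
  ext v
  rw [mem_Fx, mem_fixS]
  simp

theorem mem_D {a : G} : a ∈ D ↔ IsConj z a :=
  ⟨fun ⟨g, e⟩ => isConj_iff.mpr ⟨g, e.symm⟩, fun h => (isConj_iff.mp h).imp fun _ e => e.symm⟩

theorem rel_one {a b : G} (h : Rel 1 a b) : ∃ g, a = g * z * g⁻¹ ∧ g⁻¹ * b * g ∈ Q := by
  obtain ⟨g, r, h1, h2, rfl, rfl⟩ := h
  refine ⟨g, rfl, ?_⟩
  rw [cj_def, show g⁻¹ * (g * x r * g⁻¹) * g = x r by group]
  exact x_mem_Q (by have := lev_cases r; omega) h1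

theorem ev_eq (p : P1) {g k : G} (e : cj g z = cj k z) : ρ g (eb 125) = ρ k (eb 125) := by
  have := p.cze (k⁻¹ * g) (cj_eq_iff.mp (by rw [← cj_cj, e, cj_inv_cj]))
  conv_rhs => rw [← this, ← Module.End.mul_apply, ← map_mul, mul_inv_cancel_left]

theorem jobDD : JobDD := by
  intro p _ a2 bt dim Y Y' M g b dg big d hM YM Y'M
  have := Fact.mk Nat.prime_two
  obtain ⟨u, uY, hu, fu⟩ := d.g43
  obtain ⟨w, wY, hw, fw⟩ := d.g127
  have hY : Subgroup.closure {g | g ∈ Y ∧ (Commute g z ∨ Rel (-2) z g)} = Y :=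
    le_antisymm ((Subgroup.closure_le Y).mpr fun _ h => h.1) b.gens
  refine noDeg (ρ := ρ) (M := M) (Q := Q) (y := y) (v₀ := eb 125) (g := g * u * g⁻¹)
    (g' := g * w * g⁻¹) (S := {g | g ∈ Y ∧ (Commute g z ∨ Rel (-2) z g)})
    (orderOf_eq_prime (by rw [pow_two, p.zz]) p.z_ne) p.s3 p.czQ (fun c hc => ?_) p.cze
    (card_G ▸ dvd_rfl) finrank_LA (fixS_one z ▸ dim.2.1) (by rw [← fixS_one, dim.2.2]; decide)
    (YM b.z_mem) (fun a ha hq hd => dg a (b.max M YM hM.1 ⟨ha, hq⟩) hq (mem_D.mpr hd))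
    (fun s hs => ⟨YM hs.1, hs.2.imp_right fun h => mem_D.mp (p.sym _ _ _ h).left⟩) ?_
    (Y'M ⟨u, uY, rfl⟩) (Y'M ⟨w, wY, rfl⟩) (by rw [conj_pow, hu]; group)
    (by rw [conj_pow, hw]; group) (by rwa [finrank_Fx_conj, ← fixS_one])
    (by rwa [finrank_Fx_conj, ← fixS_one]) fun R _ hR hn => by_contra fun h0 => ?_
  · obtain ⟨k, hk⟩ := p.r5 z z_mem_D c (mem_D.mpr hc)
    rcases hk.cases with rfl | rfl | rfl | rfl | rfl
    · obtain ⟨j, e1, e2⟩ := rel_opp.mp hk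
      exact Or.inr (Or.inr ⟨j, cj_eq_iff.mp e1.symm, e2⟩)
    · obtain ⟨h1, h2⟩ := p.spe _ _ hk
      have hz : z ∈ Subgroup.closure {z, c} := Subgroup.subset_closure (by simp)
      have hc' : c ∈ Subgroup.closure {z, c} := Subgroup.subset_closure (by simp)
      exact Or.inr (Or.inl ⟨_, mul_mem (mul_mem (mul_mem hz hc') (inv_mem hz)) (inv_mem hc'),
        mem_D.mp (p.sym _ _ _ h1).left, rel_one h1, rel_one (p.sym _ _ _ h2)⟩)
    · exact Or.inl (p.pol _ _ hk)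
    · exact Or.inl (p.Qz c ((p.col c).mp hk).2.1).symm
    · exact Or.inl (rel_two hk ▸ Commute.refl z)
  · rw [hY]
    have h1 : ⨅ a ∈ cls Y z, Fx ρ a = fixS (orb Y) := by
      ext v
      simp only [Submodule.mem_iInf, mem_Fx, mem_fixS]
      exact ⟨fun h a ⟨m, hm, e⟩ => h a ⟨m, hm, e.symm⟩, fun h a ⟨m, hm, e⟩ => h a ⟨m, hm, e.symm⟩⟩
    have h2 : spanE (orb Y) ≤ Submodule.span F {v | ∃ g ∈ Y, ρ g (eb 125) = v} :=
      Submodule.span_mono (by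
        rintro _ ⟨_, ⟨m, hm, rfl⟩, k, e, rfl⟩
        exact ⟨m, hm, ev_eq p e⟩)
    rw [h1]
    exact (Nat.lt_succ_of_le b.fix).trans_le (le_trans big (Submodule.finrank_mono h2))
  · obtain ⟨k, H, h1, h2, h3⟩ := bt R hR h0
    obtain rfl : M = H := by_contra fun e => h1 (hM.2 H (lt_of_le_of_ne (hn.trans h3) e))
    exact a2 M (b.st YM h1) k h2

end H25.E7
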