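import Cfsg.Agent.S5361
import Cfsg.Agent.S5362
import Cfsg.Agent.S5368
import Cfsg.Agent.S5373
import Cfsg.Agent.S5374
import Cfsg.Agent.S5375
import Cfsg.Agent.S5401
import Cfsg.Agent.S0245
import Cfsg.Agent.S0280
import Cfsg.Agent.S0287
import Cfsg.Agent.S0288
import Cfsg.Agent.H84.E7F3
import Cfsg.Agent.H98.Sylow

/-! Tower E7MAX, chapter FI: no group in Fischer's list has an order that is divisible by
`43 · 127` and divides the order of `E₇(2)`. -/

set_option autoImplicit false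

namespace H25.E7

open Cfsg Subgroup Finset

universe u

/-- The order of `E₇(2)`. -/
def N7 : ℕ :=
  2 ^ 63 * (2 ^ 2 - 1) * (2 ^ 6 - 1) * (2 ^ 8 - 1) * (2 ^ 10 - 1) * (2 ^ 12 - 1) * (2 ^ 14 - 1) *
    (2 ^ 18 - 1)

theorem n23 : ¬ 23 ∣ N7 := by decide +kernel
theorem n125 : ¬ 125 ∣ N7 := by decide +kernel
theorem n64 : ¬ 2 ^ 64 ∣ N7 := by decide +kernel

theorem prod125 {m : ℕ} (hm : 6 ≤ m) : 125 ∣ ∏ i ∈ range m, (2 ^ (2 * (i + 1)) - 1) :=
  (show 125 ∣ ∏ i ∈ range 6, (2 ^ (2 * (i + 1)) - 1) by decide +kernel).trans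
    (prod_dvd_prod_of_subset _ _ _ (range_mono hm))

theorem noSp {m n : ℕ} (e : n = 2 ^ m ^ 2 * ∏ i ∈ range m, (2 ^ (2 * (i + 1)) - 1))
    (h : 127 ∣ n) (hN : n ∣ N7) : False := by
  by_cases hm : 6 ≤ m
  · exact n125 (((prod125 hm).mul_left _).trans (e ▸ hN))
  · rw [e] at h
    push Not at hm
    interval_cases m <;> revert h <;> decide +kernel

theorem noO {m n a : ℕ} (ha : a = 2 ^ m - 1 ∨ a = 2 ^ m + 1)
    (e : n = 2 * 2 ^ (m * (m - 1)) * a * ∏ i ∈ range (m - 1), (2 ^ (2 * (i + 1)) - 1))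
    (h : 127 ∣ n) (h0 : 1 ≤ m) (hN : n ∣ N7) : False := by
  by_cases hm : 7 ≤ m
  · exact n125 (((prod125 (by omega)).mul_left _).trans (e ▸ hN))
  · rw [e] at h
    push Not at hm
    rcases ha with rfl | rfl <;> interval_cases m <;> revert h <;> decide +kernel

theorem noU {m n : ℕ} (e : m.gcd (2 + 1) * ((2 + 1) * n) = 2 ^ (m * (m - 1) / 2) *
    ∏ i ∈ range m, if Even i then 2 ^ (i + 1) + 1 else 2 ^ (i + 1) - 1)
    (h : 127 ∣ n) (hN : n ∣ N7) : False := by
  by_cases hm : 12 ≤ m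
  · have h1 : 2 ^ 64 ∣ m.gcd (2 + 1) * ((2 + 1) * n) := by
      rw [e]
      refine (pow_dvd_pow 2 ?_).mul_right _
      have : 12 * 11 ≤ m * (m - 1) := Nat.mul_le_mul hm (by omega)
      omega
    have h2 : Nat.Coprime (2 ^ 64) 3 := by decide +kernel
    exact n64 ((h2.dvd_of_dvd_mul_left
      ((h2.coprime_dvd_right (Nat.gcd_dvd_right m 3)).dvd_of_dvd_mul_left h1)).trans hN)
  · have h1 := e ▸ (h.mul_left (2 + 1)).mul_left (m.gcd (2 + 1))
    push Not at hm
    interval_cases m <;> revert h1 <;> decide +kernel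

variable {K : Type u} [Group K] [Finite K] {E : Set K}

theorem core (hE : IsThreeTranspositionClass E) (hZ : center K = ⊥) (h2 : pCore 2 K = ⊥)
    (h3 : pCore 3 K = ⊥) (h43 : 43 ∣ Nat.card K) (h127 : 127 ∣ Nat.card K)
    (hN : Nat.card K ∣ N7) : False := by
  by_cases hc : (commutingGraph E).Connected
  swap
  · haveI : (generalizedFittingSubgroup K).Normal := inferInstance
    obtain ⟨⟨e⟩, h⟩ := Cfsg.Agent.S5362.result hE hZ h2 h3 hc _ rfl
    have h6 := card_mul_index (generalizedFittingSubgroup K)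
    rw [index, Nat.card_congr e.toEquiv, Nat.card_perm, Nat.card_fin] at h6
    have h7 : 43 ∣ Nat.card (generalizedFittingSubgroup K) :=
      (show Nat.Coprime 43 (Nat.factorial 3) by decide).dvd_of_dvd_mul_right (h6 ▸ h43)
    rcases h with ⟨⟨f⟩⟩ | ⟨⟨f⟩⟩
    · rw [Nat.card_congr f.toEquiv] at h7
      have := h7.trans (card_subgroup_dvd_card _)
      rw [Cfsg.Agent.S0287.result (ZMod.card 2) 4 (by decide)] at this
      revert this; decide +kernel
    · rw [Nat.card_congr f.toEquiv] at h7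
      have := (h7.trans (card_quotient_dvd_card _)).trans (card_subgroup_dvd_card _)
      rw [Cfsg.Agent.S0287.result (ZMod.card 3) 4 (by decide)] at this
      revert this; decide +kernel
  have hG : IsThreeTranspositionGroup E := ⟨hE.1, fun g d hd => by
    obtain ⟨c, -, rfl⟩ := hE.2.1
    exact IsConj.trans hd (isConj_iff.mpr ⟨g, rfl⟩), hE.2.2⟩
  have hw : ∃ a ∈ E, ∃ b ∈ E, a ≠ b ∧ Commute a b := by
    obtain ⟨d, hd, -⟩ := hE.2.1
    by_cases h1 : ∀ a ∈ E, a = d
    · have : d ∈ center K := mem_center_iff.mpr fun g =>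
        mul_inv_eq_iff_eq_mul.mp (h1 _ (hG.2.1 g d hd))
      rw [hZ, mem_bot] at this
      have h4 := hE.1.1 d hd
      rw [this, orderOf_one] at h4
      omega
    · push Not at h1
      obtain ⟨a, ha, had⟩ := h1
      obtain ⟨p⟩ := hc.preconnected ⟨a, ha⟩ ⟨d, hd⟩
      cases p with
      | nil => exact absurd rfl had
      | cons h _ =>
        rw [commutingGraph, SimpleGraph.fromRel_adj] at h
        exact ⟨a, ha, _, Subtype.prop _, fun e => h.1 (Subtype.ext e), h.2.elim id Commute.symm⟩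
  obtain ⟨k1, k2⟩ := Cfsg.Agent.S5361.result hE hZ hw
  have hp := k2.mpr ⟨h2, h3, hc⟩
  rcases Cfsg.Agent.S5368.result hE hZ (k1.mpr hp) with ⟨n, e, -⟩ | ⟨m, e, -⟩ |
    ⟨n, F, _, _, hF, e, -⟩ | (⟨m, e, -⟩ | ⟨m, e, -⟩) | ⟨n, Q, hQ, c, hc, e, -⟩ | h | h | h
  · rw [Nat.card_congr e.toEquiv, Nat.card_perm, Nat.card_fin] at h127 hN
    have := (Nat.Prime.dvd_factorial (by norm_num)).mp h127
    exact n23 ((Nat.dvd_factorial (by decide) (by omega)).trans hN)
  · exact noSp ((Nat.card_congr e.toEquiv).trans (Cfsg.Agent.S0245.result (ZMod.card 2) m)) h127 hN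
  · rw [Nat.card_congr e.toEquiv] at h127 hN
    by_cases hn : 2 ≤ n
    · exact noU (Cfsg.Agent.S0280.result (q := 2) hF n hn) h127 hN
    · have h1 := (h127.trans (card_quotient_dvd_card _)).trans (card_subgroup_dvd_card _)
      haveI : Subsingleton (Fin n) := Fin.subsingleton_iff_le_one.mpr (by omega)
      rw [Nat.card_of_subsingleton (1 : Matrix.SpecialLinearGroup (Fin n) F)] at h1
      omega
  · rw [Nat.card_congr e.toEquiv] at h127 hN
    by_cases hm : 1 ≤ m
    · exact noO (Or.inl rfl) (Cfsg.Agent.S0287.result (ZMod.card 2) m hm) h127 hm hN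
    · obtain rfl : m = 0 := by omega
      have h1 := h127.trans (card_subgroup_dvd_card _)
      rw [Nat.card_of_subsingleton (1 : GL (Fin 0 ⊕ Fin 0) (ZMod 2))] at h1
      omega
  · rw [Nat.card_congr e.toEquiv] at h127 hN
    exact noO (m := m + 1) (Or.inr rfl) (Cfsg.Agent.S0288.result (ZMod.card 2) (m + 1) (by omega)
      1 1 (by decide)) h127 (by omega) hN
  · rw [Nat.card_congr e.toEquiv] at h127 hN
    exact n23 ((H84.E7F3.f3 n Q hQ c hc h127).trans hN)
  · rw [(Cfsg.Agent.S5373.result hG hp h Cfsg.Agent.S5401.result.2.2).2.1] at h43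
    revert h43; decide +kernel
  · rw [(Cfsg.Agent.S5374.result hG hp h Cfsg.Agent.S5401.result.2.2).2.2.1] at h43
    revert h43; decide +kernel
  · rw [(Cfsg.Agent.S5375.result hG hp h).2.2.1] at h43
    revert h43; decide +kernel

theorem le_pCore {X : Type*} [Group X] {p : ℕ} {N : Subgroup X} (h : N.Normal)
    (hp : IsPGroup p N) : N ≤ pCore p X := le_sSup ⟨h, hp⟩

theorem pCore_quot {p : ℕ} [Fact p.Prime] (h : pCore p K ≤ center K) :
    pCore p (K ⧸ center K) = ⊥ := by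
  refine sSup_eq_bot.mpr fun N hN => ?_
  haveI := hN.1
  obtain ⟨S, hS⟩ := H98.exists_isSyl p (N.comap (QuotientGroup.mk' (center K)))
  have h1 := hS.map (QuotientGroup.mk' (center K))
  rw [map_comap_eq_self_of_surjective (QuotientGroup.mk'_surjective _)] at h1
  have h2 := h1.eq_of_isPGroup hN.2
  have h3 : N.comap (QuotientGroup.mk' (center K)) ≤ normalizer (S : Set K) := by
    rw [← h2, comap_map_eq, QuotientGroup.ker_mk']
    exact sup_le le_normalizer (center_le_normalizer _)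
  have h4 : S.Normal := H98.normal_of_top_le_normalizer fun g _ => H98.cj_eq_self_iff.mp (by
    obtain ⟨a, ha, e⟩ := hS.exists_cj_eq (hS.cj_of_mem_normalizer (g := g) (by
      rw [normalizer_eq_top]; exact mem_top g))
    rw [← e, H98.cj_eq_self (h3 ha)])
  rw [← h2, Subgroup.map_eq_bot_iff, QuotientGroup.ker_mk']
  exact (le_pCore h4 hS.isPGroup).trans h

/-- The exclusion of Fischer's list. -/
theorem fischer (hE : IsThreeTranspositionClass E) (h2 : pCore 2 K = ⊥)
    (h3 : pCore 3 K ≤ center K) (h43 : 43 ∣ (center K).index) (h127 : 127 ∣ (center K).index)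
    (hN : Nat.card K ∣ N7) : False := by
  haveI := Fact.mk Nat.prime_two
  haveI := Fact.mk Nat.prime_three
  have sq : ∀ a ∈ E, a * a = 1 := fun a ha => by
    rw [← pow_two, ← hE.1.1 a ha, pow_orderOf_eq_one]
  have z2 : ∀ c ∈ center K, c * c = 1 → c = 1 := fun c hc h => by
    have h1 : zpowers c ≤ center K := zpowers_le.mpr hc
    have := le_pCore (p := 2) ⟨fun a ha g => by
      rw [mem_center_iff.mp (h1 ha) g, mul_inv_cancel_right]; exact ha⟩
      (H98.isPGroup_zpowers (x := c) (k := 1) (by rw [pow_one, pow_two, h])) (mem_zpowers c)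
    rwa [h2, mem_bot] at this
  obtain ⟨d, hd, rfl⟩ := hE.2.1
  have cj : ∀ g, ∀ a ∈ conjugatesOf d, g * a * g⁻¹ ∈ conjugatesOf d := fun g a ha =>
    IsConj.trans ha (isConj_iff.mpr ⟨g, rfl⟩)
  have inj : ∀ a ∈ conjugatesOf d, ∀ b ∈ conjugatesOf d, (a : K ⧸ center K) = b → a = b :=
    fun a ha b hb e => by
      have h1 := QuotientGroup.eq.mp e
      refine inv_mul_eq_one.mp (z2 _ h1 ?_)
      have h4 := mem_center_iff.mp h1 a
      rw [mul_inv_cancel_left] at h4
      calc a⁻¹ * b * (a⁻¹ * b) = a⁻¹ * b * a * (a * a)⁻¹ * b := by group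
        _ = 1 := by rw [← h4, sq a ha, inv_one, mul_one, sq b hb]
  have hZ : center (K ⧸ center K) = ⊥ := eq_bot_iff.mpr fun x hx => by
    obtain ⟨x, rfl⟩ := QuotientGroup.mk_surjective x
    rw [mem_bot, QuotientGroup.eq_one_iff, ← H98.centralizer_top', ← hE.2.2, centralizer_closure]
    intro a ha
    have := inj _ (cj x a ha) a ha (by
      rw [QuotientGroup.mk_mul, QuotientGroup.mk_mul, QuotientGroup.mk_inv,
        ← mem_center_iff.mp hx, mul_inv_cancel_right])
    exact (mul_inv_eq_iff_eq_mul.mp this).symm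
  refine core (K := K ⧸ center K) (E := conjugatesOf (d : K ⧸ center K)) ?_ hZ
    (pCore_quot (h2.le.trans bot_le)) (pCore_quot h3) h43 h127
    ((card_quotient_dvd_card _).trans hN)
  have lift : ∀ x ∈ conjugatesOf (d : K ⧸ center K), ∃ a ∈ conjugatesOf d, (a : K ⧸ center K) = x :=
    fun x hx => by
      obtain ⟨g, rfl⟩ := isConj_iff.mp hx
      obtain ⟨g, rfl⟩ := QuotientGroup.mk_surjective g
      exact ⟨_, cj g d hd, rfl⟩
  refine ⟨⟨fun x hx => ?_, fun x hx y hy => ?_⟩, ⟨d, IsConj.refl _, rfl⟩, ?_⟩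
  · obtain ⟨a, ha, rfl⟩ := lift x hx
    refine orderOf_eq_prime (by rw [pow_two, ← QuotientGroup.mk_mul, sq a ha]; rfl) fun e => ?_
    have h4 := hE.1.1 a ha
    rw [z2 a ((QuotientGroup.eq_one_iff a).mp e) (sq a ha), orderOf_one] at h4
    omega
  · obtain ⟨a, ha, rfl⟩ := lift x hx
    obtain ⟨b, hb, rfl⟩ := lift y hy
    rw [← QuotientGroup.mk_mul, ← QuotientGroup.mk_pow, ← QuotientGroup.mk_pow]
    exact (hE.1.2 a ha b hb).imp (fun e => by rw [e]; rfl) fun e => by rw [e]; rfl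
  · rw [eq_top_iff, ← map_top_of_surjective _ (QuotientGroup.mk'_surjective (center K)), ← hE.2.2,
      MonoidHom.map_closure]
    refine closure_mono ?_
    rintro _ ⟨a, ha, rfl⟩
    exact (QuotientGroup.mk' (center K)).map_isConj ha

end H25.E7
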