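import Cfsg.Agent.H25.E7FI1
import Cfsg.Agent.H94.E7Cnt
import Cfsg.Agent.H98.Core
import Cfsg.Agent.H71.Transp

/-! Tower E7MAX, chapters A4 and FI in abstract form. -/

set_option autoImplicit false

namespace H25.E7

open Cfsg Subgroup Module

universe u v

variable {G : Type u} [Group G] {V : Type v} [AddCommGroup V] [Module (ZMod 2) V]

/-- The fixed space. -/
abbrev Fx (ρ : G →* Module.End (ZMod 2) V) (g : G) : Submodule (ZMod 2) V := LinearMap.ker (ρ g - 1)

/-- The class of `z` under `M`. -/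
def cls (M : Subgroup G) (z : G) : Set G := {a | ∃ m ∈ M, m * z * m⁻¹ = a}

variable {ρ : G →* Module.End (ZMod 2) V} {M : Subgroup G} {z : G}

theorem mem_Fx {g : G} {v : V} : v ∈ Fx ρ g ↔ ρ g v = v := by
  rw [LinearMap.mem_ker, LinearMap.sub_apply, Module.End.one_apply, sub_eq_zero]

theorem self_cls : z ∈ cls M z := ⟨1, one_mem _, by group⟩

theorem conj_cls {m a : G} (hm : m ∈ M) (ha : a ∈ cls M z) : m * a * m⁻¹ ∈ cls M z := by
  obtain ⟨k, hk, rfl⟩ := ha
  exact ⟨m * k, mul_mem hm hk, by group⟩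

theorem cls_le (hz : z ∈ M) {a : G} (ha : a ∈ cls M z) : a ∈ M := by
  obtain ⟨k, hk, rfl⟩ := ha
  exact mul_mem (mul_mem hk hz) (inv_mem hk)

theorem cls_mono {Y : Subgroup G} (h : Y ≤ M) : cls Y z ⊆ cls M z :=
  fun _ ⟨k, hk, e⟩ => ⟨k, h hk, e⟩

theorem cls_sq (hz : z * z = 1) {a : G} (ha : a ∈ cls M z) : a * a = 1 := by
  obtain ⟨k, -, rfl⟩ := ha
  rw [show k * z * k⁻¹ * (k * z * k⁻¹) = k * (z * z) * k⁻¹ by group, hz, mul_one, mul_inv_cancel]

/-- The edges of the non-commuting graph. -/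
def Ed (M : Subgroup G) (z a b : G) : Prop := a ∈ cls M z ∧ b ∈ cls M z ∧ ¬ Commute a b

theorem Ed.conj {m a b : G} (hm : m ∈ M) (h : Ed M z a b) : Ed M z (m * a * m⁻¹) (m * b * m⁻¹) :=
  ⟨conj_cls hm h.1, conj_cls hm h.2.1, fun hc => h.2.2 ((MulAut.conj m).injective (by
    rw [map_mul, map_mul]; exact hc.eq))⟩

theorem path_conj {m a b : G} (hm : m ∈ M) (h : Relation.ReflTransGen (Ed M z) a b) :
    Relation.ReflTransGen (Ed M z) (m * a * m⁻¹) (m * b * m⁻¹) :=
  h.lift (fun x => m * x * m⁻¹) fun _ _ h => h.conj hm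

theorem path_symm {a b : G} (h : Relation.ReflTransGen (Ed M z) a b) :
    Relation.ReflTransGen (Ed M z) b a := by
  induction h with
  | refl => exact .refl
  | tail _ h ih => exact .head ⟨h.2.1, h.1, fun hc => h.2.2 hc.symm⟩ ih

variable [Finite G] [Module.Finite (ZMod 2) V]

omit [Finite G] in
/-- A4: the class of `z` under `M` is connected. -/
theorem a4 (e : G → V) (hz : z * z = 1) (zM : z ∈ M)
    (he : ∀ m ∈ M, ∀ a ∈ cls M z, e (m * a * m⁻¹) = ρ m (e a))
    (hc : ∀ a ∈ cls M z, ∀ b ∈ cls M z, Commute a b → ρ a (e b) = e b)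
    (h3 : ∀ a ∈ cls M z, ∀ b ∈ cls M z, ¬ Commute a b → a * b * a = b * a * b)
    {S : Set G} (hS : ∀ g ∈ S, g ∈ M ∧ (Commute g z ∨ g ∈ cls M z))
    (hsf : finrank (ZMod 2) ↥(⨅ a ∈ cls (closure S) z, Fx ρ a) <
      finrank (ZMod 2) ↥(Submodule.span (ZMod 2) (e '' cls (closure S) z))) :
    cls M z = cls (closure (cls M z)) z := by
  have KM : closure (cls M z) ≤ M := (closure_le _).mpr fun a ha => cls_le zM ha
  have SM : closure S ≤ M := (closure_le _).mpr fun g hg => (hS g hg).1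
  have hY : ∀ g ∈ closure S, Relation.ReflTransGen (Ed M z) z (g * z * g⁻¹) := fun g hg => by
    induction hg using closure_induction with
    | mem g hg =>
      by_cases h1 : Commute g z
      · rw [h1.eq, mul_inv_cancel_right]
      · have h2 := (hS g hg).2.resolve_left h1
        have h4 : Ed M z (z * z * z⁻¹) (z * g * z⁻¹) := Ed.conj zM ⟨self_cls, h2, fun h => h1 h.symm⟩
        rw [mul_inv_cancel_right, inv_eq_of_mul_eq_one_right hz, ← h3 g h2 z self_cls h1] at h4
        rw [inv_eq_of_mul_eq_one_right (cls_sq hz h2)]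
        exact .single h4
    | one => rw [one_mul, inv_one, mul_one]
    | mul a b ha hb iha ihb =>
      have := path_conj (SM ha) ihb
      rw [show a * (b * z * b⁻¹) * a⁻¹ = a * b * z * (a * b)⁻¹ by group] at this
      exact iha.trans this
    | inv a ha iha =>
      have := path_conj (inv_mem (SM ha)) iha
      rw [show a⁻¹ * (a * z * a⁻¹) * a⁻¹⁻¹ = z by group] at this
      exact path_symm this
  have conn : ∀ m ∈ M, Relation.ReflTransGen (Ed M z) z (m * z * m⁻¹) := fun m hm => by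
    by_contra hn
    have hinj : Function.Injective (ρ m) := Function.LeftInverse.injective (g := ρ m⁻¹) fun v => by
      rw [← Module.End.mul_apply, ← map_mul, inv_mul_cancel, map_one, Module.End.one_apply]
    have hle : (Submodule.span (ZMod 2) (e '' cls (closure S) z)).map (ρ m) ≤
        ⨅ a ∈ cls (closure S) z, Fx ρ a := by
      rw [Submodule.map_span, Submodule.span_le]
      rintro _ ⟨_, ⟨b, hb, rfl⟩, rfl⟩
      simp only [SetLike.mem_coe, Submodule.mem_iInf]
      intro a ha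
      have ha' := cls_mono SM ha
      have hb' := cls_mono SM hb
      rw [mem_Fx, ← he m hm b hb']
      refine hc a ha' _ (conj_cls hm hb') ?_
      by_contra h1
      obtain ⟨g, hg, rfl⟩ := ha
      obtain ⟨k, hk, rfl⟩ := hb
      exact hn (((hY g hg).tail ⟨ha', conj_cls hm hb', h1⟩).trans
        (path_symm (path_conj hm (hY k hk))))
    have := Submodule.finrank_mono hle
    rw [← (Submodule.equivMapOfInjective _ hinj _).finrank_eq] at this
    omega
  refine Set.Subset.antisymm ?_ (cls_mono KM)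
  rintro _ ⟨m, hm, rfl⟩
  have := conn m hm
  generalize m * z * m⁻¹ = a at this
  induction this with
  | refl => exact self_cls
  | @tail a b _ h ih =>
    have h1 := conj_cls (mul_mem (subset_closure h.1) (subset_closure h.2.1)) ih
    rwa [h3 a h.1 b h.2.1 h.2.2, show b * a * b * (a * b)⁻¹ = b by group] at h1

omit [Finite G] in
theorem cnt {g : G} {p d : ℕ} (hp : p.Prime) (h2 : p ≠ 2) (hd : orderOf (2 : ZMod p) = d)
    (hg : g ^ p = 1) (U : Submodule (ZMod 2) V) (hU : ∀ v ∈ U, ρ g v ∈ U) :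
    finrank (ZMod 2) U ≡ finrank (ZMod 2) ↥(U ⊓ Fx ρ g) [MOD d] :=
  H94.E7.cnt_two (ρ g) hp h2 hd U hU fun v _ => by rw [← map_pow, hg, map_one, Module.End.one_apply]

omit [Finite G] [Module.Finite (ZMod 2) V] in
theorem Fx_inv {g a : G} (h : Commute g a) : ∀ v ∈ Fx ρ a, ρ g v ∈ Fx ρ a := fun v hv => by
  rw [mem_Fx, ← Module.End.mul_apply, ← map_mul, ← h.eq, map_mul, Module.End.mul_apply,
    mem_Fx.mp hv]

omit [Finite G] in
/-- The elements of orders `43` and `127` centralise no root involution. -/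
theorem not_comm {g a : G} {p d : ℕ} (hp : p.Prime) (h2 : p ≠ 2) (hd : orderOf (2 : ZMod p) = d)
    (h7 : 7 ∣ d) (hg : g ^ p = 1) (f7 : finrank (ZMod 2) (Fx ρ g) = 7) (ha : a * a = 1)
    (d34 : finrank (ZMod 2) (LinearMap.range (ρ a - 1)) = 34)
    (d99 : finrank (ZMod 2) (Fx ρ a) = 99) : ¬ Commute g a := fun h => by
  have h1 := (cnt hp h2 hd hg (LinearMap.range (ρ a - 1)) (by
    rintro _ ⟨w, rfl⟩
    refine ⟨ρ g w, ?_⟩
    rw [LinearMap.sub_apply, LinearMap.sub_apply, map_sub, ← Module.End.mul_apply, ← map_mul,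
      ← h.eq, map_mul]
    rfl)).of_dvd h7
  have h3 := (cnt hp h2 hd hg (Fx ρ a) (Fx_inv h)).of_dvd h7
  have h4 : LinearMap.range (ρ a - 1) ≤ Fx ρ a := by
    rintro _ ⟨w, rfl⟩
    rw [mem_Fx, LinearMap.sub_apply, map_sub, ← Module.End.mul_apply, ← map_mul, ha, map_one,
      Module.End.one_apply, ← neg_sub, ← neg_one_smul (ZMod 2), show (-1 : ZMod 2) = 1 by decide,
      one_smul]
  have h5 := Submodule.finrank_mono (inf_le_inf_right (Fx ρ g) h4)
  have h6 := Submodule.finrank_mono (inf_le_right : Fx ρ a ⊓ Fx ρ g ≤ _)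
  rw [d34] at h1
  rw [d99] at h3
  unfold Nat.ModEq at h1 h3
  omega

omit [Finite G] in
theorem cls_eq {K : Subgroup G} (zK : z ∈ K) :
    cls K z = Subtype.val '' conjugatesOf (⟨z, zK⟩ : K) := by
  ext a
  constructor
  · rintro ⟨k, hk, rfl⟩
    exact ⟨_, isConj_iff.mpr ⟨⟨k, hk⟩, rfl⟩, rfl⟩
  · rintro ⟨b, hb, rfl⟩
    obtain ⟨k, rfl⟩ := isConj_iff.mp hb
    exact ⟨k, k.2, rfl⟩

theorem dvd_index {g : G} {p : ℕ} (hp : p.Prime) (hg : g ^ p = 1) (gM : g ∈ M) {K : Subgroup G}
    (zK : z ∈ K) (hE : cls M z = cls K z) (hn : ∀ a ∈ cls M z, ¬ Commute g a) :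
    p ∣ (center K).index := by
  have h1 := H94.E7.card_modEq (cls M z) (fun a => g * a * g⁻¹) hp (fun a ha => conj_cls gM ha)
    fun a _ => by
      have : ∀ n, (fun a => g * a * g⁻¹)^[n] a = g ^ n * a * (g ^ n)⁻¹ := fun n => by
        induction n with
        | zero => simp
        | succ n ih => rw [Function.iterate_succ_apply', ih]; group
      rw [this, hg]; group
  have h0 : {x | x ∈ cls M z ∧ g * x * g⁻¹ = x} = ∅ := Set.eq_empty_of_forall_notMem
    fun a ha => hn a ha.1 (mul_inv_eq_iff_eq_mul.mp ha.2)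
  rw [h0, Nat.card_of_isEmpty (α := (∅ : Set G)), hE, cls_eq zK,
    Nat.card_image_of_injective Subtype.val_injective, H71.card_conjugatesOf] at h1
  exact ((Nat.modEq_zero_iff_dvd).mp h1).trans (index_dvd_of_le (center_le_centralizer _))

/-- FI: the class of `z` under `M` is not a class of `3`-transpositions. -/
theorem fi (hz : orderOf z = 2) (zM : z ∈ M) (hE : cls M z = cls (closure (cls M z)) z)
    (h3 : ∀ a ∈ cls M z, ∀ b ∈ cls M z, ¬ Commute a b → a * b * a = b * a * b)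
    (hN : Nat.card G ∣ N7) {g g' : G} (gM : g ∈ M) (gM' : g' ∈ M) (hg : g ^ 43 = 1)
    (hg' : g' ^ 127 = 1) (f7 : finrank (ZMod 2) (Fx ρ g) = 7) (f7' : finrank (ZMod 2) (Fx ρ g') = 7)
    (d34 : ∀ a ∈ cls M z, finrank (ZMod 2) (LinearMap.range (ρ a - 1)) = 34)
    (d99 : ∀ a ∈ cls M z, finrank (ZMod 2) (Fx ρ a) = 99)
    (d3 : ∀ a ∈ cls M z, ∀ b ∈ cls M z, ¬ Commute a b → 7 < finrank (ZMod 2) (Fx ρ (a * b)) % 14)
    (h2 : ∀ P ≤ M, IsPGroup 2 P → M ≤ normalizer (P : Set G) → P = ⊥) : False := by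
  have := Fact.mk Nat.prime_three
  have zz : z * z = 1 := by rw [← pow_two, ← hz, pow_orderOf_eq_one]
  have sq := fun a (ha : a ∈ cls M z) => cls_sq zz ha
  have cube : ∀ a ∈ cls M z, ∀ b ∈ cls M z, (a * b) ^ 2 = 1 ∨ (a * b) ^ 3 = 1 := fun a ha b hb => by
    by_cases hc : Commute a b
    · left; rw [hc.mul_pow, pow_two, pow_two, sq a ha, sq b hb, one_mul]
    · right
      rw [show (a * b) ^ 3 = a * b * a * (b * a * b) by
        rw [pow_succ, pow_two]; group, h3 a ha b hb hc,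
        show b * a * b * (b * a * b) = b * (a * (b * b) * a) * b by group, sq b hb, mul_one,
        sq a ha, mul_one, sq b hb]
  have KM : closure (cls M z) ≤ M := (closure_le _).mpr fun a ha => cls_le zM ha
  have nK : M ≤ normalizer (closure (cls M z) : Set G) := fun m hm =>
    H98.mem_normalizer_of_cj_le (by
      rw [H98.cj, MonoidHom.map_closure]
      refine closure_mono ?_
      rintro _ ⟨a, ha, rfl⟩
      exact conj_cls hm ha)
  have zK : z ∈ closure (cls M z) := subset_closure self_cls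
  have mE : ∀ {a : closure (cls M z)}, a ∈ conjugatesOf (⟨z, zK⟩ : closure (cls M z)) ↔
      (a : G) ∈ cls M z := fun {a} =>
    (Subtype.val_injective.mem_set_image).symm.trans
      (Set.ext_iff.mp (hE.trans (cls_eq zK)) (a : G)).symm
  have top : closure (conjugatesOf (⟨z, zK⟩ : closure (cls M z))) = ⊤ := by
    rw [show conjugatesOf (⟨z, zK⟩ : closure (cls M z)) = Subtype.val ⁻¹' cls M z from
      Set.ext fun a => mE]
    exact closure_closure_coe_preimage
  refine fischer (K := closure (cls M z)) (E := conjugatesOf ⟨z, zK⟩)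
    ⟨⟨fun a ha => ?_, fun a ha b hb => ?_⟩, ⟨_, IsConj.refl _, rfl⟩, top⟩
    (H98.pCoreOf_eq_bot_iff.mp (h2 _ ((H98.pCoreOf_le _).trans KM) (H98.isPGroup_pCoreOf _)
      (H98.le_normalizer_pCoreOf nK))) (fun r hr => ?_)
    (dvd_index (by norm_num) hg gM zK hE fun a ha => not_comm (by norm_num) (by decide)
      H94.E7.ord_2_43 (by decide) hg f7 (sq a ha) (d34 a ha) (d99 a ha))
    (dvd_index (by norm_num) hg' gM' zK hE fun a ha => not_comm (by norm_num) (by decide)
      H94.E7.ord_2_127 (by decide) hg' f7' (sq a ha) (d34 a ha) (d99 a ha))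
    ((card_subgroup_dvd_card _).trans hN)
  · obtain ⟨k, rfl⟩ := isConj_iff.mp ha
    rw [← MulAut.conj_apply, MulEquiv.orderOf_eq, ← orderOf_coe, hz]
  · exact (cube _ (mE.mp ha) _ (mE.mp hb)).imp (fun e => Subtype.ext e) fun e => Subtype.ext e
  rw [← H98.centralizer_top', ← top, centralizer_closure]
  intro a ha
  by_contra hne
  have ha' := mE.mp ha
  have hb' : (r * a * (r : G)⁻¹ : G) ∈ cls M z := conj_cls (KM r.2) ha'
  have hx : (a * (r * a * (r : G)⁻¹) : G) ∈ pCoreOf 3 (closure (cls M z)) := by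
    have h1 : (r : G) ∈ pCoreOf 3 (closure (cls M z)) := ⟨r, hr, rfl⟩
    have := mul_mem (H98.conj_mem_of_mem_normalizer (H98.self_le_normalizer_pCoreOf _ a.2) h1)
      (inv_mem h1)
    rwa [inv_eq_of_mul_eq_one_right (sq _ ha'), mul_assoc (a : G), mul_assoc (a : G)] at this
  have nc : ¬ Commute (a : G) (r * a * (r : G)⁻¹) := fun hc => by
    obtain ⟨k, hk⟩ := H98.isPGroup_iff_forall.mp (H98.isPGroup_pCoreOf _) _ hx
    have h4 : (a * (r * a * (r : G)⁻¹) : G) ^ 2 = 1 := by
      rw [hc.mul_pow, pow_two, pow_two, sq _ ha', sq _ hb', one_mul]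
    have h5 := pow_gcd_eq_one.mpr ⟨h4, hk⟩
    rw [(show Nat.Coprime 2 3 by decide).pow_right k, pow_one, mul_eq_one_iff_inv_eq,
      inv_eq_of_mul_eq_one_right (sq _ ha'), eq_mul_inv_iff_mul_eq] at h5
    exact hne (Subtype.ext h5)
  obtain ⟨k, hk⟩ := IsPGroup.iff_card.mp (H98.isPGroup_pCoreOf (p := 3) (closure (cls M z)))
  have hc := H94.E7.cnt_3_43 _ g hg
    (fun x hx => H98.conj_mem_of_mem_normalizer (H98.le_normalizer_pCoreOf nK gM) hx) (m := 11)
    (by decide) (by
      have h1 := (card_subgroup_dvd_card (pCoreOf 3 (closure (cls M z)))).trans hN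
      rw [hk] at h1 ⊢
      refine pow_dvd_pow 3 ?_
      by_contra h4
      have := (pow_dvd_pow 3 (by omega : 12 ≤ k)).trans h1
      revert this; decide +kernel) _ hx
  have h6 := cnt (ρ := ρ) (by norm_num) (by decide) H94.E7.ord_2_43 hg _ (Fx_inv hc)
  have h7 := Submodule.finrank_mono
    (inf_le_right : Fx ρ (a * (r * a * (r : G)⁻¹)) ⊓ Fx ρ g ≤ _)
  have h8 := d3 _ ha' _ hb' nc
  unfold Nat.ModEq at h6
  omega

end H25.E7
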