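import Cfsg.Agent.H25.E7FI2
import Cfsg.Agent.H9.E7A

/-! Tower E7MAX, chapter FI: the degenerate types contain no elements of orders `43` and `127`. -/

set_option autoImplicit false

namespace H25.E7

open Cfsg Subgroup Module

universe u v

variable {G : Type u} [Group G] {V : Type v} [AddCommGroup V] [Module (ZMod 2) V]
  {ρ : G →* Module.End (ZMod 2) V} {M Q : Subgroup G} {z y : G} {v₀ : V}

theorem rho_inv (g : G) (v : V) : ρ g⁻¹ (ρ g v) = v := by
  rw [← Module.End.mul_apply, ← map_mul, inv_mul_cancel, map_one, Module.End.one_apply]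

theorem rho_inv' (g : G) (v : V) : ρ g (ρ g⁻¹ v) = v := by
  rw [← Module.End.mul_apply, ← map_mul, mul_inv_cancel, map_one, Module.End.one_apply]

theorem rho_inj (g : G) : Function.Injective (ρ g) :=
  Function.LeftInverse.injective (rho_inv g)

theorem rho_conj (g a : G) (v : V) : ρ (g * a * g⁻¹) (ρ g v) = ρ g (ρ a v) := by
  rw [map_mul, map_mul, Module.End.mul_apply, Module.End.mul_apply, rho_inv]

theorem Fx_conj (g a : G) : Fx ρ (g * a * g⁻¹) = (Fx ρ a).map (ρ g) := by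
  ext v
  constructor
  · intro h
    refine ⟨ρ g⁻¹ v, mem_Fx.mpr (rho_inj (ρ := ρ) g ?_), rho_inv' g v⟩
    rw [← rho_conj, rho_inv', mem_Fx.mp h]
  · rintro ⟨w, hw, rfl⟩
    rw [mem_Fx, rho_conj, mem_Fx.mp hw]

theorem finrank_Fx_conj (g a : G) :
    finrank (ZMod 2) (Fx ρ (g * a * g⁻¹)) = finrank (ZMod 2) (Fx ρ a) := by
  rw [Fx_conj, ← (Submodule.equivMapOfInjective _ (rho_inj g) _).finrank_eq]

/-- The vector of a root involution. -/
noncomputable def ve (ρ : G →* Module.End (ZMod 2) V) (z : G) (v₀ : V) (a : G) : V :=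
  open Classical in if h : ∃ g, g * z * g⁻¹ = a then ρ h.choose v₀ else 0

theorem ve_conj (fe : ∀ g, Commute g z → ρ g v₀ = v₀) (g : G) :
    ve ρ z v₀ (g * z * g⁻¹) = ρ g v₀ := by
  have h : ∃ k, k * z * k⁻¹ = g * z * g⁻¹ := ⟨g, rfl⟩
  rw [ve, dif_pos h]
  have := h.choose_spec
  generalize h.choose = k at this
  have h1 : Commute (g⁻¹ * k) z := by
    change g⁻¹ * k * z = z * (g⁻¹ * k)
    rw [show g⁻¹ * k * z = g⁻¹ * (k * z * k⁻¹) * k by group, this]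
    group
  rw [show k = g * (g⁻¹ * k) by group, map_mul, Module.End.mul_apply, fe _ h1]

theorem ve_cls (fe : ∀ g, Commute g z → ρ g v₀ = v₀) (Y : Subgroup G) :
    ve ρ z v₀ '' cls Y z = {v | ∃ g ∈ Y, ρ g v₀ = v} := by
  ext v
  constructor
  · rintro ⟨_, ⟨g, hg, rfl⟩, rfl⟩
    exact ⟨g, hg, (ve_conj fe g).symm⟩
  · rintro ⟨g, hg, rfl⟩
    exact ⟨_, ⟨g, hg, rfl⟩, ve_conj fe g⟩

variable [Finite G] [Module.Finite (ZMod 2) V]

omit [Finite G] in
/-- The elements of orders `43` and `127` centralise no root involution. -/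
theorem not_comm' {g a : G} {p d : ℕ} (hp : p.Prime) (h2 : p ≠ 2) (hd : orderOf (2 : ZMod p) = d)
    (h7 : 7 ∣ d) (hg : g ^ p = 1) (f7 : finrank (ZMod 2) (Fx ρ g) ≤ 7) (ha : a * a = 1)
    (d34 : finrank (ZMod 2) (LinearMap.range (ρ a - 1)) = 34)
    (d99 : finrank (ZMod 2) (Fx ρ a) = 99) : ¬ Commute g a := fun h => by
  have h1 := (cnt hp h2 hd hg (LinearMap.range (ρ a - 1)) (by
    rintro _ ⟨w, rfl⟩
    refine ⟨ρ g w, ?_⟩
    rw [LinearMap.sub_apply, LinearMap.sub_apply, map_sub, ← Module.End.mul_apply, ← map_mul,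
      ← h.eq, map_mul]
    rfl)).of_dvd h7
  have h3 := (cnt hp h2 hd hg (Fx ρ a) (Fx_inv h)).of_dvd h7
  have h4 : LinearMap.range (ρ a - 1) ≤ Fx ρ a := by
    rintro _ ⟨w, rfl⟩
    rw [mem_Fx, LinearMap.sub_apply, map_sub, ← Module.End.mul_apply, ← map_mul, ha, map_one,
      Module.End.one_apply, ← neg_sub, ← neg_one_smul (ZMod 2), show (-1 : ZMod 2) = 1 by decide,
      one_smul]
  have h5 := Submodule.finrank_mono (inf_le_inf_right (Fx ρ g) h4)
  have h6 := Submodule.finrank_mono (inf_le_right : Fx ρ a ⊓ Fx ρ g ≤ _)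
  rw [d34] at h1
  rw [d99] at h3
  unfold Nat.ModEq at h1 h3
  omega

/-- FI: the class of `z` under `M` is not a class of `3`-transpositions. -/
theorem fi' (hz : orderOf z = 2) (zM : z ∈ M) (hE : cls M z = cls (closure (cls M z)) z)
    (h3 : ∀ a ∈ cls M z, ∀ b ∈ cls M z, ¬ Commute a b → a * b * a = b * a * b)
    (hN : Nat.card G ∣ N7) {g g' : G} (gM : g ∈ M) (gM' : g' ∈ M) (hg : g ^ 43 = 1)
    (hg' : g' ^ 127 = 1) (f7 : finrank (ZMod 2) (Fx ρ g) ≤ 7) (f7' : finrank (ZMod 2) (Fx ρ g') ≤ 7)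
    (d34 : ∀ a ∈ cls M z, finrank (ZMod 2) (LinearMap.range (ρ a - 1)) = 34)
    (d99 : ∀ a ∈ cls M z, finrank (ZMod 2) (Fx ρ a) = 99)
    (d3 : ∀ a ∈ cls M z, ∀ b ∈ cls M z, ¬ Commute a b → 7 < finrank (ZMod 2) (Fx ρ (a * b)) % 14)
    (h2 : ∀ P ≤ M, IsPGroup 2 P → M ≤ normalizer (P : Set G) → P = ⊥) : False := by
  have := Fact.mk Nat.prime_three
  have zz : z * z = 1 := by rw [← pow_two, ← hz, pow_orderOf_eq_one]
  have sq := fun a (ha : a ∈ cls M z) => cls_sq zz ha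
  have cube : ∀ a ∈ cls M z, ∀ b ∈ cls M z, (a * b) ^ 2 = 1 ∨ (a * b) ^ 3 = 1 := fun a ha b hb => by
    by_cases hc : Commute a b
    · left; rw [hc.mul_pow, pow_two, pow_two, sq a ha, sq b hb, one_mul]
    · right
      rw [show (a * b) ^ 3 = a * b * a * (b * a * b) by
        rw [pow_succ, pow_two]; group, h3 a ha b hb hc,
        show b * a * b * (b * a * b) = b * (a * (b * b) * a) * b by group, sq b hb, mul_one,
        sq a ha, mul_one, sq b hb]
  have KM : closure (cls M z) ≤ M := (closure_le _).mpr fun a ha => cls_le zM ha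
  have nK : M ≤ normalizer (closure (cls M z) : Set G) := fun m hm =>
    H98.mem_normalizer_of_cj_le (by
      rw [H98.cj, MonoidHom.map_closure]
      refine closure_mono ?_
      rintro _ ⟨a, ha, rfl⟩
      exact conj_cls hm ha)
  have zK : z ∈ closure (cls M z) := subset_closure self_cls
  have mE : ∀ {a : closure (cls M z)}, a ∈ conjugatesOf (⟨z, zK⟩ : closure (cls M z)) ↔
      (a : G) ∈ cls M z := fun {a} =>
    (Subtype.val_injective.mem_set_image).symm.trans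
      (Set.ext_iff.mp (hE.trans (cls_eq zK)) (a : G)).symm
  have top : closure (conjugatesOf (⟨z, zK⟩ : closure (cls M z))) = ⊤ := by
    rw [show conjugatesOf (⟨z, zK⟩ : closure (cls M z)) = Subtype.val ⁻¹' cls M z from
      Set.ext fun a => mE]
    exact closure_closure_coe_preimage
  refine fischer (K := closure (cls M z)) (E := conjugatesOf ⟨z, zK⟩)
    ⟨⟨fun a ha => ?_, fun a ha b hb => ?_⟩, ⟨_, IsConj.refl _, rfl⟩, top⟩
    (H98.pCoreOf_eq_bot_iff.mp (h2 _ ((H98.pCoreOf_le _).trans KM) (H98.isPGroup_pCoreOf _)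
      (H98.le_normalizer_pCoreOf nK))) (fun r hr => ?_)
    (dvd_index (by norm_num) hg gM zK hE fun a ha => not_comm' (by norm_num) (by decide)
      H94.E7.ord_2_43 (by decide) hg f7 (sq a ha) (d34 a ha) (d99 a ha))
    (dvd_index (by norm_num) hg' gM' zK hE fun a ha => not_comm' (by norm_num) (by decide)
      H94.E7.ord_2_127 (by decide) hg' f7' (sq a ha) (d34 a ha) (d99 a ha))
    ((card_subgroup_dvd_card _).trans hN)
  · obtain ⟨k, rfl⟩ := isConj_iff.mp ha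
    rw [← MulAut.conj_apply, MulEquiv.orderOf_eq, ← orderOf_coe, hz]
  · exact (cube _ (mE.mp ha) _ (mE.mp hb)).imp (fun e => Subtype.ext e) fun e => Subtype.ext e
  rw [← H98.centralizer_top', ← top, centralizer_closure]
  intro a ha
  by_contra hne
  have ha' := mE.mp ha
  have hb' : (r * a * (r : G)⁻¹ : G) ∈ cls M z := conj_cls (KM r.2) ha'
  have hx : (a * (r * a * (r : G)⁻¹) : G) ∈ pCoreOf 3 (closure (cls M z)) := by
    have h1 : (r : G) ∈ pCoreOf 3 (closure (cls M z)) := ⟨r, hr, rfl⟩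
    have := mul_mem (H98.conj_mem_of_mem_normalizer (H98.self_le_normalizer_pCoreOf _ a.2) h1)
      (inv_mem h1)
    rwa [inv_eq_of_mul_eq_one_right (sq _ ha'), mul_assoc (a : G), mul_assoc (a : G)] at this
  have nc : ¬ Commute (a : G) (r * a * (r : G)⁻¹) := fun hc => by
    obtain ⟨k, hk⟩ := H98.isPGroup_iff_forall.mp (H98.isPGroup_pCoreOf _) _ hx
    have h4 : (a * (r * a * (r : G)⁻¹) : G) ^ 2 = 1 := by
      rw [hc.mul_pow, pow_two, pow_two, sq _ ha', sq _ hb', one_mul]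
    have h5 := pow_gcd_eq_one.mpr ⟨h4, hk⟩
    rw [(show Nat.Coprime 2 3 by decide).pow_right k, pow_one, mul_eq_one_iff_inv_eq,
      inv_eq_of_mul_eq_one_right (sq _ ha'), eq_mul_inv_iff_mul_eq] at h5
    exact hne (Subtype.ext h5)
  obtain ⟨k, hk⟩ := IsPGroup.iff_card.mp (H98.isPGroup_pCoreOf (p := 3) (closure (cls M z)))
  have hc := H94.E7.cnt_3_43 _ g hg
    (fun x hx => H98.conj_mem_of_mem_normalizer (H98.le_normalizer_pCoreOf nK gM) hx) (m := 11)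
    (by decide) (by
      have h1 := (card_subgroup_dvd_card (pCoreOf 3 (closure (cls M z)))).trans hN
      rw [hk] at h1 ⊢
      refine pow_dvd_pow 3 ?_
      by_contra h4
      have := (pow_dvd_pow 3 (by omega : 12 ≤ k)).trans h1
      revert this; decide +kernel) _ hx
  have h6 := cnt (ρ := ρ) (by norm_num) (by decide) H94.E7.ord_2_43 hg _ (Fx_inv hc)
  have h7 := Submodule.finrank_mono
    (inf_le_right : Fx ρ (a * (r * a * (r : G)⁻¹)) ⊓ Fx ρ g ≤ _)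
  have h8 := d3 _ ha' _ hb' nc
  unfold Nat.ModEq at h6
  omega

/-- The degenerate case. -/
theorem noDeg (hz : orderOf z = 2) (br : z * y * z = y * z * y)
    (nq : ∀ k, Commute k z → ∀ x ∈ Q, k * x * k⁻¹ ∈ Q)
    (r5 : ∀ b, IsConj z b → Commute z b ∨
      (∃ d ∈ closure {z, b}, IsConj z d ∧ (∃ g, z = g * z * g⁻¹ ∧ g⁻¹ * d * g ∈ Q) ∧
        ∃ g, d = g * z * g⁻¹ ∧ g⁻¹ * b * g ∈ Q) ∨ ∃ k, Commute k z ∧ b = k * y * k⁻¹)
    (fe : ∀ g, Commute g z → ρ g v₀ = v₀) (hN : Nat.card G ∣ N7) (dV : finrank (ZMod 2) V = 133)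
    (d99 : finrank (ZMod 2) (Fx ρ z) = 99) (d3 : 7 < finrank (ZMod 2) (Fx ρ (z * y)) % 14)
    (zM : z ∈ M) (hdeg : ∀ a ∈ M, a ∈ Q → IsConj z a → a = z)
    {S : Set G} (hS : ∀ g ∈ S, g ∈ M ∧ (Commute g z ∨ IsConj z g))
    (hsf : finrank (ZMod 2) ↥(⨅ a ∈ cls (closure S) z, Fx ρ a) <
      finrank (ZMod 2) ↥(Submodule.span (ZMod 2) {v | ∃ g ∈ closure S, ρ g v₀ = v}))
    {g g' : G} (gM : g ∈ M) (gM' : g' ∈ M) (hg : g ^ 43 = 1) (hg' : g' ^ 127 = 1)
    (f7 : finrank (ZMod 2) (Fx ρ g) ≤ 7) (f7' : finrank (ZMod 2) (Fx ρ g') ≤ 7)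
    (h2 : ∀ P ≤ M, IsPGroup 2 P → M ≤ normalizer (P : Set G) → P = ⊥) : False := by
  have zz : z * z = 1 := by rw [← pow_two, ← hz, pow_orderOf_eq_one]
  have inQ : ∀ d ∈ M, IsConj z d → (∃ g, z = g * z * g⁻¹ ∧ g⁻¹ * d * g ∈ Q) → d = z :=
    fun d hd hd' ⟨k, e, hk⟩ => hdeg d hd
      (by simpa [mul_assoc] using nq k (mul_inv_eq_iff_eq_mul.mp e.symm) _ hk) hd'
  have two : ∀ b ∈ M, IsConj z b → ¬ Commute z b → ∃ k, Commute k z ∧ b = k * y * k⁻¹ :=
    fun b hb hb' hn => by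
      rcases r5 b hb' with h | ⟨d, hd, hd', h1, h3⟩ | h
      · exact absurd h hn
      · obtain rfl := inQ d ((closure_le M).mpr (by
          rintro _ (rfl | rfl)
          exacts [zM, hb]) hd) hd' h1
        exact absurd (inQ b hb hb' h3 ▸ Commute.refl _) hn
      · exact h
  have pair : ∀ a ∈ cls M z, ∀ b ∈ cls M z, ¬ Commute a b →
      ∃ k, a = k * z * k⁻¹ ∧ b = k * y * k⁻¹ := by
    rintro _ ⟨m, hm, rfl⟩ b hb hn
    have hb' := conj_cls (inv_mem hm) hb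
    obtain ⟨k, hk, e⟩ := two _ (cls_le zM hb') (by
      obtain ⟨j, -, e⟩ := hb'
      exact isConj_iff.mpr ⟨j, e⟩) fun hc => hn (by
        have := hc.map (MulAut.conj m)
        simp only [MulAut.conj_apply] at this
        rwa [show m * (m⁻¹ * b * m⁻¹⁻¹) * m⁻¹ = b by group] at this)
    refine ⟨m * k, ?_, ?_⟩
    · rw [show m * k * z * (m * k)⁻¹ = m * (k * z * k⁻¹) * m⁻¹ by group, hk.eq,
        mul_inv_cancel_right]
    · rw [show m * k * y * (m * k)⁻¹ = m * (k * y * k⁻¹) * m⁻¹ by group, ← e]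
      group
  have h3 : ∀ a ∈ cls M z, ∀ b ∈ cls M z, ¬ Commute a b → a * b * a = b * a * b :=
    fun a ha b hb hn => by
      obtain ⟨k, rfl, rfl⟩ := pair a ha b hb hn
      calc _ = k * (z * y * z) * k⁻¹ := by group
        _ = _ := by rw [br]; group
  have k99 : ∀ a ∈ cls M z, finrank (ZMod 2) (Fx ρ a) = 99 := by
    rintro _ ⟨m, -, rfl⟩
    rw [finrank_Fx_conj, d99]
  refine fi' hz zM (a4 (ρ := ρ) (ve ρ z v₀) zz zM ?_ ?_ h3 (S := S) (fun s hs => ⟨(hS s hs).1, ?_⟩)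
    (by rwa [ve_cls fe])) h3 hN gM gM' hg hg' f7 f7' (fun a ha => ?_) k99 (fun a ha b hb hn => ?_) h2
  · rintro m - _ ⟨k, -, rfl⟩
    rw [show m * (k * z * k⁻¹) * m⁻¹ = m * k * z * (m * k)⁻¹ by group, ve_conj fe, ve_conj fe,
      map_mul, Module.End.mul_apply]
  · rintro a - _ ⟨k, -, rfl⟩ hc
    have h1 : Commute (k⁻¹ * a * k) z := by
      have := hc.map (MulAut.conj k⁻¹)
      simp only [MulAut.conj_apply, inv_inv] at this
      rwa [show k⁻¹ * (k * z * k⁻¹) * k = z by group] at this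
    rw [ve_conj fe, show a = k * (k⁻¹ * a * k) * k⁻¹ by group, rho_conj, fe _ h1]
  · by_cases hc : Commute s z
    · exact Or.inl hc
    · obtain ⟨k, hk, e⟩ := two s (hS s hs).1 ((hS s hs).2.resolve_left hc) fun h => hc h.symm
      have h1 : k * z * k⁻¹ * (k * y * k⁻¹) * (k * z * k⁻¹) =
          k * y * k⁻¹ * (k * z * k⁻¹) * (k * y * k⁻¹) :=
        calc _ = k * (z * y * z) * k⁻¹ := by group
          _ = _ := by rw [br]; group
      rw [hk.eq, mul_inv_cancel_right, ← e] at h1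
      exact Or.inr ⟨z * s, mul_mem zM (hS s hs).1, by rw [h1]; group⟩
  · have := LinearMap.finrank_range_add_finrank_ker (ρ a - 1)
    have : finrank (ZMod 2) (LinearMap.ker (ρ a - 1)) = 99 := k99 a ha
    omega
  · obtain ⟨k, rfl, rfl⟩ := pair a ha b hb hn
    rwa [show k * z * k⁻¹ * (k * y * k⁻¹) = k * (z * y) * k⁻¹ by group, finrank_Fx_conj]

omit [Finite G] [Module.Finite (ZMod 2) V] in
theorem cls_H9 (Y : Subgroup G) : H9.E7.cls Y z = cls Y z :=
  Set.ext fun _ => ⟨fun ⟨m, hm, e⟩ => ⟨m, hm, e.symm⟩, fun ⟨m, hm, e⟩ => ⟨m, hm, e.symm⟩⟩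

/-- The degenerate case in the abstract layer. -/
theorem noDeg' {Y : Subgroup G} (h : H9.E7.Geo ρ z y Q v₀) (t : H9.E7.Ty z y Q Y) (YM : Y ≤ M)
    (hM : M ≠ ⊤) (r : ¬ H9.E7.Rt z (Y ⊓ Q)) (hz : z * z = 1) (hN : Nat.card G ∣ N7)
    (dV : finrank (ZMod 2) V = 133) (d99 : finrank (ZMod 2) (Fx ρ z) = 99)
    (d3 : 7 < finrank (ZMod 2) (Fx ρ (z * y)) % 14)
    (hsf : finrank (ZMod 2) (H9.E7.Fix ρ (H9.E7.cls Y z)) < finrank (ZMod 2) (H9.E7.Orb ρ v₀ Y))
    {g g' : G} (gM : g ∈ M) (gM' : g' ∈ M) (hg : g ^ 43 = 1) (hg' : g' ^ 127 = 1)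
    (f7 : finrank (ZMod 2) (Fx ρ g) ≤ 7) (f7' : finrank (ZMod 2) (Fx ρ g') ≤ 7)
    (h2 : ∀ P ≤ M, IsPGroup 2 P → M ≤ normalizer (P : Set G) → P = ⊥) : False := by
  obtain ⟨S, h1, h3⟩ := t.gen
  obtain rfl : Y = closure S := le_antisymm h1 ((closure_le Y).mpr fun s hs => (h3 s hs).1)
  have := Fact.mk Nat.prime_two
  refine noDeg (S := S) (orderOf_eq_prime (by rw [pow_two, hz]) h.z1) h.br h.nq h.r5 h.fe hN dV d99
    d3 (YM t.hz) (fun a ha hq hd => by_contra fun e => r ⟨a, ⟨t.hW M YM hM ⟨ha, hq⟩, hq⟩, hd, e⟩)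
    (fun s hs => ⟨YM (h3 s hs).1, (h3 s hs).2⟩) ?_ gM gM' hg hg' f7 f7' h2
  rw [← cls_H9, show {v | ∃ g ∈ closure S, ρ g v₀ = v} = {u | ∃ m ∈ closure S, u = ρ m v₀} by
    simp only [eq_comm]]
  exact hsf

end H25.E7
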