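import Cfsg.Agent.H42.IVSpec
import Cfsg.Agent.Rz.H42_IV_cheb_eq_def
import Cfsg.Agent.Rz.H42_IV_cp_eq_def

/-! Tower IV (S3929), slot Cheb: the Chebyshev product kills `T`. -/

set_option autoImplicit false

namespace H25.IvCheb

open H42.IV

universe u

variable {T : Type u} [AddCommGroup T]

/-- the multiples of `2 ^ r` -/
def L (T : Type u) [AddCommGroup T] (r : ℕ) : Submodule ℤ T where
  carrier := {v | ∃ y : T, 2 ^ r • y = v}
  zero_mem' := ⟨0, smul_zero _⟩
  add_mem' := by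
    rintro _ _ ⟨x, rfl⟩ ⟨y, rfl⟩
    exact ⟨x + y, smul_add _ _ _⟩
  smul_mem' := by
    rintro c _ ⟨x, rfl⟩
    exact ⟨c • x, smul_comm _ _ _⟩

theorem map_L (η : Module.End ℤ T) {r : ℕ} {v : T} (hv : v ∈ L T r) : η v ∈ L T r := by
  obtain ⟨y, rfl⟩ := hv
  exact ⟨η y, (map_nsmul η _ _).symm⟩

theorem two_L {r : ℕ} {v : T} (hv : v ∈ L T r) : 2 • v ∈ L T (r + 1) := by
  obtain ⟨y, rfl⟩ := hv
  exact ⟨y, by rw [pow_succ', mul_smul]⟩

theorem L_le (r : ℕ) : L T (r + 1) ≤ L T r := by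
  rintro _ ⟨y, rfl⟩
  exact ⟨2 • y, by rw [pow_succ, mul_smul]⟩

theorem cheb_eq {R : Type*} [Ring R] (γ : R) (i : ℕ) : ∃ η, cheb γ i = γ ^ 2 ^ i + (η + η) := by
  induction i with
  | zero => exact ⟨0, by simp [cheb]⟩
  | succ i ih =>
    obtain ⟨η, h⟩ := ih
    refine ⟨γ ^ 2 ^ i * η + η * γ ^ 2 ^ i + (η * η + η * η) - 1, ?_⟩
    rw [cheb, h, pow_succ 2, pow_mul, pow_two, ← (one_add_one_eq_two : (1 : R) + 1 = 2)]
    generalize γ ^ 2 ^ i = g
    simp only [mul_add, add_mul]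
    abel

variable [Finite T]

theorem chain {γ : Module.End ℤ T} (hγ : IsNilpotent γ) {A : Submodule ℤ T}
    (hA : ∀ v ∈ A, γ v ∈ A) (s : ℕ) : ∀ B : Submodule ℤ T, A ≤ B → (∀ v ∈ B, γ v ∈ B) →
      Nat.card B ≤ 2 ^ s * Nat.card A → ∀ v ∈ B, (γ ^ s) v ∈ A := by
  have hp : ∀ n : ℕ, ∀ v ∈ A, (γ ^ n) v ∈ A := fun n => by
    induction n with
    | zero => exact fun v hv => hv
    | succ n ih => exact fun v hv => by rw [pow_succ']; exact hA _ (ih v hv)
  induction s with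
  | zero =>
    intro B hAB _ hc v hv
    have e : A.toAddSubgroup = B.toAddSubgroup :=
      AddSubgroup.eq_of_le_of_card_ge hAB (by simpa using hc)
    exact (e.ge hv : v ∈ A.toAddSubgroup)
  | succ s ih =>
    intro B hAB hB hc v hv
    have h1 : B.map γ ⊔ A ≤ B := sup_le (by rintro _ ⟨w, hw, rfl⟩; exact hB w hw) hAB
    by_cases e : B ≤ B.map γ ⊔ A
    · have k : ∀ n : ℕ, ∀ w ∈ B, ∃ x ∈ B, w - (γ ^ n) x ∈ A := fun n => by
        induction n with
        | zero => exact fun w hw => ⟨w, hw, by simp⟩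
        | succ n ih =>
          intro w hw
          obtain ⟨x, hx, h2⟩ := ih w hw
          obtain ⟨_, ⟨y, hy, rfl⟩, a, ha, rfl⟩ := Submodule.mem_sup.1 (e hx)
          refine ⟨y, hy, ?_⟩
          have := A.add_mem h2 (hp n a ha)
          rwa [map_add, ← sub_sub, sub_add_cancel, ← Module.End.mul_apply, ← pow_succ] at this
      obtain ⟨n, hn⟩ := hγ
      obtain ⟨x, -, h2⟩ := k n v hv
      rw [hn, LinearMap.zero_apply, sub_zero] at h2
      exact hp _ v h2
    · obtain ⟨c, hc'⟩ : Nat.card (B.map γ ⊔ A : Submodule ℤ T) ∣ Nat.card B :=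
        AddSubgroup.card_dvd_of_le (H := (B.map γ ⊔ A).toAddSubgroup) (K := B.toAddSubgroup) h1
      have h2 : 2 ≤ c := by
        by_contra h
        have h0 : 0 < Nat.card B := Nat.card_pos
        have e' : (B.map γ ⊔ A).toAddSubgroup = B.toAddSubgroup :=
          AddSubgroup.eq_of_le_of_card_ge h1 (by
            change Nat.card B ≤ Nat.card (B.map γ ⊔ A : Submodule ℤ T)
            rw [hc']
            exact (Nat.mul_le_mul_left _ (by omega : c ≤ 1)).trans (mul_one _).le)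
        exact e fun w hw => (e'.ge hw : w ∈ (B.map γ ⊔ A).toAddSubgroup)
      rw [pow_succ, Module.End.mul_apply]
      refine ih (B.map γ ⊔ A) le_sup_right
        (fun w hw => Submodule.mem_sup_left ⟨w, h1 hw, rfl⟩) ?_ _ (Submodule.mem_sup_left ⟨v, hv, rfl⟩)
      rw [hc', pow_succ] at hc
      nlinarith

theorem card_L {N : ℕ} (hN : ∀ v : T, 2 ^ N • v = 0) (r : ℕ) :
    ∃ s, {v : T | 2 • v = 0 ∧ ∃ y : T, 2 ^ r • y = v}.ncard = 2 ^ s ∧
      Nat.card (L T r) ≤ 2 ^ s * Nat.card (L T (r + 1)) := by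
  let f : L T r →+ L T (r + 1) := AddMonoidHom.mk' (fun v => ⟨2 • (v : T), two_L v.2⟩)
    fun a b => Subtype.ext (smul_add _ _ _)
  have h1 : Nat.card f.ker = {v : T | 2 • v = 0 ∧ ∃ y : T, 2 ^ r • y = v}.ncard := by
    rw [← Nat.card_coe_set_eq]
    exact Nat.card_congr ⟨fun v => ⟨v.1.1, congrArg Subtype.val v.2, v.1.2⟩,
      fun v => ⟨⟨v.1, v.2.2⟩, Subtype.ext v.2.1⟩, fun _ => rfl, fun _ => rfl⟩
  have h2 : IsPGroup 2 (Multiplicative f.ker) := fun g => ⟨N, by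
    apply Multiplicative.toAdd.injective
    rw [toAdd_pow, toAdd_one]
    exact Subtype.ext (Subtype.ext (hN _))⟩
  obtain ⟨s, hs⟩ := h2.exists_card_eq
  have hs' : Nat.card f.ker = 2 ^ s := hs
  refine ⟨s, h1 ▸ hs', ?_⟩
  rw [AddSubgroup.card_eq_card_quotient_mul_card_addSubgroup f.ker, hs', mul_comm,
    Nat.card_congr (QuotientAddGroup.quotientKerEquivRange f).toEquiv]
  exact Nat.mul_le_mul_left _ (AddSubgroup.card_le_card_addGroup _)

theorem jobCheb : JobCheb.{u} := by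
  intro T _ _ γ κ N hN hγ h
  have key : ∀ r, ∃ s, (s = 0 ∨ r + 1 ≤ κ ∧ s ≤ 2 ^ (κ - (r + 1))) ∧
      ∀ v ∈ L T r, (γ ^ s) v ∈ L T (r + 1) := fun r => by
    obtain ⟨s, h1, h2⟩ := card_L hN r
    exact ⟨s, (Nat.eq_zero_or_pos s).imp_right (h r s h1),
      chain hγ (fun v hv => map_L γ hv) s _ (L_le r) (fun v hv => map_L γ hv) h2⟩
  have h0 : ∀ n, L T κ ≤ L T (κ + n) := fun n => by
    induction n with
    | zero => exact le_rfl
    | succ n ih =>
      obtain ⟨s, h1, h2⟩ := key (κ + n)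
      obtain rfl : s = 0 := h1.resolve_right fun k => by omega
      exact fun v hv => h2 v (ih hv)
  have h1 : ∀ j r, r + j = κ → ∀ v ∈ L T r, cp γ j v ∈ L T κ := fun j => by
    induction j with
    | zero => exact fun r e v hv => e ▸ hv
    | succ j ih =>
      intro r e v hv
      rw [cp, Module.End.mul_apply]
      refine ih (r + 1) (by omega) _ ?_
      obtain ⟨η, hη⟩ := cheb_eq γ j
      obtain ⟨s, h2, h3⟩ := key r
      have h4 : s ≤ 2 ^ j := by
        rcases h2 with rfl | ⟨-, h2⟩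
        · exact Nat.zero_le _
        · rwa [show κ - (r + 1) = j by omega] at h2
      obtain ⟨d, hd⟩ := Nat.exists_eq_add_of_le' h4
      rw [hη, hd, pow_add, LinearMap.add_apply, LinearMap.add_apply, Module.End.mul_apply, ← two_nsmul]
      exact add_mem (map_L _ (h3 v hv)) (two_L (map_L η hv))
  ext v
  obtain ⟨y, hy⟩ := h0 N (h1 κ 0 (zero_add κ) v ⟨v, by simp⟩)
  rw [← hy, pow_add, mul_smul, hN, smul_zero, LinearMap.zero_apply]

end H25.IvCheb
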