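import Cfsg.Agent.H86.M8.Def2
import Cfsg.Agent.H56.OrthOrd

/-! Row S3384, part M, slot N5: `5 ^ 5` does not divide the order of `O Q`. -/

set_option autoImplicit false

namespace H25.M8N5

open H6 (F4)
open H56 H86.M8

/-- `(x, y) ↦ (x, x, y, y)` -/
def dbl : (E × E) →ₗ[F4] V where
  toFun p := ![p.1, p.1, p.2, p.2]
  map_add' p q := by
    funext k
    fin_cases k <;> rfl
  map_smul' c p := by
    funext k
    fin_cases k <;> rfl

theorem dbl_inj : Function.Injective dbl := fun _ _ h =>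
  Prod.ext (congrFun h 0) (congrFun h 2)

theorem isPlus_Q : H58.IsPlus Q := by
  refine ⟨LinearMap.range dbl, ?_, ?_⟩
  · rw [LinearMap.finrank_range_of_inj dbl_inj, finrank_V, Module.finrank_prod,
      QuadraticAlgebra.finrank_eq_two]
  · rintro _ ⟨p, rfl⟩
    rw [Q_apply, Fin.sum_univ_four]
    change nr p.1 + nr p.1 + nr p.2 + nr p.2 = 0
    rw [H6.F4.add_self, zero_add, H6.F4.add_self]

theorem card_O_Q : Nat.card (O Q) =
    2 * 4 ^ 12 * (4 ^ 4 - 1) * ((4 ^ 2 - 1) * (4 ^ 4 - 1) * (4 ^ 6 - 1)) := by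
  obtain ⟨g, hg⟩ := isPlus_Q.exists_equiv nd (m := 4) finrank_V
  have h4 : Fintype.card F4 = 4 := by decide
  rw [← Nat.card_congr (O.congr g hg).toEquiv, card_O_qPlus (F := F4) 3, h4]
  simp [Finset.prod_range_succ]

theorem jN5 : H86.M8.N5 := by
  unfold H86.M8.N5
  rw [card_O_Q]
  norm_num

end H25.M8N5
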