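import Cfsg.Agent.H36.O84Spec

/-! Tower O84 (S3384), slot TR: transport of `Sys` along an isomorphism. -/

set_option autoImplicit false

namespace H25.O84TR

open H36.O84 Matrix

theorem act_iff {Γ Γ' : Type} [Group Γ] [Group Γ'] (e : Γ ≃* Γ')
    (τ : Multiplicative V →* Γ) (g : Γ') (M : M4) :
    Act (e.toMonoidHom.comp τ) g M ↔ Act τ (e.symm g) M := by
  unfold Act
  refine forall_congr' fun a => ?_
  rw [← e.injective.eq_iff]
  simp

theorem cS_map {Γ Γ' : Type} [Group Γ] [Group Γ'] (e : Γ ≃* Γ') (g : Γ') (H : Subgroup Γ) :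
    cS g (H.map e.toMonoidHom) = (cS (e.symm g) H).map e.toMonoidHom := by
  unfold cS
  rw [Subgroup.map_map, Subgroup.map_map]
  congr 1
  ext x
  simp

theorem jobTR : JobTR := by
  intro Γ Γ' _ _ S e
  refine ⟨{ τ := e.toMonoidHom.comp S.τ
            inj := e.injective.comp S.inj
            K := fun l => (S.K l).map e.toMonoidHom
            ν := fun l => e (S.ν l)
            cT := ?_, pres := ?_, cardK := ?_, νK := ?_, νA := ?_, u4 := ?_, n56 := ?_ }⟩
  · intro g hg
    obtain ⟨a, ha⟩ := S.cT _ ((act_iff e S.τ g 1).1 hg)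
    refine ⟨a, ?_⟩
    simp [ha]
  · intro g M hg l
    obtain ⟨l', h1, h2⟩ := S.pres _ M ((act_iff e S.τ g M).1 hg) l
    exact ⟨l', h1, by rw [cS_map, h2]⟩
  · intro l
    rw [Subgroup.card_map_of_injective (f := e.toMonoidHom) e.injective]
    exact S.cardK l
  · intro l
    exact ⟨S.ν l, S.νK l, rfl⟩
  · intro l
    rw [act_iff]
    simpa using S.νA l
  · intro f A c hf hcen hperf hc hcl hne
    suffices H : ∃ l, (∀ a : V, f ⬝ᵥ a = 0 ↔ χ l ⬝ᵥ a = 0) ∧
        A.map e.symm.toMonoidHom ≤ S.K l by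
      obtain ⟨l, h1, h2⟩ := H
      refine ⟨l, h1, fun x hx => ?_⟩
      exact ⟨e.symm x, h2 ⟨x, hx, rfl⟩, by simp⟩
    refine S.u4 f (A.map e.symm.toMonoidHom) c hf ?_ ?_ ?_ ?_ ?_
    · rintro x ⟨y, hy, rfl⟩ a ha
      apply e.injective
      simpa using hcen y hy a ha
    · rw [← Subgroup.map_commutator, hperf]
    · exact ⟨_, hc, by simp⟩
    · refine (Subgroup.map_mono hcl).trans ?_
      rw [MonoidHom.map_closure]
      apply Subgroup.closure_mono
      rintro _ ⟨_, ⟨x, hx, rfl⟩, rfl⟩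
      exact ⟨e.symm x, ⟨x, hx, rfl⟩, by simp⟩
    · intro h
      apply hne
      rwa [Subgroup.map_eq_bot_iff_of_injective _ e.symm.injective] at h
  · rw [← Nat.card_congr e.toEquiv]
    exact S.n56

end H25.O84TR
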