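import Cfsg.Agent.H42.SimXBSpec

/-! # S3694, tower SIM: the job `N4` (normal `p`-subgroups of symmetric groups). -/

set_option autoImplicit false

namespace H25.SimN4

theorem jobN4 : H42.SX.JobN4 := by
  intro n p N hp hN hP h1
  by_contra hn
  have h5 : 5 ≤ Nat.card (Fin n) := by simp only [Nat.card_eq_fintype_card, Fintype.card_fin]; omega
  have : Fact p.Prime := ⟨hp⟩
  have hnt : Nontrivial N := (Subgroup.nontrivial_iff_ne_bot N).2 h1
  have : Nontrivial (Fin n) := Fin.nontrivial_iff_two_le.2 (by omega)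
  have hA : alternatingGroup (Fin n) ≤ N := Equiv.Perm.alternatingGroup_le_of_normal h5 hnt
  obtain ⟨k, hk⟩ := IsPGroup.iff_card.1 (hP.to_le hA)
  have h2 : 2 * Nat.card (alternatingGroup (Fin n)) = n.factorial := by
    rw [two_mul_nat_card_alternatingGroup, Nat.card_perm, Nat.card_eq_fintype_card, Fintype.card_fin]
  have h3 : 2 * 60 ∣ 2 * p ^ k := by
    rw [← hk, h2]
    exact Nat.factorial_dvd_factorial (show 5 ≤ n by omega)
  have h4 : 60 ∣ p ^ k := Nat.dvd_of_mul_dvd_mul_left two_pos h3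
  have e2 := (Nat.prime_dvd_prime_iff_eq Nat.prime_two hp).1
    (Nat.prime_two.dvd_of_dvd_pow ((show 2 ∣ 60 by norm_num).trans h4))
  have e3 := (Nat.prime_dvd_prime_iff_eq Nat.prime_three hp).1
    (Nat.prime_three.dvd_of_dvd_pow ((show 3 ∣ 60 by norm_num).trans h4))
  omega

end H25.SimN4
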