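import Cfsg.Agent.H52.SimXSSpec

/-! # S3694, tower SIM, chapter XS: the job `Tau`. -/

set_option autoImplicit false

namespace H25.SimTau

open Subgroup Cfsg H98 Matrix H0.Sim H52.XS

section alg

variable {F A : Type} [Field F] [Ring A] [Algebra F A]

/-- `c₀ + c₁ B + c₂ B²`. -/
def gp (B : A) (c₀ c₁ c₂ : F) : A := c₀ • (1 : A) + c₁ • B + c₂ • (B * B)

theorem gp_mul {B : A} (h : B * B * B = 1) (a₀ a₁ a₂ c₀ c₁ c₂ : F) :
    gp B a₀ a₁ a₂ * gp B c₀ c₁ c₂ = gp B (a₀ * c₀ + a₁ * c₂ + a₂ * c₁)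
      (a₀ * c₁ + a₁ * c₀ + a₂ * c₂) (a₀ * c₂ + a₁ * c₁ + a₂ * c₀) := by
  have h1 : B * (B * B) = 1 := by rw [← mul_assoc, h]
  have h2 : B * B * (B * B) = B := by rw [← mul_assoc, h, one_mul]
  simp only [gp, mul_add, add_mul, smul_mul_assoc, mul_smul_comm, one_mul, mul_one, h, h1, h2]
  module

theorem mul_gp {B Y : A} {v : F} (h : Y * B = v • (B * Y)) (c₀ c₁ c₂ : F) :
    Y * gp B c₀ c₁ c₂ = gp B c₀ (v * c₁) (v * v * c₂) * Y := by
  have h1 : Y * (B * B) = (v * v) • (B * B * Y) := by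
    rw [← mul_assoc, h, smul_mul_assoc, mul_assoc, h, mul_smul_comm, smul_smul, ← mul_assoc]
  simp only [gp, mul_add, add_mul, smul_mul_assoc, mul_smul_comm, one_mul, mul_one, h, h1]
  module

theorem gp_congr (B : A) {a₀ a₁ a₂ c₀ c₁ c₂ : F} (h₀ : a₀ = c₀) (h₁ : a₁ = c₁) (h₂ : a₂ = c₂) :
    gp B a₀ a₁ a₂ = gp B c₀ c₁ c₂ := by rw [h₀, h₁, h₂]

theorem gp_one (B : A) : gp B (1 : F) 0 0 = 1 := by simp [gp]

theorem gp_eq (B : A) (c : F) : 1 + c • (1 + B + B * B) = gp B (1 + c) c c := by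
  simp only [gp]; module

end alg

theorem jobTau : JobTau := by
  intro had n F _ _ w b h4 hw hb hU
  obtain ⟨a1, a2, -, a4, a5, -, a7⟩ := had n F 2 (by rw [h4]; norm_num)
  have h2 : (2 : F) = 0 := by
    have h := FiniteField.cast_card_eq_zero F
    rw [h4] at h
    have : (2 : F) ^ 2 = 0 := by rw [← h]; norm_num
    exact pow_eq_zero_iff two_ne_zero |>.1 this
  have hB : (b : Mt n F) * b * b = 1 := by
    have := congrArg Units.val hb
    rwa [pow_three', Units.val_mul, Units.val_mul, Units.val_one] at this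
  set B : Mt n F := (b : Mt n F) with hBd
  have t1 : gp B (1 + w ^ 2) (w ^ 2) (w ^ 2) * gp B (1 + w) w w = 1 := by
    rw [gp_mul hB, ← gp_one (F := F) B]
    exact gp_congr B (by grind) (by grind) (by grind)
  have t2 : gp B (1 + w) w w * gp B (1 + w ^ 2) (w ^ 2) (w ^ 2) = 1 := by
    rw [gp_mul hB, ← gp_one (F := F) B]
    exact gp_congr B (by grind) (by grind) (by grind)
  have aB : ad 2 B = B * B := by
    have e := (a7 b).1 hU
    calc ad 2 B = ad 2 B * (B * B * B) := by rw [hB, mul_one]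
      _ = _ := by rw [← mul_assoc, ← mul_assoc, e, one_mul]
  have aT : ad 2 (gp B (1 + w ^ 2) (w ^ 2) (w ^ 2)) = gp B (1 + w) w w := by
    have h3 : B * B * (B * B) = B := by rw [← mul_assoc, hB, one_mul]
    have e1 : (1 + w ^ 2) ^ 2 = 1 + w := by grind
    have e2 : (w ^ 2) ^ 2 = w := by grind
    simp only [gp, a1, a2, a4, a5, aB, h3, e1, e2]
    abel
  let τ : GL (Fin n) F := ⟨_, _, t1, t2⟩
  have key : ∀ (y : GL (Fin n) F) (v : F), ((y * b * y⁻¹ : GL (Fin n) F) : Mt n F) = v • B →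
      ((τ * y * τ⁻¹ : GL (Fin n) F) : Mt n F) =
        gp B (1 + w ^ 2) (w ^ 2) (w ^ 2) * gp B (1 + w) (v * w) (v * v * w) * y := fun y v h => by
    have e : (y : Mt n F) * B = v • (B * y) := by
      rw [← smul_mul_assoc, ← h, ← Units.val_mul, ← Units.val_mul, inv_mul_cancel_right]
    show gp B _ _ _ * (y : Mt n F) * gp B (1 + w) w w = _
    rw [mul_assoc, mul_gp e, ← mul_assoc]
  refine ⟨τ, (a7 τ).2 (by show ad 2 (gp B _ _ _) * gp B _ _ _ = 1; rw [aT, t2]),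
    (gp_eq B _).symm, fun y h => Units.ext ?_, fun y h => ?_, fun y h => ?_⟩
  · rw [key y 1 (by rw [h, mul_inv_cancel_right, one_smul]), one_mul, one_mul, one_mul, t1, one_mul]
  · rw [key y w h, gp_mul hB, gp_congr B (c₀ := 0) (c₁ := 0) (c₂ := w) (by grind) (by grind)
      (by grind)]
    simp [gp, hBd]
  · rw [key y _ h, gp_mul hB, gp_congr B (c₀ := 0) (c₁ := w) (c₂ := 0) (by grind) (by grind)
      (by grind)]
    simp [gp, hBd]

end H25.SimTau
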