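/- A simple group with 22 Sylow 3-subgroups: the Sylow 11-normalizer. -/
import Cfsg.Agent.Base
import Cfsg.Agent.H25.PermFix

set_option autoImplicit false

namespace H25

open Subgroup MulAction Equiv

theorem card_orbit_subgroup {G X : Type*} [Group G] [MulAction G X] (R : Subgroup G) (x : X) :
    Nat.card (orbit R x) = (stabilizer G x).relIndex R := by
  rw [Nat.card_coe_set_eq, ← index_stabilizer]
  rfl

theorem mul_card_sdiff_support_le' {G X : Type*} [Group G] [MulAction G X] [Fintype X]
    [DecidableEq X] (hinj : Function.Injective (toPermHom G X)) {q : ℕ} [Fact q.Prime] {g u : G}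
    (hg : g ^ q = 1) (hu : u ∈ normalizer (zpowers g : Set G)) (hc : ¬ Commute u g) :
    q * ((toPermHom G X g).support \ (toPermHom G X u).support).card
      ≤ (toPermHom G X g).support.card := by
  refine mul_card_sdiff_support_le (by rw [← map_pow, hg, map_one]) ?_ ?_
  · rw [← MonoidHom.map_zpowers]
    exact le_normalizer_map _ ⟨u, hu, rfl⟩
  · intro h
    apply hc
    apply hinj
    rw [map_mul, map_mul]
    exact h

theorem relIndex_sylow_comm {G : Type*} [Group G] [Finite G] {p : ℕ} [Fact p.Prime]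
    (P Q : Sylow p G) : (Q : Subgroup G).relIndex P = (P : Subgroup G).relIndex Q := by
  have h1 := card_mul_relIndex' (inf_le_left : (P : Subgroup G) ⊓ Q ≤ P)
  have h2 := card_mul_relIndex' (inf_le_right : (P : Subgroup G) ⊓ Q ≤ Q)
  rw [inf_relIndex_left] at h1
  rw [inf_relIndex_right, Q.card_eq_multiplicity, ← P.card_eq_multiplicity, ← h1] at h2
  exact (Nat.eq_of_mul_eq_mul_left Nat.card_pos h2).symm

theorem sylow_eq_of_le {G : Type*} [Group G] {p : ℕ} {P Q : Sylow p G}
    (h : (P : Subgroup G) ≤ Q) : P = Q := Sylow.ext (P.is_maximal' Q.isPGroup' h).symm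

theorem smul_sylow_eq_iff_mem {G : Type*} [Group G] {p : ℕ} {g : G}
    (hg : IsPGroup p (zpowers g)) (Q : Sylow p G) : g • Q = Q ↔ g ∈ Q := by
  rw [Sylow.smul_eq_iff_mem_normalizer, ← zpowers_le, ← inf_eq_left, hg.inf_normalizer_sylow,
    inf_eq_left, zpowers_le]
  rfl

instance factPrimeEleven : Fact (Nat.Prime 11) := ⟨by norm_num⟩
instance factPrimeSeven : Fact (Nat.Prime 7) := ⟨by norm_num⟩

namespace S22

variable {S : Type*} [Group S] [Finite S] (hn : Nat.card (Sylow 3 S) = 22)
include hn

theorem three_dvd : 3 ∣ Nat.card S := by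
  by_contra h
  rw [card_sylow_eq_one_of_not_dvd h] at hn
  omega

theorem index_eq (P : Sylow 3 S) : (normalizer ((P : Subgroup S) : Set S)).index = 22 := by
  rw [← hn, P.card_eq_index_normalizer]; rfl

theorem card_eq (P : Sylow 3 S) :
    Nat.card S = 22 * Nat.card (normalizer ((P : Subgroup S) : Set S)) := by
  rw [← index_eq hn P, index_mul_card]

theorem prim : IsPreprimitive S (Sylow 3 S) := by
  have : Nontrivial (Sylow 3 S) := Finite.one_lt_card_iff_nontrivial.1 (by omega)
  obtain ⟨P⟩ : Nonempty (Sylow 3 S) := inferInstance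
  rw [← isCoatom_stabilizer_iff_preprimitive S P, P.stabilizer_eq_normalizer]
  have h22 := index_eq hn P
  refine ⟨fun h => ?_, fun M hM => ?_⟩
  · have h1 : (normalizer ((P : Subgroup S) : Set S)) = ⊤ := h
    rw [h1, index_top] at h22
    omega
  · have hM' : normalizer ((P : Subgroup S) : Set S) < M := hM
    have h1 := card_sylow_of_sylIn (H17.sylIn_of_sylow P (le_normalizer.trans hM'.le))
    have h2 := card_sylow_modEq_one 3 M
    have h3 := relIndex_mul_index hM'.le
    have h4 : (normalizer ((P : Subgroup S) : Set S)).relIndex M ≠ 1 := fun h =>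
      hM'.not_ge (relIndex_eq_one.1 h)
    rw [h1] at h2
    rw [h22] at h3
    rw [← index_eq_one]
    generalize (normalizer ((P : Subgroup S) : Set S)).relIndex M = a at *
    have h5 : a ≤ 22 := Nat.le_of_dvd (by norm_num) (Dvd.intro _ h3)
    unfold Nat.ModEq at h2
    interval_cases a <;> omega

theorem relIndex_eq {P Q : Sylow 3 S} (h : P ≠ Q) :
    (Q : Subgroup S).relIndex P = 3 ∨ (Q : Subgroup S).relIndex P = 9 := by
  obtain ⟨k, hk⟩ := P.isPGroup'.index ((Q : Subgroup S).subgroupOf P)
  have h2 : (Q : Subgroup S).relIndex P ≤ 22 := by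
    rw [← card_orbit_sylow P.isPGroup', ← hn]
    exact Nat.card_le_card_of_injective _ Subtype.val_injective
  have h3 : (Q : Subgroup S).relIndex P ≠ 1 := fun h' => h (sylow_eq_of_le (relIndex_eq_one.1 h'))
  rw [relIndex, hk] at *
  have h4 : k < 3 := (Nat.pow_lt_pow_iff_right (by norm_num : 1 < 3)).1 (by omega)
  interval_cases k <;> simp_all

variable [IsSimpleGroup S] (hS : ¬ IsMulCommutative S)
include hS

theorem inj : Function.Injective (toPermHom S (Sylow 3 S)) :=
  toPermHom_sylow_injective hS (three_dvd hn)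

variable [Fintype (Sylow 3 S)] [DecidableEq (Sylow 3 S)]

theorem noAlt : ¬ alternatingGroup (Sylow 3 S) ≤ (toPermHom S (Sylow 3 S)).range := by
  intro h
  have hc : Fintype.card (Sylow 3 S) = 22 := by rw [← Nat.card_eq_fintype_card, hn]
  obtain ⟨e⟩ : Nonempty (Fin 5 ↪ Sylow 3 S) :=
    Function.Embedding.nonempty_iff_card_le.2 (by simp [hc])
  have hne : ∀ i j : Fin 5, i ≠ j → e i ≠ e j := fun i j hij h => hij (e.injective h)
  have key : ∀ x y z : Sylow 3 S, x ≠ y → x ≠ z → y ≠ z → e 0 ≠ x → e 0 ≠ y → e 0 ≠ z →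
      ∃ g ∈ e 0, toPermHom S (Sylow 3 S) g = swap x y * swap x z := by
    intro x y z h1 h2 h3 h4 h5 h6
    have h7 := Perm.isThreeCycle_swap_mul_swap_same h1 h2 h3
    obtain ⟨g, hg⟩ := h h7.mem_alternatingGroup
    refine ⟨g, ?_, hg⟩
    have h8 : orderOf g = 3 := by rw [← orderOf_injective _ (inj hn hS), hg, h7.orderOf]
    rw [← smul_sylow_eq_iff_mem (IsPGroup.of_card (n := 1) (by rw [Nat.card_zpowers, h8]; rfl))]
    change toPermHom S (Sylow 3 S) g (e 0) = e 0
    rw [hg, Perm.mul_apply, swap_apply_of_ne_of_ne h4 h6, swap_apply_of_ne_of_ne h4 h5]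
  obtain ⟨a, ha, ha'⟩ := key (e 1) (e 2) (e 3) (hne _ _ (by decide)) (hne _ _ (by decide))
    (hne _ _ (by decide)) (hne _ _ (by decide)) (hne _ _ (by decide)) (hne _ _ (by decide))
  obtain ⟨b, hb, hb'⟩ := key (e 1) (e 2) (e 4) (hne _ _ (by decide)) (hne _ _ (by decide))
    (hne _ _ (by decide)) (hne _ _ (by decide)) (hne _ _ (by decide)) (hne _ _ (by decide))
  have h1 : toPermHom S (Sylow 3 S) (a * b) = swap (e 2) (e 3) * swap (e 1) (e 4) := by
    have := swap_mul_swap_mul_swap (x := e 3) (y := e 1) (z := e 2) (hne _ _ (by decide))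
      (hne _ _ (by decide))
    rw [map_mul, ha', hb', ← mul_assoc, swap_comm (e 1) (e 3), this]
  have h2 : orderOf (a * b) ∣ 2 := by
    rw [← orderOf_injective _ (inj hn hS), h1, orderOf_dvd_iff_pow_eq_one]
    have : Commute (swap (e 2) (e 3)) (swap (e 1) (e 4)) := by
      apply Perm.Disjoint.commute
      apply Perm.disjoint_swap_swap
      simp only [List.nodup_cons, List.mem_cons, List.not_mem_nil, or_false, not_or, List.nodup_nil]
      exact ⟨⟨hne _ _ (by decide), hne _ _ (by decide), hne _ _ (by decide)⟩,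
        ⟨hne _ _ (by decide), hne _ _ (by decide)⟩, hne _ _ (by decide), by simp, trivial⟩
    rw [this.mul_pow]
    simp [pow_two]
  have h3 := (e 0).isPGroup'.orderOf_coprime (n := 2) (by norm_num) ⟨a * b, mul_mem ha hb⟩
  rw [orderOf_mk] at h3
  have h4 : a * b = 1 := orderOf_eq_one_iff.1 (Nat.eq_one_of_dvd_coprimes h3 dvd_rfl h2)
  rw [h4, map_one] at h1
  have h5 := congrArg (fun f : Perm _ => f (e 4)) h1
  simp only [Perm.one_apply, Perm.mul_apply, swap_apply_right] at h5
  rw [swap_apply_of_ne_of_ne (hne _ _ (by decide)) (hne _ _ (by decide))] at h5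
  exact hne _ _ (by decide) h5

theorem support_eq_univ {g : S} (hg : orderOf g = 11) :
    (toPermHom S (Sylow 3 S) g).support = Finset.univ := by
  have hc : Fintype.card (Sylow 3 S) = 22 := by rw [← Nat.card_eq_fintype_card, hn]
  have h1 : orderOf (toPermHom S (Sylow 3 S) g) = 11 := by rw [orderOf_injective _ (inj hn hS), hg]
  have h2 := prime_dvd_card_support (orderOf_dvd_iff_pow_eq_one.1 h1.dvd)
  by_contra h
  have h3 := Finset.card_lt_card (Finset.ssubset_univ_iff.2 h)
  rw [Finset.card_univ, hc] at h3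
  have h4 := Perm.isCycle_of_prime_order (h1 ▸ factPrimeEleven.out) (by omega)
  exact noAlt hn hS (jordan_prime_cycle (isPreprimitive_range (prim hn)) factPrimeEleven.out
    (by omega) h4 (h4.orderOf.symm.trans h1) ⟨g, rfl⟩)

omit [Fintype (Sylow 3 S)] [DecidableEq (Sylow 3 S)] in
theorem exists_g_t : ∃ g t : S, orderOf g = 11 ∧ orderOf t = 2 ∧
    t ∈ normalizer (zpowers g : Set S) ∧ ¬ Commute t g ∧
    Nat.card (normalizer (zpowers g : Set S)) = 22 ∧ H17.SylIn 11 (zpowers g) ⊤ := by
  classical
  have : Fintype (Sylow 3 S) := Fintype.ofFinite _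
  have hc : Fintype.card (Sylow 3 S) = 22 := by rw [← Nat.card_eq_fintype_card, hn]
  obtain ⟨P⟩ : Nonempty (Sylow 3 S) := inferInstance
  have h1 := card_eq hn P
  obtain ⟨g, hg⟩ := exists_prime_orderOf_dvd_card' (G := S) 11 (by omega)
  have hcz : Nat.card (zpowers g) = 11 := by rw [Nat.card_zpowers, hg]
  have hsyl : H17.SylIn 11 (zpowers g) ⊤ := by
    refine ⟨le_top, IsPGroup.of_card (n := 1) hcz, fun h => ?_⟩
    rw [relIndex_top_right] at h
    have h2 := (zpowers g).card_mul_index
    rw [hcz] at h2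
    obtain ⟨c, hc'⟩ := exists_prime_orderOf_dvd_card'
      (G := normalizer ((P : Subgroup S) : Set S)) 11 (by omega)
    have h3 : P ∈ (toPermHom S (Sylow 3 S) c).support := by
      rw [support_eq_univ hn hS (by rw [orderOf_coe, hc'])]
      exact Finset.mem_univ _
    exact Perm.mem_support.1 h3 (Sylow.smul_eq_iff_mem_normalizer.2 c.2)
  obtain ⟨Q, hQ⟩ := hsyl.exists_sylow
  have hg1 : g ^ 11 = 1 := orderOf_dvd_iff_pow_eq_one.1 hg.dvd
  have hC : centralizer (zpowers g : Set S) = zpowers g := by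
    refine hsyl.eq_of_le ?_ le_top (le_centralizer _)
    rw [IsPGroup.iff_card]
    refine ⟨_, Nat.eq_prime_pow_of_unique_prime_dvd Nat.card_pos.ne' (fun {r} hr hrd => ?_)⟩
    have : Fact r.Prime := ⟨hr⟩
    obtain ⟨c, hc'⟩ := exists_prime_orderOf_dvd_card' r hrd
    refine prime_eq_of_commute_support (σ := toPermHom S (Sylow 3 S) g)
      (τ := toPermHom S (Sylow 3 S) c) (by norm_num) ?_ ?_ ?_ ?_ ?_ ?_ (sign_toPerm_of_simple hS _)
    · rw [← map_pow, hg1, map_one]
    · rw [← map_pow, ← hc', ← orderOf_coe, pow_orderOf_eq_one, map_one]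
    · rw [Ne, map_eq_one_iff _ (inj hn hS), OneMemClass.coe_eq_one]
      rintro rfl
      exact hr.one_lt.ne (by simpa using hc')
    · exact Commute.map (c.2 g (mem_zpowers g)) _
    · rw [support_eq_univ hn hS hg]; exact Finset.subset_univ _
    · rw [support_eq_univ hn hS hg, Finset.card_univ, hc]
  have hnc : ∀ u : S, (orderOf u).Prime → orderOf u ≠ 11 → ¬ Commute u g := by
    intro u hu hu' h
    have h2 : u ∈ centralizer (zpowers g : Set S) := by
      rintro _ ⟨k, rfl⟩
      exact (h.zpow_right k).symm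
    rw [hC] at h2
    have h3 := orderOf_dvd_of_mem_zpowers h2
    rw [hg] at h3
    exact hu' ((Nat.prime_dvd_prime_iff_eq hu factPrimeEleven.out).1 h3)
  have he := relIndex_centralizer_dvd_of_card_prime factPrimeEleven.out hcz
  have he1 : (centralizer (zpowers g : Set S)).relIndex (normalizer (zpowers g : Set S)) ≠ 1 := by
    rw [Ne, relIndex_eq_one, ← hQ]
    exact not_normalizer_le_centralizer hS Q (Q.ne_bot_of_dvd_card (by omega))
  have hN := card_mul_relIndex' (le_normalizer : zpowers g ≤ _)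
  rw [hC] at he he1
  rw [hcz] at hN
  have h5 : ¬ 5 ∣ Nat.card (normalizer (zpowers g : Set S)) := by
    intro h
    obtain ⟨u, hu⟩ := exists_prime_orderOf_dvd_card' 5 h
    rw [← orderOf_coe] at hu
    have h6 := mul_card_sdiff_support_le' (inj hn hS) hg1 u.2
      (hnc u (hu ▸ factPrimeFive.out) (by omega))
    have hu1 : (toPermHom S (Sylow 3 S) u) ^ 5 = 1 := by
      rw [← map_pow, orderOf_dvd_iff_pow_eq_one.1 hu.dvd, map_one]
    have h7 := prime_dvd_card_support hu1
    rw [support_eq_univ hn hS hg, ← Finset.compl_eq_univ_sdiff, Finset.card_univ, hc] at h6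
    have h8 := Finset.card_compl_add_card (toPermHom S (Sylow 3 S) u).support
    obtain ⟨a, b, hab, h9⟩ := Finset.card_eq_two.1
      (show ((toPermHom S (Sylow 3 S) u).supportᶜ).card = 2 by omega)
    have hfix : ∀ x, (u : S) • x = x ↔ x = a ∨ x = b := by
      intro x
      rw [← Finset.mem_singleton (a := b), ← Finset.mem_insert, ← h9, Finset.mem_compl,
        Perm.notMem_support]
      rfl
    have hO := prime_dvd_card_of_invariant hu1
      (s := (Finset.univ.filter (· ∈ orbit (a : Subgroup S) b)).erase b) ?_ ?_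
    · rw [Finset.card_erase_of_mem (by simp), ← Nat.card_eq_finsetCard] at hO
      have h10 : Nat.card (Finset.univ.filter (· ∈ orbit (a : Subgroup S) b))
          = Nat.card (orbit (a : Subgroup S) b) := by
        apply Nat.card_congr
        exact Equiv.subtypeEquivRight (by simp)
      rw [h10, card_orbit_sylow a.isPGroup'] at hO
      rcases relIndex_eq hn hab with h11 | h11 <;> rw [h11] at hO <;> omega
    · intro x hx
      simp only [Finset.mem_erase, Finset.mem_filter, Finset.mem_univ, true_and] at hx ⊢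
      have hb := (hfix b).2 (Or.inr rfl)
      have ha := Sylow.smul_eq_iff_mem_normalizer.1 ((hfix a).2 (Or.inl rfl))
      refine ⟨fun h => hx.1 (smul_left_cancel (u : S) (h.trans hb.symm)), ?_⟩
      obtain ⟨⟨y, hy⟩, rfl⟩ := hx.2
      refine ⟨⟨u * y * (u : S)⁻¹, (mem_set_normalizer_iff.1 ha y).1 hy⟩, ?_⟩
      change (u * y * (u : S)⁻¹) • b = (u : S) • y • b
      rw [mul_smul, mul_smul, inv_smul_eq_iff.2 hb.symm]
    · intro x hx
      simp only [Finset.mem_erase, Finset.mem_filter, Finset.mem_univ, true_and] at hx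
      rw [Perm.mem_support]
      intro h
      rcases (hfix x).1 h with rfl | rfl
      · obtain ⟨⟨y, hy⟩, hy'⟩ := hx.2
        have h11 : y • x = x := Sylow.smul_eq_iff_mem_normalizer.2
          (le_normalizer (H := (x : Subgroup S)) hy)
        exact hab (smul_left_cancel y (h11.trans hy'.symm))
      · exact hx.1 rfl
  have h22 : Nat.card (normalizer (zpowers g : Set S)) = 22 := by
    generalize (zpowers g).relIndex (normalizer (zpowers g : Set S)) = e at *
    have : e ≤ 10 := Nat.le_of_dvd (by norm_num) he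
    interval_cases e <;> omega
  obtain ⟨t, ht⟩ := exists_prime_orderOf_dvd_card' (G := normalizer (zpowers g : Set S)) 2
    (by omega)
  rw [← orderOf_coe] at ht
  exact ⟨g, t, hg, ht, t.2, hnc t (ht ▸ Nat.prime_two) (by omega), h22, hsyl⟩

omit [Fintype (Sylow 3 S)] [DecidableEq (Sylow 3 S)] in
theorem index_ne_eleven (M : Subgroup S) : M.index ≠ 11 := by
  classical
  intro hM
  obtain ⟨g, t, hg, ht, htn, hc, -, -⟩ := exists_g_t hn hS
  have : Fintype (S ⧸ M) := Fintype.ofFinite _
  have hcard : Fintype.card (S ⧸ M) = 11 := by rw [← Nat.card_eq_fintype_card, ← hM]; rfl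
  have : Nontrivial (S ⧸ M) := Fintype.one_lt_card_iff_nontrivial.1 (by omega)
  obtain ⟨x, y, hxy⟩ := exists_pair_ne (S ⧸ M)
  obtain ⟨s, rfl⟩ := exists_smul_eq S x y
  have hinj := toPermHom_injective_of_simple hxy.symm
  have hg1 : g ^ 11 = 1 := orderOf_dvd_iff_pow_eq_one.1 hg.dvd
  have h1 := mul_card_sdiff_support_le' hinj hg1 htn hc
  have h2 := four_dvd_card_support (σ := toPermHom S (S ⧸ M) t)
    (by rw [← map_pow, orderOf_dvd_iff_pow_eq_one.1 ht.dvd, map_one]) (sign_toPerm_of_simple hS t)
  have h3 := prime_dvd_card_support (σ := toPermHom S (S ⧸ M) g) (p := 11)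
    (by rw [← map_pow, hg1, map_one])
  have h4 : (toPermHom S (S ⧸ M) g).support.card ≠ 0 := by
    rw [Ne, Finset.card_eq_zero, Perm.support_eq_empty_iff, map_eq_one_iff _ hinj]
    rintro rfl
    simp at hg
  have h5 := (toPermHom S (S ⧸ M) g).support.card_le_univ
  have h6 := (toPermHom S (S ⧸ M) t).support.card_le_univ
  have h7 := Finset.le_card_sdiff (toPermHom S (S ⧸ M) t).support (toPermHom S (S ⧸ M) g).support
  omega

omit [Fintype (Sylow 3 S)] [DecidableEq (Sylow 3 S)] in
theorem card_normalizer (P : Sylow 3 S) :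
    Nat.card (normalizer ((P : Subgroup S) : Set S)) % 11 = 1 ∧
      Nat.card (normalizer ((P : Subgroup S) : Set S)) ≠ 12 := by
  classical
  obtain ⟨g, t, hg, ht, htn, hc, h22, hsyl⟩ := exists_g_t hn hS
  obtain ⟨Q, hQ⟩ := hsyl.exists_sylow
  have h1 : Nat.card (Sylow 11 S) = Nat.card (normalizer ((P : Subgroup S) : Set S)) := by
    have h2 := (normalizer (zpowers g : Set S)).card_mul_index
    have h3 : Nat.card (Sylow 11 S) = (normalizer (zpowers g : Set S)).index := by
      rw [Q.card_eq_index_normalizer, ← hQ]; rfl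
    rw [h22, card_eq hn P] at h2
    omega
  rw [← h1]
  refine ⟨card_sylow_modEq_one 11 S, fun h12 => ?_⟩
  have : Fintype (Sylow 11 S) := Fintype.ofFinite _
  have hcard : Fintype.card (Sylow 11 S) = 12 := by rw [← Nat.card_eq_fintype_card, h12]
  have hinj := toPermHom_sylow_injective (p := 11) hS (by rw [card_eq hn P]; omega)
  have hg1 : g ^ 11 = 1 := orderOf_dvd_iff_pow_eq_one.1 hg.dvd
  have h1 := mul_card_sdiff_support_le' hinj hg1 htn hc
  have h2 := four_dvd_card_support (σ := toPermHom S (Sylow 11 S) t)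
    (by rw [← map_pow, orderOf_dvd_iff_pow_eq_one.1 ht.dvd, map_one]) (sign_toPerm_of_simple hS t)
  have h3 := prime_dvd_card_support (σ := toPermHom S (Sylow 11 S) g) (p := 11)
    (by rw [← map_pow, hg1, map_one])
  have h4 : (toPermHom S (Sylow 11 S) g).support.card ≠ 0 := by
    rw [Ne, Finset.card_eq_zero, Perm.support_eq_empty_iff, map_eq_one_iff _ hinj]
    rintro rfl
    simp at hg
  have h5 := (toPermHom S (Sylow 11 S) g).support.card_le_univ
  have h6 : (toPermHom S (Sylow 11 S) t).support.card < Fintype.card (Sylow 11 S) := by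
    apply Finset.card_lt_univ_of_notMem (x := Q)
    rw [Perm.notMem_support]
    apply Sylow.smul_eq_iff_mem_normalizer.2
    rw [← hQ] at htn
    exact htn
  have h7 := Finset.le_card_sdiff (toPermHom S (Sylow 11 S) t).support
    (toPermHom S (Sylow 11 S) g).support
  omega

end S22

end H25
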