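/- No simple group has exactly 22 Sylow 3-subgroups. -/
import Cfsg.Agent.Base
import Cfsg.Agent.H25.Syl22a

set_option autoImplicit false

namespace H25

open Subgroup MulAction Equiv
open scoped Pointwise

theorem le_normalizer_of_relIndex_eq_prime {G : Type*} [Group G] [Finite G] {p : ℕ}
    [hp : Fact p.Prime] {D P : Subgroup G} (hP : IsPGroup p P) (h : D ≤ P)
    (hi : D.relIndex P = p) : P ≤ normalizer (D : Set G) := by
  have hN : (D.subgroupOf P).Normal := by
    apply normal_of_index_eq_minFac_card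
    obtain ⟨k, hk⟩ := hP.exists_card_eq
    have hk0 : k ≠ 0 := by
      rintro rfl
      have := relIndex_dvd_card D P
      rw [hi, hk, pow_zero, Nat.dvd_one] at this
      exact hp.out.one_lt.ne' this
    rw [hk, Nat.pow_minFac hk0, hp.out.minFac_eq]
    exact hi
  exact le_normalizer_of_normal_subgroupOf h

theorem mem_orbit_of_card_le {G X : Type*} [Group G] [MulAction G X] (Y : Finset X)
    (hY : ∀ y ∈ Y, ∀ g : G, g • y ∈ Y) {y : X} (hy : y ∈ Y) (h : Y.card ≤ Nat.card (orbit G y)) :
    ∀ z ∈ Y, z ∈ orbit G y := by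
  have h1 : orbit G y ⊆ (Y : Set X) := by
    rintro _ ⟨g, rfl⟩
    exact hY y hy g
  have h2 := Set.eq_of_subset_of_ncard_le h1 (by rwa [Set.ncard_coe_finset, ← Nat.card_coe_set_eq])
  intro z hz
  rw [h2]
  exact hz

theorem relIndex_sylow_smul {G : Type*} [Group G] {p : ℕ} (g : G) (P Q : Sylow p G) :
    ((g • Q : Sylow p G) : Subgroup G).relIndex (g • P : Sylow p G) = (Q : Subgroup G).relIndex P := by
  rw [Sylow.coe_subgroup_smul, Sylow.coe_subgroup_smul, relIndex_pointwise_smul]

namespace S22

variable {S : Type*} [Group S] [Finite S] (hn : Nat.card (Sylow 3 S) = 22)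
  [IsSimpleGroup S] (hS : ¬ IsMulCommutative S)
include hn hS

theorem card_ne_three (P : Sylow 3 S) : Nat.card P ≠ 3 := by
  classical
  intro hP
  have : Fintype (Sylow 3 S) := Fintype.ofFinite _
  have hc : Fintype.card (Sylow 3 S) = 22 := by rw [← Nat.card_eq_fintype_card, hn]
  have hinj := inj hn hS
  set φ := toPermHom S (Sylow 3 S) with hφ
  obtain ⟨⟨x, hxP⟩, hx⟩ := exists_prime_orderOf_dvd_card' (G := P) 3 hP.symm.dvd
  rw [orderOf_mk] at hx
  have hxz : zpowers x = P := eq_of_le_of_card_ge (by simpa) (by rw [Nat.card_zpowers, hP, hx])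
  have hx1 : φ x ^ 3 = 1 := by rw [← map_pow, orderOf_dvd_iff_pow_eq_one.1 hx.dvd, map_one]
  have hsupp : (φ x).support = Finset.univ.erase P := by
    ext Q
    rw [Perm.mem_support, Finset.mem_erase]
    simp only [hφ, toPermHom_apply, toPerm_apply, Finset.mem_univ, and_true, Ne]
    rw [smul_sylow_eq_iff_mem (hxz ▸ P.isPGroup'), ← SetLike.mem_coe, ← Sylow.coe_coe,
      SetLike.mem_coe, ← zpowers_le, hxz]
    exact not_congr ⟨fun h => (sylow_eq_of_le h).symm, fun h => h ▸ le_rfl⟩
  have h21 : (φ x).support.card = 21 := by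
    rw [hsupp, Finset.card_erase_of_mem (Finset.mem_univ _), Finset.card_univ, hc]
  set C := centralizer ((P : Subgroup S) : Set S) with hC
  have hCs : ∀ c ∈ C, Commute (φ x) (φ c) ∧ (φ c).support ⊆ (φ x).support := by
    intro c hc'
    refine ⟨Commute.map (hc' x hxP) _, fun Q hQ => ?_⟩
    rw [hsupp, Finset.mem_erase]
    refine ⟨?_, Finset.mem_univ _⟩
    rintro rfl
    exact Perm.mem_support.1 hQ
      (Sylow.smul_eq_iff_mem_normalizer.2 (centralizer_le_normalizer _ hc'))
  have hne : ∀ c : S, c ≠ 1 → (φ c).support.card ≠ 0 := by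
    intro c hc'
    rwa [Ne, Finset.card_eq_zero, Perm.support_eq_empty_iff, map_eq_one_iff _ hinj]
  have hdvd : Nat.card C ∣ 3 ^ 9 * 560 := by
    have h1 : C.map φ ≤ centralizer {φ x} := by
      rintro _ ⟨c, hc', rfl⟩
      rw [mem_centralizer_singleton_iff]
      exact (hCs c hc').1.symm
    have h2 := card_dvd_of_le h1
    have h3 := Perm.cycleType_of_pow_prime_eq_one hx1
    have h4 := (φ x).sum_cycleType
    rw [h3, Multiset.sum_replicate, h21, smul_eq_mul] at h4
    rw [show (φ x).cycleType.card = 7 by omega] at h3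
    rw [card_map_of_injective hinj, Perm.nat_card_centralizer, h3, hc] at h2
    simpa [Nat.factorial] using h2
  have hcyc : IsCyclic P := isCyclic_of_prime_card hP
  have hPC : (P : Subgroup S) ≤ C := le_centralizer _
  have he := relIndex_centralizer_dvd_of_card_prime Nat.prime_three hP
  have he1 : C.relIndex (normalizer ((P : Subgroup S) : Set S)) ≠ 1 := by
    rw [Ne, relIndex_eq_one]
    exact not_normalizer_le_centralizer hS P (P.ne_bot_of_dvd_card (three_dvd hn))
  have he2 := ((Nat.dvd_prime Nat.prime_two).1 he).resolve_left he1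
  have hN := card_mul_relIndex' (centralizer_le_normalizer ((P : Subgroup S) : Set S))
  have hk := card_mul_relIndex' hPC
  have hk3 := (H17.sylIn_of_sylow P hPC).2.2
  obtain ⟨hm1, hm2⟩ := card_normalizer hn hS P
  rw [he2, ← hC] at hN
  rw [hP] at hk
  have hCc : Nat.card C = 105 ∨ Nat.card C = 336 := by
    generalize (P : Subgroup S).relIndex C = k at *
    have h1 : k ∣ 560 := Nat.Coprime.dvd_of_dvd_mul_left
      (Nat.Coprime.pow_right _ ((Nat.Prime.coprime_iff_not_dvd Nat.prime_three).2 hk3).symm)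
      ((Dvd.intro_left _ hk).trans hdvd)
    obtain ⟨i, rfl⟩ : ∃ i, k = 11 * i + 2 := ⟨k / 11, by omega⟩
    have h2 := Nat.le_of_dvd (by norm_num) h1
    have h3 : i ≤ 50 := by omega
    interval_cases i <;> omega
  obtain ⟨⟨y, hyC⟩, hy⟩ := exists_prime_orderOf_dvd_card' (G := C) 7
    (by rcases hCc with h | h <;> rw [h] <;> norm_num)
  rw [orderOf_mk] at hy
  have hy0 : y ^ 7 = 1 := orderOf_dvd_iff_pow_eq_one.1 hy.dvd
  have hy1 : φ y ^ 7 = 1 := by rw [← map_pow, hy0, map_one]
  have hcz : Nat.card (zpowers y) = 7 := by rw [Nat.card_zpowers, hy]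
  have hyC' : zpowers y ≤ C := by simpa
  have hsyl : H17.SylIn 7 (zpowers y) C := by
    refine ⟨hyC', IsPGroup.of_card (n := 1) hcz, ?_⟩
    have := card_mul_relIndex' hyC'
    rw [hcz] at this
    generalize Nat.card C = c at this hCc
    clear * - this hCc
    omega
  have hsy : (φ y).support = (φ x).support := by
    apply Finset.eq_of_subset_of_card_le (hCs y hyC).2
    have h1 := prime_dvd_card_support_of_commute hx1 (hCs y hyC).1 (hCs y hyC).2
    have h2 := prime_dvd_card_support hy1
    have h3 := hne y (by rintro rfl; simp at hy)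
    rw [h21]
    generalize (φ y).support.card = c at h1 h2 h3
    clear * - h1 h2 h3
    omega
  have hn7 := card_sylow_modEq_one 7 C
  rw [card_sylow_of_sylIn hsyl, ← inf_relIndex_right] at hn7
  set W := normalizer (zpowers y : Set S) ⊓ C with hW
  have hWc : Nat.card W * W.relIndex C = Nat.card C := card_mul_relIndex' inf_le_right
  have hW3 : 3 ∣ Nat.card W := by
    rw [← hP]
    refine card_dvd_of_le (le_inf (le_trans ?_ (centralizer_le_normalizer _)) hPC)
    rw [le_centralizer_iff]
    exact hyC'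
  have hW7 : 7 ∣ Nat.card W := hcz ▸ card_dvd_of_le (le_inf le_normalizer hyC')
  have hWr : ∀ r, r = 2 ∨ r = 5 → ¬ r ∣ Nat.card W := by
    intro r hr hrd
    have : Fact r.Prime := ⟨by rcases hr with rfl | rfl <;> norm_num⟩
    obtain ⟨⟨w, hwW⟩, hw⟩ := exists_prime_orderOf_dvd_card' r hrd
    rw [orderOf_mk] at hw
    obtain ⟨hwN, hwC⟩ := mem_inf.1 hwW
    have hw1 : φ w ^ r = 1 := by rw [← map_pow, orderOf_dvd_iff_pow_eq_one.1 hw.dvd, map_one]
    have h1 := prime_dvd_card_support_of_commute hx1 (hCs w hwC).1 (hCs w hwC).2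
    have h2 := prime_dvd_card_support hw1
    have h3 := hne w (by rintro rfl; rw [orderOf_one] at hw; exact this.out.one_lt.ne hw)
    have h4 := Finset.card_le_card (hCs w hwC).2
    rw [h21] at h4
    by_cases hcm : Commute w y
    · have h5 := prime_dvd_card_support_of_commute hy1 (hcm.symm.map φ) (hsy ▸ (hCs w hwC).2)
      generalize (φ w).support.card = c at h1 h2 h3 h4 h5
      clear * - h1 h2 h3 h4 h5 hr
      rcases hr with rfl | rfl <;> omega
    · have h5 := mul_card_sdiff_support_le' hinj hy0 hwN hcm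
      have h6 := Finset.le_card_sdiff (φ w).support (φ y).support
      rw [← hφ] at h5
      generalize ((φ y).support \ (φ w).support).card = d at h5 h6
      rw [hsy, h21] at h5 h6
      rcases hr with rfl | rfl
      · have h7 := four_dvd_card_support hw1 (sign_toPerm_of_simple hS w)
        generalize (φ w).support.card = c at h1 h2 h3 h4 h6 h7
        clear * - h1 h2 h3 h4 h5 h6 h7
        omega
      · generalize (φ w).support.card = c at h1 h2 h3 h4 h6
        clear * - h1 h2 h3 h4 h5 h6
        omega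
  have h2 := hWr 2 (Or.inl rfl)
  have h5 := hWr 5 (Or.inr rfl)
  obtain ⟨j, hj⟩ : 21 ∣ Nat.card W :=
    Nat.Coprime.mul_dvd_of_dvd_of_dvd (by norm_num : Nat.Coprime 3 7) hW3 hW7
  unfold Nat.ModEq at hn7
  rw [hj] at hWc h2 h5
  generalize W.relIndex C = m at hWc hn7
  generalize Nat.card C = c at hWc hCc
  clear * - hWc hCc hn7 h2 h5
  have h6 : j * m = 5 ∨ j * m = 16 := by
    rw [mul_assoc] at hWc
    omega
  have h7 : j ≤ 16 := by
    rcases h6 with h | h
    · exact (Nat.le_of_dvd (by norm_num) (Dvd.intro _ h)).trans (by norm_num)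
    · exact Nat.le_of_dvd (by norm_num) (Dvd.intro _ h)
  interval_cases j <;> omega

theorem orbit_of_relIndex_three {a b : Sylow 3 S} (hab : (b : Subgroup S).relIndex a = 3) :
    2 ∣ Nat.card (orbit (stabilizer S a) b) ∧ 12 ≤ Nat.card (orbit (stabilizer S a) b) := by
  have hab' : a ≠ b := by
    rintro rfl
    simp at hab
  set D : Subgroup S := (a : Subgroup S) ⊓ b with hD
  set M := normalizer (D : Set S) with hM
  have hDa : D.relIndex a = 3 := by rw [hD, inf_relIndex_left, hab]
  have hDb : D.relIndex b = 3 := by rw [hD, inf_relIndex_right, ← relIndex_sylow_comm, hab]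
  have haM : (a : Subgroup S) ≤ M := le_normalizer_of_relIndex_eq_prime a.isPGroup' inf_le_left hDa
  have hbM : (b : Subgroup S) ≤ M := le_normalizer_of_relIndex_eq_prime b.isPGroup' inf_le_right hDb
  have hM1 : M.index ≠ 1 := by
    rw [Ne, index_eq_one, hM, normalizer_eq_top_iff]
    intro h
    rcases h.eq_bot_or_eq_top with h1 | h1
    · rw [h1, relIndex_bot_left] at hDa
      exact card_ne_three hn hS a hDa
    · rw [h1, relIndex_top_left] at hDa
      omega
  have hst : ∀ c : Sylow 3 S, stabilizer S c = normalizer ((c : Subgroup S) : Set S) :=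
    fun c => c.stabilizer_eq_normalizer
  have hs1 : (stabilizer S a).relIndex M % 3 = 1 := by
    rw [hst, ← card_sylow_of_sylIn (H17.sylIn_of_sylow a haM)]
    exact card_sylow_modEq_one 3 M
  have hs2 : (stabilizer S a).relIndex M ≠ 1 := by
    rw [Ne, relIndex_eq_one, hst]
    intro h
    apply hab'
    have := b.isPGroup'.inf_normalizer_sylow a
    rw [inf_of_le_left (show (b : Subgroup S) ≤ normalizer (a : Set S) from hbM.trans h),
      eq_comm, inf_eq_left] at this
    exact (sylow_eq_of_le this).symm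
  have hidx : (stabilizer S a).relIndex M * M.index = M.relIndex (stabilizer S a) * 22 := by
    rw [← index_eq hn a, ← hst, ← inf_relIndex_right, relIndex_mul_index inf_le_right,
      ← inf_relIndex_left (stabilizer S a) M, relIndex_mul_index inf_le_left]
  have hinf : ∀ c ∈ orbit M a, c ≠ a → (a : Subgroup S) ⊓ c = D := by
    rintro _ ⟨⟨m, hm⟩, rfl⟩ hc
    have h1 : D ≤ (a : Subgroup S) ⊓ (m • a : Sylow 3 S) := by
      refine le_inf inf_le_left fun d hd => ?_
      rw [Sylow.coe_subgroup_smul, mem_pointwise_smul_iff_inv_smul_mem]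
      have := ((mem_normalizer_iff''.1 hm d).1 hd).1
      have h0 : (MulAut.conj m)⁻¹ • d = m⁻¹ * d * m := by simp [MulAut.smul_def]
      rw [h0]
      exact this
    have h2 := relIndex_mul_relIndex _ _ _ h1 inf_le_left
    rw [hDa] at h2
    rcases (Nat.dvd_prime Nat.prime_three).1 (Dvd.intro _ h2) with h3 | h3
    · exact le_antisymm (relIndex_eq_one.1 h3) h1
    · rw [h3] at h2
      have h4 : ((a : Subgroup S) ⊓ (m • a : Sylow 3 S)).relIndex a = 1 := by omega
      rw [inf_relIndex_left, relIndex_eq_one] at h4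
      exact absurd (sylow_eq_of_le h4).symm hc
  have hbound : M.relIndex (stabilizer S a) * ((stabilizer S a).relIndex M - 1) ≤ 21 := by
    have h1 : Nat.card {c : Sylow 3 S // c ≠ a} = 21 := by
      change Nat.card ({c | c ≠ a} : Set _) = 21
      have : {c | c ≠ a} = Set.univ \ {a} := by ext; simp
      rw [Nat.card_coe_set_eq, this, Set.ncard_sdiff_singleton_of_mem (Set.mem_univ a),
        Set.ncard_univ, hn]
    have h2 : Nat.card (orbit M a \ {a} : Set _) = (stabilizer S a).relIndex M - 1 := by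
      rw [Nat.card_coe_set_eq, Set.ncard_sdiff_singleton_of_mem (mem_orbit_self a),
        ← Nat.card_coe_set_eq, card_orbit_subgroup]
    rw [← h1, ← h2, relIndex, index, ← Nat.card_prod]
    refine Nat.card_le_card_of_injective (fun z => ⟨(z.1.out : S) • z.2.1, fun h => z.2.2.2 ?_⟩) ?_
    · exact smul_left_cancel _ (h.trans z.1.out.2.symm)
    rintro ⟨q1, c1, hc1, hc1'⟩ ⟨q2, c2, hc2, hc2'⟩ h
    have h3 : (q1.out : S) • c1 = (q2.out : S) • c2 := congrArg Subtype.val h
    have h4 : q1 = q2 := by
      rw [← q1.out_eq', ← q2.out_eq', QuotientGroup.eq, mem_subgroupOf]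
      apply conjAct_pointwise_smul_iff.1
      have h5 : ((q1.out⁻¹ * q2.out : stabilizer S a) : S) • c2 = c1 := by
        rw [coe_mul, mul_smul, ← h3, coe_inv, inv_smul_smul]
      have h6 : ((q1.out⁻¹ * q2.out : stabilizer S a) : S) • a = a := (q1.out⁻¹ * q2.out).2
      generalize ((q1.out⁻¹ * q2.out : stabilizer S a) : S) = u at h5 h6
      change MulAut.conj u • D = D
      nth_rewrite 1 [← hinf c2 hc2 hc2']
      rw [smul_inf, ← Sylow.coe_subgroup_smul, ← Sylow.coe_subgroup_smul, h5, h6, hinf c1 hc1 hc1']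
    subst h4
    have := smul_left_cancel _ h3
    subst this
    rfl
  have hr0 : M.relIndex (stabilizer S a) ≠ 0 := index_ne_zero_of_finite
  have h11 := index_ne_eleven hn hS M
  have hr : M.relIndex (stabilizer S a) = 4 ∨ M.relIndex (stabilizer S a) = 6 := by
    generalize M.relIndex (stabilizer S a) = r at *
    generalize (stabilizer S a).relIndex M = s at *
    generalize M.index = i at *
    have h1 : s - 1 ≤ 21 := le_trans (Nat.le_mul_of_pos_left _ (by omega)) hbound
    have h2 : s ≤ 22 := by omega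
    interval_cases s <;> omega
  have hle : stabilizer S b ⊓ stabilizer S a ≤ stabilizer S a ⊓ M := by
    refine le_inf inf_le_right ?_
    rw [hst, hst, inf_comm]
    exact inf_normalizer_le_normalizer_inf
  have ho := relIndex_mul_relIndex _ _ _ hle inf_le_left
  rw [inf_relIndex_right, inf_relIndex_left] at ho
  have hv : 3 ≤ (stabilizer S b ⊓ stabilizer S a).relIndex (stabilizer S a ⊓ M) := by
    have h1 : (a : Subgroup S) ≤ stabilizer S a ⊓ M := le_inf (hst a ▸ le_normalizer) haM
    refine le_trans ?_ (relIndex_le_of_le_right h1 index_ne_zero_of_finite)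
    rw [← inf_relIndex_right, inf_assoc, inf_of_le_right (h1.trans inf_le_left), inf_relIndex_right,
      ← card_orbit_subgroup, card_orbit_sylow a.isPGroup', hab]
  rw [card_orbit_subgroup, ← ho]
  rcases hr with h | h <;> rw [h] <;> omega

theorem false_of_simple : False := by
  classical
  have : Fintype (Sylow 3 S) := Fintype.ofFinite _
  have hc : Fintype.card (Sylow 3 S) = 22 := by rw [← Nat.card_eq_fintype_card, hn]
  let F : ℕ → Sylow 3 S → Finset (Sylow 3 S) := fun k a =>
    Finset.univ.filter (fun b : Sylow 3 S => (b : Subgroup S).relIndex a = k)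
  have hF : ∀ k a b, b ∈ F k a ↔ (b : Subgroup S).relIndex a = k := by simp [F]
  have hinv : ∀ k a, ∀ b ∈ F k a, ∀ g : S, g • a = a → g • b ∈ F k a := by
    intro k a b hb g hg
    rw [hF] at hb ⊢
    rw [← hb, ← relIndex_sylow_smul g a b, hg]
  have hinv1 : ∀ k a, ∀ b ∈ F k a, ∀ g : (a : Subgroup S), g • b ∈ F k a := fun k a b hb g =>
    hinv k a b hb g (Sylow.smul_eq_iff_mem_normalizer.2 (le_normalizer (H := (a : Subgroup S)) g.2))
  have hinv2 : ∀ k a, ∀ b ∈ F k a, ∀ g : stabilizer S a, g • b ∈ F k a := fun k a b hb g =>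
    hinv k a b hb g g.2
  have hcard : ∀ a, (F 9 a).card = 9 ∧ (F 3 a).card = 12 := by
    intro a
    have h1 := dvd_card_of_orbits (F 9 a) 9 (hinv1 9 a) (fun b hb => by
      rw [card_orbit_sylow a.isPGroup', (hF _ _ _).1 hb])
    have h2 := dvd_card_of_orbits (F 3 a) 2 (hinv2 3 a) (fun b hb =>
      (orbit_of_relIndex_three hn hS ((hF _ _ _).1 hb)).1)
    have h3 : F 9 a ∪ F 3 a = Finset.univ.erase a := by
      ext b
      rw [Finset.mem_union, hF, hF, Finset.mem_erase]
      constructor
      · intro h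
        refine ⟨?_, Finset.mem_univ _⟩
        rintro rfl
        simp at h
      · intro h
        exact (relIndex_eq hn h.1.symm).symm
    have h4 : Disjoint (F 9 a) (F 3 a) := by
      rw [Finset.disjoint_left]
      intro b h1 h2
      rw [hF] at h1 h2
      omega
    have h5 := Finset.card_union_of_disjoint h4
    rw [h3, Finset.card_erase_of_mem (Finset.mem_univ _), Finset.card_univ, hc] at h5
    omega
  have htr : ∀ k, k = 9 ∨ k = 3 → ∀ a b a' b' : Sylow 3 S, b ∈ F k a → b' ∈ F k a' →
      ∃ g : S, g • a = a' ∧ g • b = b' := by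
    intro k hk a b a' b' hb hb'
    obtain ⟨g, rfl⟩ := exists_smul_eq S a a'
    have h1 : g⁻¹ • b' ∈ F k a := by
      rw [hF] at hb' ⊢
      rw [← hb', ← relIndex_sylow_smul g, smul_inv_smul]
    have h2 : ∃ h : S, h • a = a ∧ h • b = g⁻¹ • b' := by
      rcases hk with rfl | rfl
      · obtain ⟨h, hh⟩ := mem_orbit_of_card_le _ (hinv1 9 a) hb (by
          rw [(hcard a).1, card_orbit_sylow a.isPGroup', (hF _ _ _).1 hb]) _ h1
        exact ⟨h, Sylow.smul_eq_iff_mem_normalizer.2 (le_normalizer (H := (a : Subgroup S)) h.2), hh⟩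
      · obtain ⟨h, hh⟩ := mem_orbit_of_card_le _ (hinv2 3 a) hb (by
          rw [(hcard a).2]; exact (orbit_of_relIndex_three hn hS ((hF _ _ _).1 hb)).2) _ h1
        exact ⟨h, h.2, hh⟩
    obtain ⟨h, hh1, hh2⟩ := h2
    exact ⟨g * h, by rw [mul_smul, hh1], by rw [mul_smul, hh2, smul_inv_smul]⟩
  let Γ : SimpleGraph (Sylow 3 S) :=
    { Adj := fun x y => (y : Subgroup S).relIndex x = 9
      symm := ⟨fun x y h => by rwa [relIndex_sylow_comm]⟩
      loopless := ⟨fun x h => by simp at h⟩ }
  have hcn : ∀ (g : S) (x y : Sylow 3 S), Fintype.card (Γ.commonNeighbors (g • x) (g • y))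
      = Fintype.card (Γ.commonNeighbors x y) := by
    intro g x y
    refine (Fintype.card_congr (Equiv.subtypeEquiv (toPerm g) fun z => ?_)).symm
    simp only [SimpleGraph.mem_commonNeighbors, Γ, toPerm_apply, relIndex_sylow_smul]
  obtain ⟨a⟩ : Nonempty (Sylow 3 S) := inferInstance
  obtain ⟨b, hb⟩ := Finset.card_pos.1 (show 0 < (F 9 a).card by rw [(hcard a).1]; norm_num)
  obtain ⟨c, hc'⟩ := Finset.card_pos.1 (show 0 < (F 3 a).card by rw [(hcard a).2]; norm_num)
  refine no_srg_22_9 Γ (l := Fintype.card (Γ.commonNeighbors a b))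
    (m := Fintype.card (Γ.commonNeighbors a c)) ⟨hc, fun x => ?_, fun x y h => ?_, fun x y h h' => ?_⟩
  · refine Eq.trans ?_ (hcard x).1
    rw [← SimpleGraph.card_neighborFinset_eq_degree]
    congr 1
    ext y
    rw [SimpleGraph.mem_neighborFinset, hF]
  · obtain ⟨g, rfl, rfl⟩ := htr 9 (Or.inl rfl) a b x y hb ((hF _ _ _).2 h)
    exact hcn g a b
  · obtain ⟨g, rfl, rfl⟩ := htr 3 (Or.inr rfl) a c x y hc'
      ((hF _ _ _).2 ((relIndex_eq hn h).resolve_right h'))
    exact hcn g a c

end S22

end H25
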